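import Mathlib

set_option autoImplicit false

namespace Cfsg.Agent.Lib.Helper33.SpecElts

open scoped Pointwise

variable {G : Type*} [Group G]

/-- One-sided normalizer criterion in a finite group. -/
theorem mem_normalizer_of_conj_mem [Finite G] (H : Subgroup G) (g : G)
    (h : ∀ x ∈ H, g * x * g⁻¹ ∈ H) : g ∈ Subgroup.normalizer (H : Set G) := by
  rw [Subgroup.mem_normalizer_iff]
  intro a
  refine ⟨h a, fun ha => ?_⟩
  let f : H → H := fun x => ⟨g * x * g⁻¹, h x x.2⟩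
  have hf : Function.Injective f := by
    intro x y hxy
    have := congrArg Subtype.val hxy
    simp only [f] at this
    exact Subtype.ext (by simpa using this)
  obtain ⟨x, hx⟩ := (Finite.injective_iff_surjective.mp hf) ⟨g * a * g⁻¹, ha⟩
  have := congrArg Subtype.val hx
  simp only [f] at this
  have hxa : (x : G) = a := by simpa using this
  rw [← hxa]; exact x.2

/-- Iterating an automorphism acting as a transvection. -/
theorem iter_aux (f : MulAut G) (a b : G) (ha : f a = a) (hb : f b = b * a) (n : ℕ) :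
    (f ^ n) b = b * a ^ n ∧ (f ^ n) a = a := by
  induction n with
  | zero => simp
  | succ n ih =>
    obtain ⟨ih1, ih2⟩ := ih
    constructor
    · rw [pow_succ', MulAut.mul_apply, ih1, map_mul, map_pow, hb, ha, pow_succ', mul_assoc]
    · rw [pow_succ', MulAut.mul_apply, ih2, ha]

/-- Powers are determined by the exponent modulo `p` when `a ^ p = 1`. -/
theorem pow_of_modEq {a : G} {p m n : ℕ} (ha : a ^ p = 1) (h : m ≡ n [MOD p]) : a ^ m = a ^ n := by
  rw [pow_eq_pow_mod m ha, pow_eq_pow_mod n ha]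
  exact congrArg _ h

/-- The explicit `SL₂`-word realising the diagonal element. -/
theorem word_action {u v x z : G} {p t s : ℕ} (hxz : x * z = z * x) (hxp : x ^ p = 1)
    (hzp : z ^ p = 1) (hts : t * s ≡ 1 [MOD p])
    (hux : u * x * u⁻¹ = x * z) (huz : u * z * u⁻¹ = z)
    (hvx : v * x * v⁻¹ = x) (hvz : v * z * v⁻¹ = z * x) :
    ∃ n0 : G, n0 * z * n0⁻¹ = z ^ t ∧ n0 * x * n0⁻¹ = x ^ s := by
  have hc : Commute x z := hxz
  set F : MulAut G := MulAut.conj u with hF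
  set H : MulAut G := MulAut.conj v with hH
  have Fx : F x = x * z := by rw [hF, MulAut.conj_apply, hux]
  have Fz : F z = z := by rw [hF, MulAut.conj_apply, huz]
  have Hx : H x = x := by rw [hH, MulAut.conj_apply, hvx]
  have Hz : H z = z * x := by rw [hH, MulAut.conj_apply, hvz]
  have Fiz : F⁻¹ z = z := by
    nth_rewrite 1 [← Fz]; exact MulAut.inv_apply_self _ _ _
  have Fix : F⁻¹ x = x * z⁻¹ := by
    have : F (x * z⁻¹) = x := by rw [map_mul, map_inv, Fx, Fz, mul_inv_cancel_right]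
    nth_rewrite 1 [← this]; exact MulAut.inv_apply_self _ _ _
  have Hix : H⁻¹ x = x := by
    nth_rewrite 1 [← Hx]; exact MulAut.inv_apply_self _ _ _
  have Hiz : H⁻¹ z = z * x⁻¹ := by
    have : H (z * x⁻¹) = z := by rw [map_mul, map_inv, Hx, Hz, mul_inv_cancel_right]
    nth_rewrite 1 [← this]; exact MulAut.inv_apply_self _ _ _
  have Hixi : H⁻¹ x⁻¹ = x⁻¹ := by rw [map_inv, Hix]
  have hFt := iter_aux F z x Fz Fx t
  have hHs := iter_aux H⁻¹ x⁻¹ z Hixi Hiz s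
  have hHsx : (H⁻¹ ^ s) x = x := by
    have := hHs.2
    rw [map_inv] at this
    exact inv_injective this
  -- the word W = F⁻¹ H F⁻¹
  have Wz : (F⁻¹ * H * F⁻¹) z = x := by
    rw [MulAut.mul_apply, MulAut.mul_apply, Fiz, Hz, map_mul, Fiz, Fix, ← mul_assoc, ← hxz,
      mul_inv_cancel_right]
  have Wx : (F⁻¹ * H * F⁻¹) x = z⁻¹ := by
    rw [MulAut.mul_apply, MulAut.mul_apply, Fix, map_mul, map_inv, Hx, Hz, mul_inv_rev,
      mul_inv_cancel_left, map_inv, Fiz]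
  -- the word Mm = F^t H⁻¹^s F^t
  have hzts : z ^ (t * s) = z := by
    have := pow_of_modEq hzp hts
    rwa [pow_one] at this
  have hxst : x ^ (s * t) = x := by
    have := pow_of_modEq hxp hts
    rwa [pow_one, mul_comm] at this
  have Mz : (F ^ t * H⁻¹ ^ s * F ^ t) z = (x ^ s)⁻¹ := by
    rw [MulAut.mul_apply, MulAut.mul_apply, hFt.2, hHs.1, map_mul, map_pow, map_inv, hFt.2, hFt.1,
      inv_pow, (hc.pow_right t).mul_pow, ← pow_mul, hzts, mul_inv_rev, mul_inv_cancel_left]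
  have Mx : (F ^ t * H⁻¹ ^ s * F ^ t) x = z ^ t := by
    rw [MulAut.mul_apply, MulAut.mul_apply, hFt.1, map_mul, map_pow, hHsx, hHs.1]
    have h1 : (z * x⁻¹ ^ s) ^ t = z ^ t * x⁻¹ := by
      rw [((hc.symm.inv_right).pow_right s).mul_pow, ← pow_mul, inv_pow, hxst]
    rw [h1, ← mul_assoc, (hc.pow_right t).eq, mul_inv_cancel_right, map_pow, hFt.2]
  refine ⟨u ^ t * v⁻¹ ^ s * u ^ t * u⁻¹ * v * u⁻¹, ?_, ?_⟩
  · have e : MulAut.conj (u ^ t * v⁻¹ ^ s * u ^ t * u⁻¹ * v * u⁻¹)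
        = (F ^ t * H⁻¹ ^ s * F ^ t) * (F⁻¹ * H * F⁻¹) := by
      simp only [map_mul, map_pow, map_inv, hF, hH, mul_assoc]
    rw [← MulAut.conj_apply, e, MulAut.mul_apply, Wz, Mx]
  · have e : MulAut.conj (u ^ t * v⁻¹ ^ s * u ^ t * u⁻¹ * v * u⁻¹)
        = (F ^ t * H⁻¹ ^ s * F ^ t) * (F⁻¹ * H * F⁻¹) := by
      simp only [map_mul, map_pow, map_inv, hF, hH, mul_assoc]
    rw [← MulAut.conj_apply, e, MulAut.mul_apply, Wx, map_inv, Mz, inv_inv]

section Syl

variable [Finite G] {p : ℕ} [Fact p.Prime]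

/-- Every `p`-subgroup `R` of `H` is `H`-conjugate into a Sylow `p`-subgroup of `G` lying
in `H`. -/
theorem conj_into (H R : Subgroup G) (hR : R ≤ H) (hRp : IsPGroup p R)
    (P : Sylow p G) (hP : (P : Subgroup G) ≤ H) :
    ∃ h ∈ H, ∀ r ∈ R, h * r * h⁻¹ ∈ (P : Subgroup G) := by
  have hp' : IsPGroup p (R.subgroupOf H) := hRp.comap_subtype
  obtain ⟨Q', hQ'⟩ := hp'.exists_le_sylow
  obtain ⟨h, hh⟩ := MulAction.exists_smul_eq H Q' (P.subtype hP)
  refine ⟨h, h.2, ?_⟩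
  intro r hr
  have h1 : (⟨r, hR hr⟩ : H) ∈ (Q' : Subgroup H) :=
    hQ' (by simpa [Subgroup.mem_subgroupOf] using hr)
  have h2 : MulAut.conj h • (⟨r, hR hr⟩ : H) ∈ MulAut.conj h • (Q' : Subgroup H) :=
    Subgroup.smul_mem_pointwise_smul _ _ _ h1
  have h3 : (MulAut.conj h • (Q' : Subgroup H)) = ((P.subtype hP : Sylow p H) : Subgroup H) := by
    rw [← hh]; rfl
  rw [h3, Sylow.coe_subtype, Subgroup.mem_subgroupOf] at h2
  simpa [MulAut.smul_def] using h2

/-- Commutators of `P` lie in `⟨z⟩`. -/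
theorem comm_mem (P : Sylow p G) (hcard : Nat.card P = p ^ 3)
    (z : G) (hz : z ∈ P) (hz1 : z ≠ 1) (hzp : z ^ p = 1) (hzc : ∀ a ∈ P, a * z = z * a)
    (a b : G) (ha : a ∈ P) (hb : b ∈ P) : ∃ k : ℕ, a * b * a⁻¹ * b⁻¹ = z ^ k := by
  have hp : p.Prime := Fact.out
  set z' : (P : Subgroup G) := ⟨z, hz⟩ with hz'
  have hcen : ∀ g : (P : Subgroup G), g * z' = z' * g := fun g => Subtype.ext (hzc g g.2)
  have hZn : (Subgroup.zpowers z').Normal := by
    refine ⟨fun n hn g => ?_⟩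
    obtain ⟨k, rfl⟩ := Subgroup.mem_zpowers_iff.mp hn
    have hc : Commute g z' := hcen g
    have h2 : g * z' ^ k * g⁻¹ = z' ^ k := by
      rw [(hc.zpow_right k).eq, mul_inv_cancel_right]
    rw [h2]; exact hn
  have hord : orderOf z' = p := by
    apply orderOf_eq_prime
    · exact Subtype.ext (by simpa [hz'] using hzp)
    · intro h
      exact hz1 (by simpa [hz'] using congrArg Subtype.val h)
  have hcZ : Nat.card (Subgroup.zpowers z') = p := by rw [Nat.card_zpowers, hord]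
  have hq : Nat.card ((P : Subgroup G) ⧸ Subgroup.zpowers z') = p ^ 2 := by
    have h1 := Subgroup.card_eq_card_quotient_mul_card_subgroup (Subgroup.zpowers z')
    rw [hcZ] at h1
    have h2 : Nat.card (P : Subgroup G) = p ^ 3 := hcard
    rw [h2] at h1
    have hp0 : 0 < p := hp.pos
    apply Nat.eq_of_mul_eq_mul_right hp0
    rw [← h1]; ring
  have hcomm : ∀ a b : (P : Subgroup G) ⧸ Subgroup.zpowers z', a * b = b * a :=
    (IsPGroup.isMulCommutative_of_card_eq_prime_sq hq).is_comm.comm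
  have hmem : ((⟨a, ha⟩ : (P : Subgroup G)) * ⟨b, hb⟩ * (⟨a, ha⟩ : (P : Subgroup G))⁻¹
      * (⟨b, hb⟩ : (P : Subgroup G))⁻¹) ∈ Subgroup.zpowers z' := by
    rw [← QuotientGroup.eq_one_iff]
    simp only [QuotientGroup.mk_mul, QuotientGroup.mk_inv]
    rw [hcomm (QuotientGroup.mk ⟨a, ha⟩) (QuotientGroup.mk ⟨b, hb⟩)]
    simp
  rw [← mem_powers_iff_mem_zpowers] at hmem
  obtain ⟨k, hk⟩ := (Submonoid.mem_powers_iff _ _).mp hmem
  refine ⟨k, ?_⟩
  have := congrArg Subtype.val hk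
  simpa [hz'] using this.symm

/-- For `y ∈ P ∖ ⟨z⟩` there is `u ∈ P` with `u y u⁻¹ = y z`. -/
theorem exists_transvection (P : Sylow p G) (hcard : Nat.card P = p ^ 3)
    (hexp : ∀ a ∈ P, a ^ p = 1)
    (z : G) (hz : z ∈ P) (hz1 : z ≠ 1) (hzc : ∀ a ∈ P, a * z = z * a)
    (hcen : ∀ a ∈ P, (∀ b ∈ P, a * b = b * a) → a ∈ Subgroup.zpowers z)
    (y : G) (hy : y ∈ P) (hyz : y ∉ Subgroup.zpowers z) :
    ∃ u ∈ P, u * y * u⁻¹ = y * z := by
  have hp : p.Prime := Fact.out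
  have hzp : z ^ p = 1 := hexp z hz
  have h0 : ¬ ∀ b ∈ P, y * b = b * y := fun h => hyz (hcen y hy h)
  push Not at h0
  obtain ⟨u0, hu0, hne⟩ := h0
  obtain ⟨k, hk⟩ := comm_mem P hcard z hz hz1 hzp hzc u0 y hu0 hy
  have hu0y : u0 * y * u0⁻¹ = y * z ^ k := by
    have h1 : u0 * y * u0⁻¹ = z ^ k * y := by
      rw [← hk]; group
    have hc : Commute y z := hzc y hy
    rw [h1, (hc.pow_right k).eq]
  have hu0z : u0 * z * u0⁻¹ = z := by rw [hzc u0 hu0, mul_inv_cancel_right]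
  have hzk : z ^ k ≠ 1 := by
    intro h
    rw [h, mul_one] at hu0y
    apply hne
    have : u0 * y = y * u0 := by
      calc u0 * y = u0 * y * u0⁻¹ * u0 := by group
        _ = y * u0 := by rw [hu0y]
    exact this.symm
  have hord : orderOf z = p := orderOf_eq_prime hzp hz1
  have hndvd : ¬ p ∣ k := by
    intro h
    apply hzk
    rw [← hord] at h
    exact orderOf_dvd_iff_pow_eq_one.mp h
  have hcop : Nat.Coprime k p := ((Nat.Prime.coprime_iff_not_dvd hp).mpr hndvd).symm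
  obtain ⟨m, -, hm⟩ := Nat.exists_mul_mod_eq_one_of_coprime hcop hp.one_lt
  have hiter := iter_aux (MulAut.conj u0) (z ^ k) y
    (by rw [MulAut.conj_apply, ← conj_pow, hu0z]) (by rw [MulAut.conj_apply, hu0y]) m
  refine ⟨u0 ^ m, Subgroup.pow_mem _ hu0 m, ?_⟩
  have h1 := hiter.1
  rw [← map_pow, MulAut.conj_apply, ← pow_mul] at h1
  rw [h1]
  congr 1
  have h2 : k * m ≡ 1 [MOD p] := by
    unfold Nat.ModEq
    rw [hm, Nat.mod_eq_of_lt hp.one_lt]
  have := pow_of_modEq hzp h2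
  rwa [pow_one] at this

/-- The second transvection, from the fusion hypothesis. -/
theorem exists_v (P : Sylow p G) (hcard : Nat.card P = p ^ 3)
    (hexp : ∀ a ∈ P, a ^ p = 1)
    (z : G) (hz : z ∈ P) (hz1 : z ≠ 1) (hzc : ∀ a ∈ P, a * z = z * a)
    (hcen : ∀ a ∈ P, (∀ b ∈ P, a * b = b * a) → a ∈ Subgroup.zpowers z)
    (hconj : ∀ x ∈ P, x ≠ 1 → ∃ g : G, g * x * g⁻¹ = z)
    (x : G) (hx : x ∈ P) (hxz : x ∉ Subgroup.zpowers z) :
    ∃ v : G, v * x * v⁻¹ = x ∧ v * z * v⁻¹ = z * x := by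
  have hp : p.Prime := Fact.out
  have hzp : z ^ p = 1 := hexp z hz
  have hxp : x ^ p = 1 := hexp x hx
  have hx1 : x ≠ 1 := by
    rintro rfl
    exact hxz (Subgroup.one_mem _)
  obtain ⟨g0, hg0⟩ := hconj x hx hx1
  have hxzc : x * z = z * x := hzc x hx
  -- z' := g0 z g0⁻¹ centralizes z and has order dividing p
  have hz'c : (g0 * z * g0⁻¹) * z = z * (g0 * z * g0⁻¹) := by
    nth_rewrite 2 [← hg0]
    nth_rewrite 2 [← hg0]
    rw [conj_mul, conj_mul, hxzc]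
  have hz'p : (g0 * z * g0⁻¹) ^ p = 1 := by
    rw [conj_pow, hzp]; group
  have hPC : (P : Subgroup G) ≤ Subgroup.centralizer ({z} : Set G) := by
    intro a ha
    rw [Subgroup.mem_centralizer_iff]
    intro h hh
    rw [Set.mem_singleton_iff] at hh
    rw [hh]; exact (hzc a ha).symm
  have hRC : Subgroup.zpowers (g0 * z * g0⁻¹) ≤ Subgroup.centralizer ({z} : Set G) := by
    rw [Subgroup.zpowers_le, Subgroup.mem_centralizer_iff]
    intro h hh
    rw [Set.mem_singleton_iff] at hh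
    rw [hh]; exact hz'c.symm
  have hRp : IsPGroup p (Subgroup.zpowers (g0 * z * g0⁻¹)) := by
    intro ⟨r, hr⟩
    refine ⟨1, ?_⟩
    obtain ⟨j, rfl⟩ := Subgroup.mem_zpowers_iff.mp hr
    apply Subtype.ext
    simp only [pow_one, Subgroup.coe_pow, Subgroup.coe_one]
    rw [← zpow_natCast, ← zpow_mul, mul_comm, zpow_mul, zpow_natCast, hz'p, one_zpow]
  obtain ⟨c, hcC, hc⟩ := conj_into _ _ hRC hRp P hPC
  have hcz : c * z * c⁻¹ = z := by
    rw [Subgroup.mem_centralizer_iff] at hcC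
    have := hcC z (Set.mem_singleton z)
    rw [← this, mul_inv_cancel_right]
  have hyP : c * (g0 * z * g0⁻¹) * c⁻¹ ∈ (P : Subgroup G) :=
    hc _ (Subgroup.mem_zpowers _)
  set g := c * g0 with hg
  have hgx : g * x * g⁻¹ = z := by
    have : g * x * g⁻¹ = c * (g0 * x * g0⁻¹) * c⁻¹ := by rw [hg]; group
    rw [this, hg0, hcz]
  have hgz : g * z * g⁻¹ = c * (g0 * z * g0⁻¹) * c⁻¹ := by rw [hg]; group
  set y := g * z * g⁻¹ with hy
  have hyP' : y ∈ (P : Subgroup G) := by rw [hgz]; exact hyP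
  have hyz : y ∉ Subgroup.zpowers z := by
    intro hmem
    obtain ⟨j, hj⟩ := Subgroup.mem_zpowers_iff.mp hmem
    -- g z g⁻¹ = (g x g⁻¹)^j = g x^j g⁻¹, so z = x^j
    have h1 : g * z * g⁻¹ = g * x ^ j * g⁻¹ := by
      rw [← hy, ← hj, ← hgx, conj_zpow]
    have h2 : z = x ^ j := by
      have := congrArg (fun w => g⁻¹ * w * g) h1
      simpa [mul_assoc] using this
    have hle : Subgroup.zpowers z ≤ Subgroup.zpowers x := by
      rw [Subgroup.zpowers_le, h2]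
      exact Subgroup.zpow_mem_zpowers x j
    have hcz' : Nat.card (Subgroup.zpowers z) = p := by
      rw [Nat.card_zpowers, orderOf_eq_prime hzp hz1]
    have hcx' : Nat.card (Subgroup.zpowers x) = p := by
      rw [Nat.card_zpowers, orderOf_eq_prime hxp hx1]
    have heq : Subgroup.zpowers z = Subgroup.zpowers x :=
      Subgroup.eq_of_le_of_card_ge hle (by rw [hcz', hcx'])
    apply hxz
    rw [heq]
    exact Subgroup.mem_zpowers x
  obtain ⟨u', hu'P, hu'⟩ := exists_transvection P hcard hexp z hz hz1 hzc hcen y hyP' hyz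
  have hu'z : u' * z * u'⁻¹ = z := by rw [hzc u' hu'P, mul_inv_cancel_right]
  have hgiz : g⁻¹ * z * g = x := by rw [← hgx]; group
  have hgiy : g⁻¹ * y * g = z := by rw [hy]; group
  refine ⟨g⁻¹ * u' * g, ?_, ?_⟩
  · have : g⁻¹ * u' * g * x * (g⁻¹ * u' * g)⁻¹ = g⁻¹ * (u' * (g * x * g⁻¹) * u'⁻¹) * g := by group
    rw [this, hgx, hu'z, hgiz]
  · have : g⁻¹ * u' * g * z * (g⁻¹ * u' * g)⁻¹ = g⁻¹ * (u' * (g * z * g⁻¹) * u'⁻¹) * g := by group
    rw [this, ← hy, hu']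
    have : g⁻¹ * (y * z) * g = (g⁻¹ * y * g) * (g⁻¹ * z * g) := by group
    rw [this, hgiy, hgiz]

/-- The stabiliser-type subgroup `{g | g z g⁻¹ = z, g x g⁻¹ ∈ x⟨z⟩}`. -/
def stabM (x z : G) (p : ℕ) (hp0 : 0 < p) (hzp : z ^ p = 1) : Subgroup G where
  carrier := {g | g * z * g⁻¹ = z ∧ ∃ k : ℕ, g * x * g⁻¹ = x * z ^ k}
  one_mem' := ⟨by simp, 0, by simp⟩
  mul_mem' := by
    rintro g h ⟨hgz, k, hgk⟩ ⟨hhz, j, hhj⟩
    refine ⟨?_, k + j, ?_⟩
    · have : g * h * z * (g * h)⁻¹ = g * (h * z * h⁻¹) * g⁻¹ := by group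
      rw [this, hhz, hgz]
    · have : g * h * x * (g * h)⁻¹ = g * (h * x * h⁻¹) * g⁻¹ := by group
      rw [this, hhj, ← conj_mul, hgk, ← conj_pow, hgz, mul_assoc, pow_add]
  inv_mem' := by
    rintro g ⟨hgz, k, hgk⟩
    have hgiz : g⁻¹ * z * g⁻¹⁻¹ = z := by
      nth_rewrite 1 [← hgz]; group
    refine ⟨hgiz, (p - 1) * k, ?_⟩
    have hx : x = g⁻¹ * (x * z ^ k) * g⁻¹⁻¹ := by
      rw [← hgk]; group
    have h1 : g⁻¹ * (x * z ^ k) * g⁻¹⁻¹ = (g⁻¹ * x * g⁻¹⁻¹) * z ^ k := by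
      rw [← conj_mul, ← conj_pow, hgiz]
    rw [h1] at hx
    have h2 : g⁻¹ * x * g⁻¹⁻¹ = x * (z ^ k)⁻¹ := by
      nth_rewrite 2 [hx]
      rw [mul_inv_cancel_right]
    rw [h2]
    congr 1
    have he : (p - 1) * k + k = p * k := by
      obtain ⟨q, rfl⟩ : ∃ q, p = q + 1 := ⟨p - 1, by omega⟩
      simp [Nat.succ_mul]
    apply inv_eq_of_mul_eq_one_left
    rw [← pow_add, he, pow_mul, hzp, one_pow]

omit [Finite G] in
theorem mem_stabM {x z : G} {p : ℕ} {hp0 : 0 < p} {hzp : z ^ p = 1} {g : G} :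
    g ∈ stabM x z p hp0 hzp ↔ g * z * g⁻¹ = z ∧ ∃ k : ℕ, g * x * g⁻¹ = x * z ^ k := Iff.rfl

/-- **A1.**  Special elements of the normaliser of an extraspecial Sylow `p`-subgroup of
order `p ^ 3` and exponent `p` all of whose nonidentity elements are fused to the centre. -/
theorem special_elements {G : Type*} [Group G] [Finite G] {p : ℕ} [Fact p.Prime]
    (P : Sylow p G) (hcard : Nat.card P = p ^ 3) (hexp : ∀ a ∈ P, a ^ p = 1)
    (z : G) (hz : z ∈ P) (hz1 : z ≠ 1) (hzc : ∀ a ∈ P, a * z = z * a)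
    (hcen : ∀ a ∈ P, (∀ b ∈ P, a * b = b * a) → a ∈ Subgroup.zpowers z)
    (hconj : ∀ x ∈ P, x ≠ 1 → ∃ g : G, g * x * g⁻¹ = z)
    (t s : ℕ) (hts : t * s ≡ 1 [MOD p]) (x : G) (hx : x ∈ P) (hxz : x ∉ Subgroup.zpowers z) :
    ∃ n : G, n ∈ Subgroup.normalizer ((P : Subgroup G) : Set G) ∧ n * z * n⁻¹ = z ^ t ∧
      n * x * n⁻¹ = x ^ s := by
  have hp : p.Prime := Fact.out
  have hzp : z ^ p = 1 := hexp z hz
  have hxp : x ^ p = 1 := hexp x hx
  have hxzc : x * z = z * x := hzc x hx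
  have hc : Commute x z := hxzc
  obtain ⟨u, huP, hux⟩ := exists_transvection P hcard hexp z hz hz1 hzc hcen x hx hxz
  have huz : u * z * u⁻¹ = z := by rw [hzc u huP, mul_inv_cancel_right]
  obtain ⟨v, hvx, hvz⟩ := exists_v P hcard hexp z hz hz1 hzc hcen hconj x hx hxz
  obtain ⟨n0, hn0z, hn0x⟩ := word_action hxzc hxp hzp hts hux huz hvx hvz
  have hzts : z ^ (t * s) = z := by
    have := pow_of_modEq hzp hts
    rwa [pow_one] at this
  have hxst : x ^ (s * t) = x := by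
    have := pow_of_modEq hxp hts
    rwa [pow_one, mul_comm] at this
  -- inverse action of n0
  have hn0iz : n0⁻¹ * z * n0 = z ^ s := by
    have : n0 * z ^ s * n0⁻¹ = z := by rw [← conj_pow, hn0z, ← pow_mul, hzts]
    nth_rewrite 1 [← this]; group
  have hn0ix : n0⁻¹ * x * n0 = x ^ t := by
    have : n0 * x ^ t * n0⁻¹ = x := by rw [← conj_pow, hn0x, ← pow_mul, hxst]
    nth_rewrite 1 [← this]; group
  -- P ≤ M
  have hPM : (P : Subgroup G) ≤ stabM x z p hp.pos hzp := by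
    intro a ha
    rw [mem_stabM]
    refine ⟨by rw [hzc a ha, mul_inv_cancel_right], ?_⟩
    obtain ⟨k, hk⟩ := comm_mem P hcard z hz hz1 hzp hzc a x ha hx
    refine ⟨k, ?_⟩
    have h1 : a * x * a⁻¹ = z ^ k * x := by rw [← hk]; group
    rw [h1, (hc.pow_right k).eq]
  -- the conjugate of P by n0 lies in M
  have hRM : (P : Subgroup G).map (MulAut.conj n0).toMonoidHom ≤ stabM x z p hp.pos hzp := by
    rintro _ ⟨a, ha, rfl⟩
    obtain ⟨haz, k, hak⟩ := mem_stabM.mp (hPM ha)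
    rw [mem_stabM]
    simp only [MulEquiv.coe_toMonoidHom, MulAut.conj_apply]
    constructor
    · have : n0 * a * n0⁻¹ * z * (n0 * a * n0⁻¹)⁻¹ = n0 * (a * (n0⁻¹ * z * n0) * a⁻¹) * n0⁻¹ := by
        group
      rw [this, hn0iz, ← conj_pow, haz, ← conj_pow, hn0z, ← pow_mul, hzts]
    · refine ⟨t * (k * t), ?_⟩
      have : n0 * a * n0⁻¹ * x * (n0 * a * n0⁻¹)⁻¹ = n0 * (a * (n0⁻¹ * x * n0) * a⁻¹) * n0⁻¹ := by
        group
      rw [this, hn0ix, ← conj_pow, hak, ← conj_pow, ← conj_mul, ← conj_pow, hn0x, hn0z,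
        ((hc.pow_pow s t).pow_right k).mul_pow, ← pow_mul, hxst, ← pow_mul, ← pow_mul]
  have hR : IsPGroup p ((P : Subgroup G).map (MulAut.conj n0).toMonoidHom) := P.isPGroup'.map _
  obtain ⟨c, hcM, hcP⟩ := conj_into _ _ hRM hR P hPM
  obtain ⟨hcz, k, hck⟩ := mem_stabM.mp hcM
  have hiter := iter_aux (MulAut.conj u) z x (by rw [MulAut.conj_apply, huz])
    (by rw [MulAut.conj_apply, hux]) ((p - 1) * k)
  rw [← map_pow, MulAut.conj_apply, MulAut.conj_apply] at hiter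
  obtain ⟨hjx, hjz⟩ := hiter
  set j := (p - 1) * k with hj
  have hjk : z ^ (j + k) = 1 := by
    have : j + k = p * k := by
      rw [hj]
      obtain ⟨q, rfl⟩ : ∃ q, p = q + 1 := ⟨p - 1, by have := hp.pos; omega⟩
      simp [Nat.succ_mul]
    rw [this, pow_mul, hzp, one_pow]
  refine ⟨u ^ j * c * n0, ?_, ?_, ?_⟩
  · apply mem_normalizer_of_conj_mem
    intro a ha
    have h1 : c * (n0 * a * n0⁻¹) * c⁻¹ ∈ (P : Subgroup G) :=
      hcP _ ⟨a, ha, by simp [MulAut.conj_apply]⟩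
    have h2 : u ^ j * c * n0 * a * (u ^ j * c * n0)⁻¹
        = u ^ j * (c * (n0 * a * n0⁻¹) * c⁻¹) * (u ^ j)⁻¹ := by group
    rw [h2]
    exact Subgroup.mul_mem _ (Subgroup.mul_mem _ (Subgroup.pow_mem _ huP j) h1)
      (Subgroup.inv_mem _ (Subgroup.pow_mem _ huP j))
  · have h2 : u ^ j * c * n0 * z * (u ^ j * c * n0)⁻¹
        = u ^ j * (c * (n0 * z * n0⁻¹) * c⁻¹) * (u ^ j)⁻¹ := by group
    rw [h2, hn0z, ← conj_pow, hcz, ← conj_pow, hjz]
  · have h2 : u ^ j * c * n0 * x * (u ^ j * c * n0)⁻¹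
        = u ^ j * (c * (n0 * x * n0⁻¹) * c⁻¹) * (u ^ j)⁻¹ := by group
    rw [h2, hn0x, ← conj_pow, hck, ← conj_pow, ← conj_mul, ← conj_pow, hjx, hjz, mul_assoc,
      ← pow_add, hjk, mul_one]

end Syl

end Cfsg.Agent.Lib.Helper33.SpecElts
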