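import Mathlib
import Cfsg.Agent.Lib.Helper33.SpecElts

set_option autoImplicit false

namespace Cfsg.Agent.Lib.Helper33.SpecElts2

open Cfsg.Agent.Lib.Helper33.SpecElts

variable {G : Type*} [Group G] [Finite G] {p : ℕ} [Fact p.Prime]

/-- The tail of `special_elements`: once a "second transvection" `v` is available
(`v x v⁻¹ = x`, `v z v⁻¹ = z x`), the special element of the normaliser exists. -/
theorem special_of_uv
    (P : Sylow p G) (hcard : Nat.card P = p ^ 3) (hexp : ∀ a ∈ P, a ^ p = 1)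
    (z : G) (hz : z ∈ P) (hz1 : z ≠ 1) (hzc : ∀ a ∈ P, a * z = z * a)
    (hcen : ∀ a ∈ P, (∀ b ∈ P, a * b = b * a) → a ∈ Subgroup.zpowers z)
    (t s : ℕ) (hts : t * s ≡ 1 [MOD p]) (x : G) (hx : x ∈ P) (hxz : x ∉ Subgroup.zpowers z)
    (v : G) (hvx : v * x * v⁻¹ = x) (hvz : v * z * v⁻¹ = z * x) :
    ∃ n : G, n ∈ Subgroup.normalizer ((P : Subgroup G) : Set G) ∧ n * z * n⁻¹ = z ^ t ∧
      n * x * n⁻¹ = x ^ s := by
  have hp : p.Prime := Fact.out
  have hzp : z ^ p = 1 := hexp z hz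
  have hxp : x ^ p = 1 := hexp x hx
  have hxzc : x * z = z * x := hzc x hx
  have hc : Commute x z := hxzc
  obtain ⟨u, huP, hux⟩ := exists_transvection P hcard hexp z hz hz1 hzc hcen x hx hxz
  have huz : u * z * u⁻¹ = z := by rw [hzc u huP, mul_inv_cancel_right]
  obtain ⟨n0, hn0z, hn0x⟩ := word_action hxzc hxp hzp hts hux huz hvx hvz
  have hzts : z ^ (t * s) = z := by
    have := pow_of_modEq hzp hts
    rwa [pow_one] at this
  have hxst : x ^ (s * t) = x := by
    have := pow_of_modEq hxp hts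
    rwa [pow_one, mul_comm] at this
  -- inverse action of n0
  have hn0iz : n0⁻¹ * z * n0 = z ^ s := by
    have : n0 * z ^ s * n0⁻¹ = z := by rw [← conj_pow, hn0z, ← pow_mul, hzts]
    nth_rewrite 1 [← this]; group
  have hn0ix : n0⁻¹ * x * n0 = x ^ t := by
    have : n0 * x ^ t * n0⁻¹ = x := by rw [← conj_pow, hn0x, ← pow_mul, hxst]
    nth_rewrite 1 [← this]; group
  -- P ≤ M
  have hPM : (P : Subgroup G) ≤ stabM x z p hp.pos hzp := by
    intro a ha
    rw [mem_stabM]
    refine ⟨by rw [hzc a ha, mul_inv_cancel_right], ?_⟩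
    obtain ⟨k, hk⟩ := comm_mem P hcard z hz hz1 hzp hzc a x ha hx
    refine ⟨k, ?_⟩
    have h1 : a * x * a⁻¹ = z ^ k * x := by rw [← hk]; group
    rw [h1, (hc.pow_right k).eq]
  -- the conjugate of P by n0 lies in M
  have hRM : (P : Subgroup G).map (MulAut.conj n0).toMonoidHom ≤ stabM x z p hp.pos hzp := by
    rintro _ ⟨a, ha, rfl⟩
    obtain ⟨haz, k, hak⟩ := mem_stabM.mp (hPM ha)
    rw [mem_stabM]
    simp only [MulEquiv.coe_toMonoidHom, MulAut.conj_apply]
    constructor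
    · have : n0 * a * n0⁻¹ * z * (n0 * a * n0⁻¹)⁻¹ = n0 * (a * (n0⁻¹ * z * n0) * a⁻¹) * n0⁻¹ := by
        group
      rw [this, hn0iz, ← conj_pow, haz, ← conj_pow, hn0z, ← pow_mul, hzts]
    · refine ⟨t * (k * t), ?_⟩
      have : n0 * a * n0⁻¹ * x * (n0 * a * n0⁻¹)⁻¹ = n0 * (a * (n0⁻¹ * x * n0) * a⁻¹) * n0⁻¹ := by
        group
      rw [this, hn0ix, ← conj_pow, hak, ← conj_pow, ← conj_mul, ← conj_pow, hn0x, hn0z,
        ((hc.pow_pow s t).pow_right k).mul_pow, ← pow_mul, hxst, ← pow_mul, ← pow_mul]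
  have hR : IsPGroup p ((P : Subgroup G).map (MulAut.conj n0).toMonoidHom) := P.isPGroup'.map _
  obtain ⟨c, hcM, hcP⟩ := conj_into _ _ hRM hR P hPM
  obtain ⟨hcz, k, hck⟩ := mem_stabM.mp hcM
  have hiter := iter_aux (MulAut.conj u) z x (by rw [MulAut.conj_apply, huz])
    (by rw [MulAut.conj_apply, hux]) ((p - 1) * k)
  rw [← map_pow, MulAut.conj_apply, MulAut.conj_apply] at hiter
  obtain ⟨hjx, hjz⟩ := hiter
  set j := (p - 1) * k with hj
  have hjk : z ^ (j + k) = 1 := by
    have : j + k = p * k := by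
      rw [hj]
      obtain ⟨q, rfl⟩ : ∃ q, p = q + 1 := ⟨p - 1, by have := hp.pos; omega⟩
      simp [Nat.succ_mul]
    rw [this, pow_mul, hzp, one_pow]
  refine ⟨u ^ j * c * n0, ?_, ?_, ?_⟩
  · apply mem_normalizer_of_conj_mem
    intro a ha
    have h1 : c * (n0 * a * n0⁻¹) * c⁻¹ ∈ (P : Subgroup G) :=
      hcP _ ⟨a, ha, by simp [MulAut.conj_apply]⟩
    have h2 : u ^ j * c * n0 * a * (u ^ j * c * n0)⁻¹
        = u ^ j * (c * (n0 * a * n0⁻¹) * c⁻¹) * (u ^ j)⁻¹ := by group
    rw [h2]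
    exact Subgroup.mul_mem _ (Subgroup.mul_mem _ (Subgroup.pow_mem _ huP j) h1)
      (Subgroup.inv_mem _ (Subgroup.pow_mem _ huP j))
  · have h2 : u ^ j * c * n0 * z * (u ^ j * c * n0)⁻¹
        = u ^ j * (c * (n0 * z * n0⁻¹) * c⁻¹) * (u ^ j)⁻¹ := by group
    rw [h2, hn0z, ← conj_pow, hcz, ← conj_pow, hjz]
  · have h2 : u ^ j * c * n0 * x * (u ^ j * c * n0)⁻¹
        = u ^ j * (c * (n0 * x * n0⁻¹) * c⁻¹) * (u ^ j)⁻¹ := by group
    rw [h2, hn0x, ← conj_pow, hck, ← conj_pow, ← conj_mul, ← conj_pow, hjx, hjz, mul_assoc,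
      ← pow_add, hjk, mul_one]

/-- In a group `A` of order `p ^ 2` and exponent `p`, for `x ≠ 1` and `z ∉ ⟨x⟩` there is an
automorphism of order `p` with `x ↦ x`, `z ↦ z * x`. -/
theorem exists_shear {A : Type*} [Group A] [Finite A] {p : ℕ} [Fact p.Prime]
    (hcard : Nat.card A = p ^ 2) (hexp : ∀ a : A, a ^ p = 1)
    (x z : A) (hx1 : x ≠ 1) (hzx : z ∉ Subgroup.zpowers x) :
    ∃ φ : MulAut A, orderOf φ = p ∧ φ x = x ∧ φ z = z * x := by
  have hp : p.Prime := Fact.out
  have hcomm : ∀ a b : A, a * b = b * a :=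
    (IsPGroup.isMulCommutative_of_card_eq_prime_sq hcard).is_comm.comm
  have hN : (Subgroup.zpowers x).Normal := by
    refine ⟨fun n hn g => ?_⟩
    rw [hcomm g n, mul_inv_cancel_right]; exact hn
  have hordx : orderOf x = p := orderOf_eq_prime (hexp x) hx1
  have hcN : Nat.card (Subgroup.zpowers x) = p := by rw [Nat.card_zpowers, hordx]
  have hq : Nat.card (A ⧸ Subgroup.zpowers x) = p := by
    have h1 := Subgroup.card_eq_card_quotient_mul_card_subgroup (Subgroup.zpowers x)
    rw [hcN, hcard] at h1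
    apply Nat.eq_of_mul_eq_mul_right hp.pos
    rw [← h1]; ring
  set zb : A ⧸ Subgroup.zpowers x := QuotientGroup.mk z with hzb
  have hzb1 : zb ≠ 1 := by
    intro h
    exact hzx ((QuotientGroup.eq_one_iff z).mp h)
  have hgen : ∀ q : A ⧸ Subgroup.zpowers x, q ∈ Subgroup.zpowers zb := fun q =>
    mem_zpowers_of_prime_card hq hzb1
  have hordzb : orderOf zb = p := by
    apply orderOf_eq_prime _ hzb1
    rw [hzb, ← QuotientGroup.mk_pow, hexp z]; rfl
  have hdvd : orderOf x ∣ orderOf zb := by rw [hordx, hordzb]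
  let f : (A ⧸ Subgroup.zpowers x) →* A := monoidHomOfForallMemZpowers hgen hdvd
  have hf : f zb = x := monoidHomOfForallMemZpowers_apply_gen hgen hdvd
  let ψ : A →* A := f.comp (QuotientGroup.mk' (Subgroup.zpowers x))
  have hψz : ψ z = x := hf
  have hψx : ψ x = 1 := by
    have h1 : (QuotientGroup.mk' (Subgroup.zpowers x)) x = 1 :=
      (QuotientGroup.eq_one_iff x).mpr (Subgroup.mem_zpowers x)
    show f ((QuotientGroup.mk' (Subgroup.zpowers x)) x) = 1
    rw [h1, map_one]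
  have hψmem : ∀ a : A, ψ a ∈ Subgroup.zpowers x := by
    intro a
    obtain ⟨k, hk⟩ := Subgroup.mem_zpowers_iff.mp (hgen (QuotientGroup.mk a))
    show f (QuotientGroup.mk a) ∈ _
    rw [← hk, map_zpow, hf]
    exact Subgroup.zpow_mem_zpowers x k
  have hψψ : ∀ a : A, ψ (ψ a) = 1 := by
    intro a
    obtain ⟨k, hk⟩ := Subgroup.mem_zpowers_iff.mp (hψmem a)
    rw [← hk, map_zpow, hψx, one_zpow]
  let φ : MulAut A :=
    { toFun := fun a => a * ψ a
      invFun := fun a => a * (ψ a)⁻¹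
      left_inv := fun a => by
        simp only [map_mul, hψψ, mul_one, mul_inv_cancel_right]
      right_inv := fun a => by
        simp only [map_mul, map_inv, hψψ, inv_one, mul_one, inv_mul_cancel_right]
      map_mul' := fun a b => by
        simp only [map_mul]
        rw [mul_assoc, mul_assoc, ← mul_assoc b, hcomm b (ψ a), mul_assoc] }
  have hφ : ∀ a, φ a = a * ψ a := fun a => rfl
  have hpow : ∀ (k : ℕ) (a : A), (φ ^ k) a = a * (ψ a) ^ k := by
    intro k
    induction k with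
    | zero => intro a; simp
    | succ k ih =>
      intro a
      rw [pow_succ', MulAut.mul_apply, ih, hφ, map_mul, map_pow, hψψ, one_pow, mul_one, pow_succ,
        mul_assoc]
  refine ⟨φ, ?_, ?_, ?_⟩
  · apply orderOf_eq_prime
    · ext a
      rw [hpow, hexp, mul_one]; rfl
    · intro h
      have h2 := congrArg (fun g : MulAut A => g z) h
      simp only [MulAut.one_apply] at h2
      rw [hφ, hψz] at h2
      exact hx1 (by simpa using h2)
  · rw [hφ, hψx, mul_one]
  · rw [hφ, hψz]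

/-- **A1p.**  Variant of `special_elements` where the fusion hypothesis is replaced by: every
automorphism of order `p` of a subgroup `A ≤ P` of order `p ^ 2` is induced by `G`. -/
theorem special_of_sl {G : Type*} [Group G] [Finite G] {p : ℕ} [Fact p.Prime] (P : Sylow p G)
    (hcard : Nat.card P = p ^ 3) (hexp : ∀ a ∈ P, a ^ p = 1)
    (z : G) (hz : z ∈ P) (hz1 : z ≠ 1) (hzc : ∀ a ∈ P, a * z = z * a)
    (hcen : ∀ a ∈ P, (∀ b ∈ P, a * b = b * a) → a ∈ Subgroup.zpowers z)
    (A : Subgroup G) (hAP : A ≤ (P : Subgroup G)) (hAcard : Nat.card A = p ^ 2)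
    (hSL : ∀ φ : MulAut A, orderOf φ = p → ∃ g : G, ∀ a : A, (φ a : G) = g * (a : G) * g⁻¹)
    (t s : ℕ) (hts : t * s ≡ 1 [MOD p]) (x : G) (hx : x ∈ A) (hxz : x ∉ Subgroup.zpowers z) :
    ∃ n : G, n ∈ Subgroup.normalizer ((P : Subgroup G) : Set G) ∧ n * z * n⁻¹ = z ^ t ∧
      n * x * n⁻¹ = x ^ s := by
  have hp : p.Prime := Fact.out
  have hxP : x ∈ P := hAP hx
  have hzp : z ^ p = 1 := hexp z hz
  have hxp : x ^ p = 1 := hexp x hxP
  have hx1 : x ≠ 1 := by
    rintro rfl
    exact hxz (Subgroup.one_mem _)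
  have hAcomm : ∀ a b : A, a * b = b * a :=
    (IsPGroup.isMulCommutative_of_card_eq_prime_sq hAcard).is_comm.comm
  -- z ∈ A
  have hzA : z ∈ A := by
    set K : Subgroup G := (P : Subgroup G) ⊓ Subgroup.centralizer ({x} : Set G) with hK
    have hAK : A ≤ K := by
      intro a ha
      refine Subgroup.mem_inf.mpr ⟨hAP ha, ?_⟩
      rw [Subgroup.mem_centralizer_iff]
      intro h hh
      rw [Set.mem_singleton_iff] at hh
      rw [hh]
      have := hAcomm ⟨x, hx⟩ ⟨a, ha⟩
      exact congrArg Subtype.val this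
    have hKP : K ≤ (P : Subgroup G) := inf_le_left
    have hzK : z ∈ K := by
      refine Subgroup.mem_inf.mpr ⟨hz, ?_⟩
      rw [Subgroup.mem_centralizer_iff]
      intro h hh
      rw [Set.mem_singleton_iff] at hh
      rw [hh]; exact hzc x hxP
    have hKne : K ≠ (P : Subgroup G) := by
      intro h
      apply hxz
      apply hcen x hxP
      intro b hb
      have hbK : b ∈ K := h ▸ hb
      have h3 := (Subgroup.mem_inf.mp hbK).2
      rw [Subgroup.mem_centralizer_iff] at h3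
      exact h3 x (Set.mem_singleton x)
    have h1 : Nat.card K ∣ p ^ 3 := by
      have := Subgroup.card_dvd_of_le hKP
      rwa [show Nat.card (P : Subgroup G) = p ^ 3 from hcard] at this
    have h2 : p ^ 2 ∣ Nat.card K := by
      have := Subgroup.card_dvd_of_le hAK
      rwa [hAcard] at this
    obtain ⟨j, hj3, hj⟩ := (Nat.dvd_prime_pow hp).mp h1
    have hj2 : 2 ≤ j := by
      rw [hj] at h2
      exact (Nat.pow_dvd_pow_iff_le_right hp.one_lt).mp h2
    have hjne : j ≠ 3 := by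
      rintro rfl
      apply hKne
      exact Subgroup.eq_of_le_of_card_ge hKP (by rw [hj]; exact hcard.le)
    have hj' : j = 2 := by omega
    have hAKeq : A = K := Subgroup.eq_of_le_of_card_ge hAK (by rw [hj, hj', hAcard])
    rw [hAKeq]; exact hzK
  have hzx : (⟨z, hzA⟩ : A) ∉ Subgroup.zpowers (⟨x, hx⟩ : A) := by
    intro hmem
    obtain ⟨k, hk⟩ := Subgroup.mem_zpowers_iff.mp hmem
    have hk' : x ^ k = z := by
      have := congrArg Subtype.val hk
      simpa using this
    have hle : Subgroup.zpowers z ≤ Subgroup.zpowers x := by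
      rw [Subgroup.zpowers_le, ← hk']
      exact Subgroup.zpow_mem_zpowers x k
    have hcz' : Nat.card (Subgroup.zpowers z) = p := by
      rw [Nat.card_zpowers, orderOf_eq_prime hzp hz1]
    have hcx' : Nat.card (Subgroup.zpowers x) = p := by
      rw [Nat.card_zpowers, orderOf_eq_prime hxp hx1]
    have heq : Subgroup.zpowers z = Subgroup.zpowers x :=
      Subgroup.eq_of_le_of_card_ge hle (by rw [hcz', hcx'])
    apply hxz
    rw [heq]
    exact Subgroup.mem_zpowers x
  obtain ⟨φ, hord, hφx, hφz⟩ := exists_shear (A := A) hAcard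
    (fun a => Subtype.ext (by simpa using hexp a (hAP a.2))) ⟨x, hx⟩ ⟨z, hzA⟩
    (fun h => hx1 (by simpa using congrArg Subtype.val h)) hzx
  obtain ⟨v, hv⟩ := hSL φ hord
  have hvx : v * x * v⁻¹ = x := by
    have := hv ⟨x, hx⟩
    rw [hφx] at this
    exact this.symm
  have hvz : v * z * v⁻¹ = z * x := by
    have := hv ⟨z, hzA⟩
    rw [hφz] at this
    exact this.symm
  exact special_of_uv P hcard hexp z hz hz1 hzc hcen t s hts x hxP hxz v hvx hvz

end Cfsg.Agent.Lib.Helper33.SpecElts2
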