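import Mathlib
import Cfsg.Agent.Lib.Helper25.ACStmt

/-!
# S3912 / ODDCORE (second seat, helper33): a normal subgroup of odd order of maximal order
-/

set_option autoImplicit false

namespace Cfsg.Agent.Lib.Helper33.ACODDCORE

open Cfsg.Agent.Lib.Helper25.ACStmt

universe u

theorem main : OddCore.{u} := by
  intro G _ _
  classical
  have : Nonempty {K : Subgroup G // K.Normal ∧ Odd (Nat.card ↥K)} :=
    ⟨⟨⊥, inferInstance, by rw [Subgroup.card_bot]; exact odd_one⟩⟩
  obtain ⟨⟨K, hKn, hKodd⟩, hKmax⟩ := Finite.exists_max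
    (fun K : {K : Subgroup G // K.Normal ∧ Odd (Nat.card ↥K)} => Nat.card ↥K.1)
  refine ⟨K, hKn, hKodd, ?_⟩
  intro Y hY hYodd
  have := hKn
  have hXn : (Y.comap (QuotientGroup.mk' K)).Normal := Subgroup.Normal.comap hY _
  have hidx : (Y.comap (QuotientGroup.mk' K)).index = Y.index :=
    Subgroup.index_comap_of_surjective Y (QuotientGroup.mk'_surjective K)
  have e1 := Subgroup.card_mul_index (Y.comap (QuotientGroup.mk' K))
  have e2 := Subgroup.card_mul_index Y
  have e3 := Subgroup.card_eq_card_quotient_mul_card_subgroup K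
  have hi : 0 < Y.index := Nat.pos_of_ne_zero Subgroup.index_ne_zero_of_finite
  have hcard : Nat.card ↥(Y.comap (QuotientGroup.mk' K)) = Nat.card ↥K * Nat.card ↥Y := by
    rw [hidx] at e1
    apply Nat.eq_of_mul_eq_mul_right hi
    rw [e1, e3, ← e2]
    ring
  have h1 := hKmax ⟨Y.comap (QuotientGroup.mk' K), hXn, by rw [hcard]; exact hKodd.mul hYodd⟩
  have hKpos : 0 < Nat.card ↥K := Nat.card_pos
  have hYpos : 0 < Nat.card ↥Y := Nat.card_pos
  have hY1 : Nat.card ↥Y = 1 := by
    have h1' : Nat.card ↥K * Nat.card ↥Y ≤ Nat.card ↥K := by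
      rw [← hcard]; exact h1
    nlinarith
  exact Subgroup.card_eq_one.mp hY1

end Cfsg.Agent.Lib.Helper33.ACODDCORE
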