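import Mathlib
import Cfsg.Prelude.Def_Characters

/-!
# Piece EL for S4889/S4641: the `p'`-part map is multiplicative on an elementary group
-/

set_option autoImplicit false
set_option linter.style.haveILetI false

namespace Cfsg.Agent.Lib.Helper33.DecEL

/-- An elementary group is nilpotent. -/
theorem isNilpotent_of_elementary {E : Type*} [Group E] [Finite E] (r : ℕ) (hr : r.Prime)
    (hE : Cfsg.IsElementary r E) : Group.IsNilpotent E := by
  obtain ⟨x, hxc, -, k, hk⟩ := hE
  haveI : Fact r.Prime := ⟨hr⟩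
  apply Group.of_quotient_center_nilpotent
  have hle : Subgroup.zpowers x ≤ Subgroup.center E := by
    rw [Subgroup.zpowers_le]; exact hxc
  have hdvd : (Subgroup.center E).index ∣ r ^ k := by
    rw [← hk]; exact Subgroup.index_dvd_of_le hle
  obtain ⟨j, -, hj⟩ := (Nat.dvd_prime_pow hr).mp hdvd
  have hcard : Nat.card (E ⧸ Subgroup.center E) = r ^ j := by
    rw [← hj]; rfl
  exact (IsPGroup.of_card hcard).isNilpotent

theorem pow_mul_of_elementary {E : Type*} [Group E] [Finite E] (r : ℕ) (hr : r.Prime)
    (hE : Cfsg.IsElementary r E) (p : ℕ) [Fact p.Prime] (N : ℕ)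
    (hN0 : ∀ g : E, (∃ k : ℕ, g ^ (p ^ k) = 1) → g ^ N = 1)
    (hN1 : ∀ g : E, ¬ p ∣ orderOf g → g ^ N = g) :
    ∀ a b : E, (a * b) ^ N = a ^ N * b ^ N := by
  have hp : p.Prime := Fact.out
  have hnil := isNilpotent_of_elementary r hr hE
  obtain ⟨e⟩ := (Group.isNilpotent_of_finite_tfae (G := E)).out 0 4 rfl rfl |>.mp hnil
  -- coordinatewise statement
  have hcoord : ∀ (q : (Nat.card E).primeFactors) (P : Sylow (q : ℕ) E)
      (u v : (P : Subgroup E)), (u * v) ^ N = u ^ N * v ^ N := by
    intro q P u v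
    have hq : (q : ℕ).Prime := Nat.prime_of_mem_primeFactors q.2
    by_cases hqp : (q : ℕ) = p
    · -- all are `p`-elements
      have h1 : ∀ w : (P : Subgroup E), w ^ N = 1 := by
        intro w
        obtain ⟨j, hj⟩ := P.isPGroup' w
        apply Subtype.ext
        rw [Subgroup.coe_pow, Subgroup.coe_one]
        apply hN0
        refine ⟨j, ?_⟩
        have h0 : (w : E) ^ ((q : ℕ) ^ j) = 1 := by
          have := congrArg Subtype.val hj
          rw [Subgroup.coe_pow, Subgroup.coe_one] at this
          exact this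
        have h00 : ∀ n : ℕ, n = p → (w : E) ^ (n ^ j) = 1 → (w : E) ^ (p ^ j) = 1 := by
          intro n hn h; rw [← hn]; exact h
        exact h00 _ hqp h0
      rw [h1, h1, h1, mul_one]
    · -- all are `p'`-elements
      have h1 : ∀ w : (P : Subgroup E), w ^ N = w := by
        intro w
        obtain ⟨j, hj⟩ := P.isPGroup' w
        apply Subtype.ext
        rw [Subgroup.coe_pow]
        apply hN1
        intro hdvd
        have hj' : (w : E) ^ ((q : ℕ) ^ j) = 1 := by
          have := congrArg Subtype.val hj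
          rw [Subgroup.coe_pow, Subgroup.coe_one] at this
          exact this
        have h2 : orderOf (w : E) ∣ (q : ℕ) ^ j := orderOf_dvd_of_pow_eq_one hj'
        have h3 : p ∣ (q : ℕ) := hp.dvd_of_dvd_pow (dvd_trans hdvd h2)
        exact hqp ((Nat.prime_dvd_prime_iff_eq hp hq).mp h3).symm
      rw [h1, h1, h1]
  intro a b
  obtain ⟨f, rfl⟩ := e.surjective a
  obtain ⟨f', rfl⟩ := e.surjective b
  rw [← map_mul, ← map_pow, ← map_pow, ← map_pow, ← map_mul]
  congr 1
  funext q P
  simp only [Pi.pow_apply, Pi.mul_apply]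
  exact hcoord q P (f q P) (f' q P)

end Cfsg.Agent.Lib.Helper33.DecEL
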