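import Mathlib

/-!
# Piece W1 for S4889/S4641: a nonzero idempotent matrix dominates a rank-one idempotent
conjugate to `E₀₀`
-/

set_option autoImplicit false
set_option linter.style.haveILetI false

namespace Cfsg.Agent.Lib.Helper33.DecW1

open Matrix

/-- Ranks add for orthogonal idempotents (only the relations actually needed are assumed). -/
theorem rank_add_of_orthogonal {F : Type*} [Field F] {n : ℕ}
    (P Q R : Matrix (Fin n) (Fin n) F) (hPQR : P = Q + R) (hPQ : P * Q = Q) (hPR : P * R = R)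
    (hQQ : Q * Q = Q) (hQR : Q * R = 0) : P.rank = Q.rank + R.rank := by
  unfold Matrix.rank
  have hsup : LinearMap.range P.mulVecLin =
      LinearMap.range Q.mulVecLin ⊔ LinearMap.range R.mulVecLin := by
    apply le_antisymm
    · rintro y ⟨x, rfl⟩
      have : P.mulVecLin x = Q.mulVecLin x + R.mulVecLin x := by
        simp only [Matrix.mulVecLin_apply]
        rw [hPQR, Matrix.add_mulVec]
      rw [this]
      exact Submodule.add_mem_sup ⟨x, rfl⟩ ⟨x, rfl⟩
    · apply sup_le
      · rintro y ⟨x, rfl⟩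
        refine ⟨Q.mulVecLin x, ?_⟩
        simp only [Matrix.mulVecLin_apply]
        rw [Matrix.mulVec_mulVec, hPQ]
      · rintro y ⟨x, rfl⟩
        refine ⟨R.mulVecLin x, ?_⟩
        simp only [Matrix.mulVecLin_apply]
        rw [Matrix.mulVec_mulVec, hPR]
  have hinf : LinearMap.range Q.mulVecLin ⊓ LinearMap.range R.mulVecLin = ⊥ := by
    rw [eq_bot_iff]
    rintro y ⟨⟨a, ha⟩, ⟨b, hb⟩⟩
    simp only [Matrix.mulVecLin_apply] at ha hb
    have h1 : Q *ᵥ y = y := by
      rw [← ha, Matrix.mulVec_mulVec, hQQ]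
    have h2 : Q *ᵥ y = 0 := by
      rw [← hb, Matrix.mulVec_mulVec, hQR, Matrix.zero_mulVec]
    rw [Submodule.mem_bot, ← h1, h2]
  have key := Submodule.finrank_sup_add_finrank_inf_eq (LinearMap.range Q.mulVecLin)
    (LinearMap.range R.mulVecLin)
  rw [hinf, finrank_bot, add_zero, ← hsup] at key
  exact key

theorem exists_rank_one_sub {F : Type*} [Field F] {n : ℕ} (hn : 0 < n)
    (P : Matrix (Fin n) (Fin n) F) (hP : P * P = P) (hP0 : P ≠ 0) :
    ∃ Q U V : Matrix (Fin n) (Fin n) F, Q * Q = Q ∧ Q * P = Q ∧ P * Q = Q ∧ U * V = 1 ∧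
      V * U = 1 ∧ Q = U * Matrix.single (⟨0, hn⟩ : Fin n) ⟨0, hn⟩ 1 * V ∧
      (P - Q).rank + 1 = P.rank := by
  obtain ⟨m, rfl⟩ : ∃ m, n = m + 1 := ⟨n - 1, by omega⟩
  obtain ⟨i, j, hij⟩ : ∃ i j, P i j ≠ 0 := by
    by_contra h
    push Not at h
    exact hP0 (Matrix.ext h)
  have hPP : ∀ a b, ∑ k, P a k * P k b = P a b := by
    intro a b
    have := congrFun (congrFun hP a) b
    rwa [Matrix.mul_apply] at this
  set v : Fin (m + 1) → F := fun k => P k j with hv
  set μ : Fin (m + 1) → F := fun k => (P i j)⁻¹ * P i k with hμ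
  have hPv : P *ᵥ v = v := by
    funext a
    simp only [Matrix.mulVec, dotProduct, hv]
    exact hPP a j
  have hμP : μ ᵥ* P = μ := by
    funext b
    simp only [Matrix.vecMul, dotProduct, hμ]
    simp_rw [mul_assoc]
    rw [← Finset.mul_sum, hPP i b]
  have hμv : μ ⬝ᵥ v = 1 := by
    simp only [dotProduct, hμ, hv]
    simp_rw [mul_assoc]
    rw [← Finset.mul_sum, hPP i j, inv_mul_cancel₀ hij]
  have hv0 : v ≠ 0 := by
    intro h
    rw [h, dotProduct_zero] at hμv
    exact zero_ne_one hμv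
  set Q : Matrix (Fin (m + 1)) (Fin (m + 1)) F := Matrix.vecMulVec v μ with hQ
  have hQQ : Q * Q = Q := by
    rw [hQ, Matrix.vecMulVec_mul_vecMulVec, hμv, one_smul]
  have hQP : Q * P = Q := by
    rw [hQ, Matrix.vecMulVec_mul, hμP]
  have hPQ : P * Q = Q := by
    rw [hQ, Matrix.mul_vecMulVec, hPv]
  -- the functional `μ`
  let φ : (Fin (m + 1) → F) →ₗ[F] F :=
    { toFun := fun x => μ ⬝ᵥ x
      map_add' := fun x y => dotProduct_add μ x y
      map_smul' := fun c x => by simp [dotProduct_smul] }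
  have hφ : ∀ x, φ x = μ ⬝ᵥ x := fun x => rfl
  have hφv : φ v = 1 := hμv
  have hrange : LinearMap.range φ = ⊤ := by
    rw [LinearMap.range_eq_top]
    intro c
    refine ⟨c • v, ?_⟩
    rw [map_smul, hφv, smul_eq_mul, mul_one]
  have hfin : Module.finrank F (LinearMap.ker φ) = m := by
    have h1 := LinearMap.finrank_range_add_finrank_ker φ
    rw [hrange, finrank_top, Module.finrank_self, Module.finrank_fin_fun] at h1
    omega
  let b : Module.Basis (Fin m) F (LinearMap.ker φ) := Module.finBasisOfFinrankEq F _ hfin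
  have hli : ∀ (c : F), ∀ x ∈ LinearMap.ker φ, c • v + x = 0 → c = 0 := by
    intro c x hx h
    have h1 := congrArg φ h
    rw [map_add, map_smul, hφv, LinearMap.mem_ker.mp hx, map_zero, add_zero, smul_eq_mul,
      mul_one] at h1
    exact h1
  have hsp : ∀ z : Fin (m + 1) → F, ∃ c : F, z + c • v ∈ LinearMap.ker φ := by
    intro z
    refine ⟨-φ z, ?_⟩
    rw [LinearMap.mem_ker, map_add, map_smul, hφv, smul_eq_mul, mul_one, add_neg_cancel]
  let B : Module.Basis (Fin (m + 1)) F (Fin (m + 1) → F) := Module.Basis.mkFinCons v b hli hsp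
  have hBcoe : (B : Fin (m + 1) → (Fin (m + 1) → F)) = Fin.cons v ((↑) ∘ b) :=
    Module.Basis.coe_mkFinCons v b hli hsp
  have hB0 : B 0 = v := by rw [hBcoe, Fin.cons_zero]
  have hBs : ∀ c : Fin m, μ ⬝ᵥ B c.succ = 0 := by
    intro c
    rw [hBcoe, Fin.cons_succ]
    exact LinearMap.mem_ker.mp (b c).2
  have hμB : ∀ c : Fin (m + 1), μ ⬝ᵥ B c = if c = 0 then 1 else 0 := by
    intro c
    refine Fin.cases ?_ ?_ c
    · rw [hB0, hμv, if_pos rfl]
    · intro c'
      rw [hBs c', if_neg (Fin.succ_ne_zero c')]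
  set U : Matrix (Fin (m + 1)) (Fin (m + 1)) F :=
    (Pi.basisFun F (Fin (m + 1))).toMatrix B with hU
  set V : Matrix (Fin (m + 1)) (Fin (m + 1)) F :=
    B.toMatrix (Pi.basisFun F (Fin (m + 1))) with hV
  have hUV : U * V = 1 := Module.Basis.toMatrix_mul_toMatrix_flip _ _
  have hVU : V * U = 1 := Module.Basis.toMatrix_mul_toMatrix_flip _ _
  have hUapp : ∀ a c, U a c = B c a := by
    intro a c
    rw [hU, Module.Basis.toMatrix_apply, Pi.basisFun_repr]
  have hQU : Q * U = U * Matrix.single (0 : Fin (m + 1)) 0 1 := by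
    ext a c
    rw [Matrix.mul_apply, Matrix.mul_apply]
    have h1 : ∑ k, Q a k * U k c = v a * (μ ⬝ᵥ B c) := by
      simp only [hQ, Matrix.vecMulVec_apply, hUapp, dotProduct]
      rw [Finset.mul_sum]
      exact Finset.sum_congr rfl (fun k _ => by ring)
    rw [h1, hμB c]
    by_cases hc : c = 0
    · subst hc
      rw [if_pos rfl, mul_one]
      rw [Finset.sum_eq_single (0 : Fin (m + 1))]
      · rw [Matrix.single_apply_same, mul_one, hUapp, hB0]
      · intro k _ hk
        rw [Matrix.single_apply_of_row_ne (Ne.symm hk), mul_zero]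
      · intro h
        exact absurd (Finset.mem_univ _) h
    · rw [if_neg hc, mul_zero]
      symm
      apply Finset.sum_eq_zero
      intro k _
      rw [Matrix.single_apply_of_col_ne _ _ (Ne.symm hc), mul_zero]
  have hQeq : Q = U * Matrix.single (0 : Fin (m + 1)) 0 1 * V := by
    rw [← hQU, Matrix.mul_assoc, hUV, Matrix.mul_one]
  -- the rank of `Q`
  have hQrank : Q.rank = 1 := by
    have h1 : Q.rank ≤ 1 := Matrix.rank_vecMulVec_le v μ
    have h2 : Q.rank ≠ 0 := by
      intro h0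
      unfold Matrix.rank at h0
      rw [Submodule.finrank_eq_zero] at h0
      have h3 : Q *ᵥ v ∈ LinearMap.range Q.mulVecLin := ⟨v, rfl⟩
      rw [h0, Submodule.mem_bot] at h3
      have h4 : Q *ᵥ v = v := by
        rw [hQ, Matrix.vecMulVec_mulVec, hμv]
        simp
      exact hv0 (h4 ▸ h3)
    omega
  have hrank := rank_add_of_orthogonal P Q (P - Q) (by abel) hPQ
    (by rw [Matrix.mul_sub, hP, hPQ]) hQQ (by rw [Matrix.mul_sub, hQP, hQQ, sub_self])
  refine ⟨Q, U, V, hQQ, hQP, hPQ, hUV, hVU, hQeq, ?_⟩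
  rw [hrank, hQrank]
  ring

end Cfsg.Agent.Lib.Helper33.DecW1
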