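import Mathlib
import Cfsg.Prelude.Def_FusionSystem
import Cfsg.Prelude.Def_FusionComponents
import Cfsg.Agent.S5076
import Cfsg.Agent.H85.Factor
import Cfsg.Agent.Lib.Helper87.FSFactor
import Cfsg.Agent.Lib.Helper87.FSQuot

set_option autoImplicit false

namespace Cfsg.Agent.Lib.Helper33.DihFus

open Cfsg Cfsg.FusionSystem

/-- Reduction of the index modulo `n`. -/
noncomputable def red (n : ℕ) : ZMod (2 * n) →+* ZMod n :=
  ZMod.castHom (dvd_mul_left n 2) (ZMod n)

theorem red_n (n : ℕ) : red n (n : ZMod (2 * n)) = 0 := by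
  rw [map_natCast]; exact ZMod.natCast_self n

theorem red_surj (n : ℕ) [NeZero n] (j : ZMod n) : ∃ i : ZMod (2 * n), red n i = j :=
  ⟨(j.val : ZMod (2 * n)), by rw [map_natCast]; exact ZMod.natCast_zmod_val j⟩

theorem red_eq_zero_iff (n : ℕ) [NeZero n] (i : ZMod (2 * n)) : red n i = 0 ↔ i + i = 0 := by
  haveI : NeZero (2 * n) := ⟨by have := NeZero.ne n; omega⟩
  have hi : ((i.val : ℕ) : ZMod (2 * n)) = i := ZMod.natCast_zmod_val i
  have h1 : red n i = ((i.val : ℕ) : ZMod n) := by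
    conv_lhs => rw [← hi]
    rw [map_natCast]
  have h2 : i + i = (((i.val + i.val : ℕ)) : ZMod (2 * n)) := by
    push_cast; rw [hi]
  rw [h1, h2, ZMod.natCast_eq_zero_iff, ZMod.natCast_eq_zero_iff]
  constructor
  · rintro ⟨m, hm⟩; exact ⟨m, by rw [hm]; ring⟩
  · rintro ⟨m, hm⟩
    refine ⟨m, ?_⟩
    have h3 : 2 * i.val = 2 * (n * m) := by rw [← mul_assoc]; omega
    omega

/-- The quotient map from the generalized quaternion group onto the dihedral group. -/
noncomputable def quatToDih (n : ℕ) : QuaternionGroup n →* DihedralGroup n :=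
  MonoidHom.mk' (fun x => match x with
    | QuaternionGroup.a i => DihedralGroup.r (red n i)
    | QuaternionGroup.xa i => DihedralGroup.sr (red n i)) (by
    intro x y
    rcases x with i | i <;> rcases y with j | j
    · simp [map_add]
    · simp [map_sub]
    · simp [map_add]
    · simp [map_add, map_sub])

@[simp] theorem quatToDih_a (n : ℕ) (i : ZMod (2 * n)) :
    quatToDih n (QuaternionGroup.a i) = DihedralGroup.r (red n i) := rfl

@[simp] theorem quatToDih_xa (n : ℕ) (i : ZMod (2 * n)) :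
    quatToDih n (QuaternionGroup.xa i) = DihedralGroup.sr (red n i) := rfl

theorem quatToDih_surj (n : ℕ) [NeZero n] : Function.Surjective (quatToDih n) := by
  intro d
  rcases d with j | j
  · obtain ⟨i, hi⟩ := red_surj n j
    exact ⟨QuaternionGroup.a i, by simp [hi]⟩
  · obtain ⟨i, hi⟩ := red_surj n j
    exact ⟨QuaternionGroup.xa i, by simp [hi]⟩

theorem quatToDih_eq_one_iff (n : ℕ) [NeZero n] (q : QuaternionGroup n) :
    quatToDih n q = 1 ↔ q * q = 1 := by
  haveI : NeZero (2 * n) := ⟨by have := NeZero.ne n; omega⟩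
  rcases q with i | i
  · rw [quatToDih_a, QuaternionGroup.a_mul_a, DihedralGroup.one_def, QuaternionGroup.one_def,
      DihedralGroup.r.injEq, QuaternionGroup.a.injEq]
    exact red_eq_zero_iff n i
  · rw [quatToDih_xa, QuaternionGroup.xa_mul_xa, DihedralGroup.one_def, QuaternionGroup.one_def]
    constructor
    · intro h; cases h
    · intro h
      exfalso
      rw [QuaternionGroup.a.injEq] at h
      have h2 : (n : ZMod (2 * n)) = 0 := by simpa using h
      rw [ZMod.natCast_eq_zero_iff] at h2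
      have := Nat.le_of_dvd (Nat.pos_of_ne_zero (NeZero.ne n)) h2
      have := NeZero.ne n
      omega

/-- The only elements of order at most two in a generalized quaternion group are `1` and `a n`. -/
theorem sq_eq_one (n : ℕ) [NeZero n] (q : QuaternionGroup n) (h : q * q = 1) :
    q = 1 ∨ q = QuaternionGroup.a (n : ZMod (2 * n)) := by
  haveI : NeZero (2 * n) := ⟨by have := NeZero.ne n; omega⟩
  rcases q with i | i
  · rw [QuaternionGroup.a_mul_a, QuaternionGroup.one_def, QuaternionGroup.a.injEq] at h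
    have hi : ((i.val : ℕ) : ZMod (2 * n)) = i := ZMod.natCast_zmod_val i
    have h2 : (((i.val + i.val : ℕ)) : ZMod (2 * n)) = 0 := by
      push_cast; rw [hi]; exact h
    rw [ZMod.natCast_eq_zero_iff] at h2
    obtain ⟨m, hm⟩ := h2
    have hlt : i.val < 2 * n := ZMod.val_lt i
    have hm2 : m < 2 := by
      by_contra hcon
      have : 2 * n * 2 ≤ 2 * n * m := Nat.mul_le_mul_left _ (by omega)
      omega
    interval_cases m
    · left
      have : i.val = 0 := by omega
      rw [QuaternionGroup.one_def, ← hi, this]; simp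
    · right
      have : i.val = n := by omega
      rw [← hi, this]
  · exfalso
    rw [QuaternionGroup.xa_mul_xa, QuaternionGroup.one_def, QuaternionGroup.a.injEq] at h
    have h2 : (n : ZMod (2 * n)) = 0 := by simpa using h
    rw [ZMod.natCast_eq_zero_iff] at h2
    have := Nat.le_of_dvd (Nat.pos_of_ne_zero (NeZero.ne n)) h2
    have := NeZero.ne n
    omega

/-- Dihedral fusion from quaternion fusion: given a finite group with generalized quaternion Sylow
`2`-subgroup in which `a^(n/2)` and `xa 0` are conjugate, the factor system modulo the central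
involution, transported to a dihedral group `S`, is a saturated fusion system over `S` fusing the
central involution with a non-central one. -/
theorem exists_dih_of {Ω : Type*} [Group Ω] {S : Subgroup Ω} [Finite S] (k : ℕ) (hk : 2 ≤ k)
    (eD : ↥S ≃* DihedralGroup (2 ^ k))
    (hP1 : ∃ (G : Type) (_ : Group G) (_ : Finite G) (P : Sylow 2 G)
      (e : ↥(P : Subgroup G) ≃* QuaternionGroup (2 ^ k)) (c : G),
      c * ((e.symm (QuaternionGroup.a ((2 ^ (k - 1) : ℕ) : ZMod (2 * 2 ^ k)))) : G) * c⁻¹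
        = ((e.symm (QuaternionGroup.xa 0)) : G)) :
    ∃ E : Cfsg.FusionSystem S, E.IsSaturated 2 ∧ ∃ (A : Subgroup Ω) (φ : A →* Ω) (a : A),
      φ ∈ E.Hom A ∧ ∀ s ∈ S, s * (a : Ω) * s⁻¹ ≠ φ a := by
  obtain ⟨G, _, _, P, e, c, hc⟩ := hP1
  haveI : Fact (Nat.Prime 2) := ⟨Nat.prime_two⟩
  haveI : NeZero (2 ^ k) := ⟨by positivity⟩
  let θ : ↥(P : Subgroup G) →* Ω :=
    S.subtype.comp (eD.symm.toMonoidHom.comp ((quatToDih (2 ^ k)).comp e.toMonoidHom))
  have hθ : ∀ s : ↥(P : Subgroup G),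
      θ s = ((eD.symm (quatToDih (2 ^ k) (e s)) : ↥S) : Ω) := fun s => rfl
  have hθ1 : ∀ s : ↥(P : Subgroup G), θ s = 1 ↔ s * s = 1 := by
    intro s
    rw [hθ]
    constructor
    · intro h
      have h1 : eD.symm (quatToDih (2 ^ k) (e s)) = 1 := Subtype.ext h
      have h2 : quatToDih (2 ^ k) (e s) = 1 := by simpa using h1
      have h3 := (quatToDih_eq_one_iff _ _).mp h2
      apply e.injective
      rw [map_mul, h3, map_one]
    · intro h
      have h3 : e s * e s = 1 := by rw [← map_mul, h, map_one]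
      have h2 := (quatToDih_eq_one_iff _ _).mpr h3
      rw [h2, map_one]; rfl
  have hθS : ∀ s : ↥(P : Subgroup G), θ s ∈ S := fun s => (eD.symm _).2
  let S₀ : Subgroup G := θ.ker.map (P : Subgroup G).subtype
  have hmemS₀ : ∀ s : ↥(P : Subgroup G), θ s = 1 ↔ (s : G) ∈ S₀ := by
    intro s
    constructor
    · intro h; exact ⟨s, h, rfl⟩
    · rintro ⟨s', hs', heq⟩
      have : s' = s := Subtype.ext heq
      rw [← this]; exact hs'
  let F := groupFusionSystem (P : Subgroup G)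
  have hF : F.IsSaturated 2 := Cfsg.Agent.S5076.result 2 P
  have hS₀P : S₀ ≤ (P : Subgroup G) := by
    rintro _ ⟨s, -, rfl⟩; exact s.2
  have hS₀ : F.StronglyClosed S₀ := by
    refine ⟨hS₀P, ?_⟩
    rintro R hR φ ⟨hRP, hφP, g, hg⟩ x
    have hx : θ ⟨x, hRP x.2⟩ = 1 := (hmemS₀ ⟨x, hRP x.2⟩).mpr (hR x.2)
    have hxx : (x : G) * x = 1 := by
      have := (hθ1 _).mp hx
      exact congrArg Subtype.val this
    have h1 : θ ⟨φ x, hφP x⟩ = 1 := by
      rw [hθ1]
      apply Subtype.ext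
      show φ x * φ x = 1
      rw [hg]
      calc g * (x : G) * g⁻¹ * (g * (x : G) * g⁻¹) = g * ((x : G) * x) * g⁻¹ := by group
        _ = 1 := by rw [hxx]; group
    exact (hmemS₀ ⟨φ x, hφP x⟩).mp h1
  have hrange : θ.range = S := by
    ext y
    constructor
    · rintro ⟨s, rfl⟩; exact hθS s
    · intro hy
      obtain ⟨q, hq⟩ := quatToDih_surj (2 ^ k) (eD ⟨y, hy⟩)
      refine ⟨e.symm q, ?_⟩
      rw [hθ, MulEquiv.apply_symm_apply, hq, MulEquiv.symm_apply_apply]
  obtain ⟨E, hE⟩ := Cfsg.Agent.H85.exists_factorSystem F S₀ hS₀ θ hmemS₀ S hrange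
  have hEsat : E.IsSaturated 2 :=
    Cfsg.Agent.Lib.Helper87.FSFactor.factor_saturated P.isPGroup' F hF S₀ hS₀ θ E hE
  refine ⟨E, hEsat, ?_⟩
  -- the two elements of order four
  let g1 : ↥(P : Subgroup G) :=
    e.symm (QuaternionGroup.a ((2 ^ (k - 1) : ℕ) : ZMod (2 * 2 ^ k)))
  let g2 : ↥(P : Subgroup G) := e.symm (QuaternionGroup.xa 0)
  have hc' : c * (g1 : G) * c⁻¹ = (g2 : G) := hc
  let K : Subgroup G := Subgroup.zpowers (g1 : G)
  have hKP : K ≤ (P : Subgroup G) := Subgroup.zpowers_le.mpr g1.2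
  have hconj : ∀ x ∈ K, c * x * c⁻¹ ∈ (P : Subgroup G) := by
    intro x hx
    obtain ⟨j, rfl⟩ := Subgroup.mem_zpowers_iff.mp hx
    rw [← conj_zpow, hc']
    exact (P : Subgroup G).zpow_mem g2.2 j
  let f : K →* G := conjHom K c
  have hf : ∀ x : K, f x = c * (x : G) * c⁻¹ := fun x => rfl
  have hfP : ∀ x : K, f x ∈ (P : Subgroup G) := fun x => hconj x x.2
  have hker : ∀ x : K, θ ⟨x, hKP x.2⟩ = 1 → θ ⟨f x, hfP x⟩ = 1 := by
    intro x hx
    have hxx : (x : G) * x = 1 := congrArg Subtype.val ((hθ1 _).mp hx)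
    rw [hθ1]
    apply Subtype.ext
    show f x * f x = 1
    rw [hf]
    calc c * (x : G) * c⁻¹ * (c * (x : G) * c⁻¹) = c * ((x : G) * x) * c⁻¹ := by group
      _ = 1 := by rw [hxx]; group
  obtain ⟨f', hf'⟩ := Cfsg.Agent.Lib.Helper87.FSQuot.exists_induced θ hKP f hfP hker
  have hg1K : (g1 : G) ∈ K := Subgroup.mem_zpowers _
  -- the square of `g1` is the central involution
  have hg1sq : e (g1 * g1) = QuaternionGroup.a ((2 ^ k : ℕ) : ZMod (2 * 2 ^ k)) := by
    rw [map_mul]
    show e (e.symm _) * e (e.symm _) = _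
    rw [MulEquiv.apply_symm_apply, QuaternionGroup.a_mul_a, ← Nat.cast_add]
    congr 2
    obtain ⟨k', rfl⟩ : ∃ k', k = k' + 1 := ⟨k - 1, by omega⟩
    simp [pow_succ]; ring
  have hpreK : preimageAlong θ (imageAlong θ K) ≤ K := by
    intro x hx
    obtain ⟨hxP, hxA⟩ := (Cfsg.Agent.Lib.Helper87.FSQuot.mem_preimageAlong_iff θ _ x).mp hx
    obtain ⟨y, hy⟩ := Cfsg.Agent.Lib.Helper87.FSQuot.exists_of_mem_imageAlong θ hKP hxA
    let u : ↥(P : Subgroup G) := ⟨x, hxP⟩ * (⟨y, hKP y.2⟩ : ↥(P : Subgroup G))⁻¹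
    have hu : θ u = 1 := by
      show θ (⟨x, hxP⟩ * (⟨y, hKP y.2⟩ : ↥(P : Subgroup G))⁻¹) = 1
      rw [map_mul, map_inv, hy, mul_inv_cancel]
    have huu : e u * e u = 1 := by rw [← map_mul, (hθ1 u).mp hu, map_one]
    have hxu : x = (u : G) * (y : G) := by
      show x = x * (y : G)⁻¹ * (y : G)
      group
    rcases sq_eq_one (2 ^ k) (e u) huu with h | h
    · have hu1 : u = 1 := e.injective (by rw [h, map_one])
      rw [hxu, hu1]
      simp
    · have hu1 : u = g1 * g1 := e.injective (by rw [h, hg1sq])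
      rw [hxu, hu1]
      exact K.mul_mem (K.mul_mem hg1K hg1K) y.2
  refine ⟨imageAlong θ K, f', ⟨θ ⟨g1, hKP hg1K⟩,
    Cfsg.Agent.Lib.Helper87.FSQuot.imageAlong_mem θ hKP ⟨g1, hg1K⟩⟩, ?_, ?_⟩
  · rw [hE.2.2.2]
    refine ⟨Cfsg.Agent.Lib.Helper87.FSQuot.imageAlong_le θ hθS K,
      conjHom (preimageAlong θ (imageAlong θ K)) c, ?_, ?_⟩
    · exact ⟨hpreK.trans hKP, fun x => hconj x (hpreK x.2), c, fun x => rfl⟩
    · refine ⟨hpreK.trans hKP, fun x => hconj x (hpreK x.2), fun x =>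
        ((Cfsg.Agent.Lib.Helper87.FSQuot.mem_preimageAlong_iff θ _ x).mp x.2).2, fun x => ?_⟩
      exact hf' ⟨x, hpreK x.2⟩
  · intro s hs hcon
    have h1 : f' ⟨θ ⟨g1, hKP hg1K⟩,
        Cfsg.Agent.Lib.Helper87.FSQuot.imageAlong_mem θ hKP ⟨g1, hg1K⟩⟩ = θ g2 := by
      rw [hf' ⟨g1, hg1K⟩]
      congr 1
      exact Subtype.ext hc'
    rw [h1] at hcon
    have hcon' : s * θ g1 * s⁻¹ = θ g2 := hcon
    rw [hθ, hθ] at hcon'
    have h2 : (⟨s, hs⟩ : ↥S) * eD.symm (quatToDih (2 ^ k) (e g1)) * (⟨s, hs⟩ : ↥S)⁻¹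
        = eD.symm (quatToDih (2 ^ k) (e g2)) := Subtype.ext hcon'
    have h3 := congrArg eD h2
    simp only [map_mul, map_inv, MulEquiv.apply_symm_apply, g1, g2, quatToDih_a, quatToDih_xa]
      at h3
    generalize eD ⟨s, hs⟩ = d at h3
    rcases d with j | j <;> simp at h3

end Cfsg.Agent.Lib.Helper33.DihFus
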