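import Mathlib
import Cfsg.Prelude.Def_CaseTheorems
import Cfsg.Agent.Lib.Helper74.DixStmt
import Cfsg.Agent.Lib.Helper74.DualHH
import Cfsg.Agent.Lib.Helper76.PSolv
import Cfsg.Agent.Lib.Helper23.Cores

/-!
# S4472 / GRPA1 (helper33): the `p'`-complement `K` in the preimage `M` of `O_{p'}(G / O_p(G))`;
`p`-elements centralizing `K` lie in `O_p(G)`.
-/

set_option autoImplicit false

namespace Cfsg.Agent.Lib.Helper33.DixGRPA1

open Cfsg Cfsg.Agent.Lib.Helper74.DixStmt

universe u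

/-- `O_p(G / O_p(G)) = 1` -/
theorem pCore_quot_bot {H : Type*} [Group H] [Finite H] (p : ℕ) [Fact p.Prime] :
    pCore p (H ⧸ pCore p H) = ⊥ := by
  rw [eq_bot_iff]
  intro y hy
  obtain ⟨x, rfl⟩ := QuotientGroup.mk'_surjective (pCore p H) y
  have hNn : ((pCore p (H ⧸ pCore p H)).comap (QuotientGroup.mk' (pCore p H))).Normal :=
    Subgroup.Normal.comap inferInstance _
  have hNp : IsPGroup p ((pCore p (H ⧸ pCore p H)).comap (QuotientGroup.mk' (pCore p H))) := by
    rintro ⟨g, hg⟩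
    obtain ⟨k, hk⟩ := (Cfsg.Agent.Lib.Helper23.Cores.pCore_isPGroup (G := H ⧸ pCore p H) p) ⟨_, hg⟩
    have hk' : (QuotientGroup.mk' (pCore p H) g) ^ p ^ k = 1 := congrArg Subtype.val hk
    rw [← map_pow] at hk'
    have hgk : g ^ p ^ k ∈ pCore p H := by
      rw [← QuotientGroup.ker_mk' (pCore p H)]; exact hk'
    obtain ⟨l, hl⟩ := (Cfsg.Agent.Lib.Helper23.Cores.pCore_isPGroup (G := H) p) ⟨_, hgk⟩
    have hl' : (g ^ p ^ k) ^ p ^ l = 1 := congrArg Subtype.val hl
    refine ⟨k + l, ?_⟩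
    apply Subtype.ext
    show g ^ p ^ (k + l) = 1
    rw [pow_add, pow_mul]; exact hl'
  have hle := Cfsg.Agent.Lib.Helper23.Cores.le_pCore p _ hNn hNp
  have hx : x ∈ pCore p H := hle hy
  rw [Subgroup.mem_bot]
  exact (QuotientGroup.eq_one_iff x).2 hx

/-- order of a preimage under the quotient map -/
theorem card_comap_mk {G : Type*} [Group G] [Finite G] (K : Subgroup G) [K.Normal]
    (Y : Subgroup (G ⧸ K)) :
    Nat.card ↥(Y.comap (QuotientGroup.mk' K)) = Nat.card ↥K * Nat.card ↥Y := by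
  have hidx : (Y.comap (QuotientGroup.mk' K)).index = Y.index :=
    Subgroup.index_comap_of_surjective Y (QuotientGroup.mk'_surjective K)
  have e1 := Subgroup.card_mul_index (Y.comap (QuotientGroup.mk' K))
  have e2 := Subgroup.card_mul_index Y
  have e3 := Subgroup.card_eq_card_quotient_mul_card_subgroup K
  have hi : 0 < Y.index := Nat.pos_of_ne_zero Subgroup.index_ne_zero_of_finite
  rw [hidx] at e1
  apply Nat.eq_of_mul_eq_mul_right hi
  rw [e1, e3, ← e2]
  ring

theorem main : GrpA1.{u} := by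
  intro G _ _ p hp hsolv
  classical
  have hUb : pCore p (G ⧸ pCore p G) = ⊥ := pCore_quot_bot p
  have hsolvb : IsPSolvable p (G ⧸ pCore p G) :=
    Cfsg.Agent.Lib.Helper76.PSolv.isPSolvable_quotient p (pCore p G) hsolv
  have hcent := Cfsg.Agent.Lib.Helper74.DualHH.centralizer_pPrimeCore_le p hsolvb hUb
  have hMbc : (Nat.card ↥(pPrimeCore p (G ⧸ pCore p G))).Coprime p :=
    Cfsg.Agent.Lib.Helper76.PSolv.pPrimeCore_coprime p
  obtain ⟨M, hMdef⟩ : ∃ M : Subgroup G,
      M = (pPrimeCore p (G ⧸ pCore p G)).comap (QuotientGroup.mk' (pCore p G)) := ⟨_, rfl⟩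
  have hMn : M.Normal := by rw [hMdef]; exact Subgroup.Normal.comap inferInstance _
  have hUM : pCore p G ≤ M := by
    intro x hx
    rw [hMdef, Subgroup.mem_comap]
    have : QuotientGroup.mk' (pCore p G) x = 1 := (QuotientGroup.eq_one_iff x).2 hx
    rw [this]; exact Subgroup.one_mem _
  have hMcard : Nat.card ↥M =
      Nat.card ↥(pCore p G) * Nat.card ↥(pPrimeCore p (G ⧸ pCore p G)) := by
    rw [hMdef]; exact card_comap_mk _ _
  have hUMn : ((pCore p G).subgroupOf M).Normal := Subgroup.Normal.subgroupOf inferInstance M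
  have hUMcard : Nat.card ↥((pCore p G).subgroupOf M) = Nat.card ↥(pCore p G) :=
    Nat.card_congr (Subgroup.subgroupOfEquivOfLe hUM).toEquiv
  have hUpos : 0 < Nat.card ↥(pCore p G) := Nat.card_pos
  have hidx : ((pCore p G).subgroupOf M).index =
      Nat.card ↥(pPrimeCore p (G ⧸ pCore p G)) := by
    have e := Subgroup.card_mul_index ((pCore p G).subgroupOf M)
    rw [hUMcard, hMcard] at e
    exact Nat.eq_of_mul_eq_mul_left hUpos e
  have hUp : IsPGroup p ↥(pCore p G) := Cfsg.Agent.Lib.Helper23.Cores.pCore_isPGroup p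
  obtain ⟨n, hn⟩ := IsPGroup.iff_card.mp hUp
  have hcop : Nat.Coprime (Nat.card ↥((pCore p G).subgroupOf M))
      ((pCore p G).subgroupOf M).index := by
    rw [hUMcard, hidx, hn]
    exact Nat.Coprime.pow_left n (Nat.Coprime.symm hMbc)
  obtain ⟨H', hH'⟩ := Subgroup.exists_right_complement'_of_coprime hcop
  have hcm := hH'.card_mul_card
  have hKcard : Nat.card ↥(H'.map M.subtype) = Nat.card ↥H' :=
    Subgroup.card_map_of_injective M.subtype_injective
  refine ⟨M, H'.map M.subtype, hMn, hUM, ?_, ?_, ?_, ?_⟩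
  · rintro _ ⟨y, -, rfl⟩
    exact y.2
  · rw [hKcard]
    have e : Nat.card ↥H' = Nat.card ↥(pPrimeCore p (G ⧸ pCore p G)) := by
      rw [hUMcard, hMcard] at hcm
      exact Nat.eq_of_mul_eq_mul_left hUpos hcm
    rw [e]; exact hMbc
  · rw [hKcard, ← hUMcard]; exact hcm
  · rintro x ⟨j, hj⟩ hxK
    have hxc : QuotientGroup.mk' (pCore p G) x ∈ Subgroup.centralizer
        ((pPrimeCore p (G ⧸ pCore p G) : Subgroup (G ⧸ pCore p G)) : Set (G ⧸ pCore p G)) := by
      rw [Subgroup.mem_centralizer_iff]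
      intro y hy
      obtain ⟨m, rfl⟩ := QuotientGroup.mk'_surjective (pCore p G) y
      have hmM : m ∈ M := by rw [hMdef]; exact hy
      obtain ⟨⟨u, k⟩, huk, -⟩ := hH'.existsUnique (⟨m, hmM⟩ : ↥M)
      have hm : m = ((u : ↥M) : G) * ((k : ↥M) : G) := by
        have := congrArg Subtype.val huk
        simpa using this.symm
      have hu : ((u : ↥M) : G) ∈ pCore p G := Subgroup.mem_subgroupOf.mp u.2
      have hk : ((k : ↥M) : G) ∈ H'.map M.subtype := ⟨(k : ↥M), k.2, rfl⟩
      have hmk : QuotientGroup.mk' (pCore p G) m =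
          QuotientGroup.mk' (pCore p G) ((k : ↥M) : G) := by
        have hu1 : QuotientGroup.mk' (pCore p G) ((u : ↥M) : G) = 1 :=
          (QuotientGroup.eq_one_iff _).2 hu
        rw [hm, map_mul, hu1, one_mul]
      rw [hmk, ← map_mul, ← map_mul, hxK _ hk]
    have hxM := hcent hxc
    have h1 : (QuotientGroup.mk' (pCore p G) x) ^
        Nat.card ↥(pPrimeCore p (G ⧸ pCore p G)) = 1 := by
      have := pow_card_eq_one' (G := ↥(pPrimeCore p (G ⧸ pCore p G))) (x := ⟨_, hxM⟩)
      exact congrArg Subtype.val this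
    have h2 : (QuotientGroup.mk' (pCore p G) x) ^ (p ^ j) = 1 := by
      rw [← map_pow, hj, map_one]
    have hd1 := orderOf_dvd_of_pow_eq_one h1
    have hd2 := orderOf_dvd_of_pow_eq_one h2
    have hg : Nat.gcd (Nat.card ↥(pPrimeCore p (G ⧸ pCore p G))) (p ^ j) = 1 :=
      Nat.Coprime.pow_right j hMbc
    have h3 := Nat.dvd_gcd hd1 hd2
    rw [hg, Nat.dvd_one] at h3
    have h4 : QuotientGroup.mk' (pCore p G) x = 1 := orderOf_eq_one_iff.mp h3
    exact (QuotientGroup.eq_one_iff x).1 h4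

end Cfsg.Agent.Lib.Helper33.DixGRPA1
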