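import Mathlib

/-!
# Piece EMB for S4025: `M ⧸ O_{p'}(M)` embeds in the permutations of a normal Sylow
`p`-subgroup `Q` as "affine" maps `v ↦ b * x v x⁻¹`
-/

set_option autoImplicit false
set_option linter.style.haveILetI false

namespace Cfsg.Agent.Lib.Helper33.EqEMB

universe u

/-- A normal subgroup of order prime to `p` lies in every complement of a normal `p`-subgroup
of index prime to `p`. -/
theorem le_complement {M : Type u} [Group M] [Finite M] {p : ℕ} [Fact p.Prime] (Q : Subgroup M)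
    (hQ : IsPGroup p Q) (H0 : Subgroup M) (hH0 : Subgroup.IsComplement' Q H0)
    (hH0p : (Nat.card H0).Coprime p)
    (K : Subgroup M) [K.Normal] (hK : (Nat.card K).Coprime p) : K ≤ H0 := by
  obtain ⟨k, hk⟩ := IsPGroup.iff_card.mp hQ
  have hL : Nat.card (H0 ⊔ K : Subgroup M) = Nat.card K * K.relIndex H0 := by
    have h1 := Subgroup.relIndex_mul_relIndex (⊥ : Subgroup M) K (H0 ⊔ K) bot_le le_sup_right
    rw [Subgroup.relIndex_bot_left, Subgroup.relIndex_bot_left, Subgroup.relIndex_sup_right] at h1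
    exact h1.symm
  have hLcop : (Nat.card (H0 ⊔ K : Subgroup M)).Coprime p := by
    rw [hL]
    exact Nat.Coprime.mul_left hK (Nat.Coprime.coprime_dvd_left (Subgroup.relIndex_dvd_card K H0) hH0p)
  have hcard : Nat.card Q * Nat.card H0 = Nat.card M := hH0.card_mul_card
  have hdvd : Nat.card (H0 ⊔ K : Subgroup M) ∣ Nat.card H0 := by
    have h1 : Nat.card (H0 ⊔ K : Subgroup M) ∣ Nat.card Q * Nat.card H0 := by
      rw [hcard]; exact Subgroup.card_subgroup_dvd_card _
    have h2 : (Nat.card (H0 ⊔ K : Subgroup M)).Coprime (Nat.card Q) := by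
      rw [hk]; exact Nat.Coprime.pow_right k hLcop
    exact h2.dvd_of_dvd_mul_left h1
  have hle : H0 ≤ H0 ⊔ K := le_sup_left
  have hpos : 0 < Nat.card H0 := Nat.card_pos
  have heq : H0 = H0 ⊔ K := Subgroup.eq_of_le_of_card_ge hle (Nat.le_of_dvd hpos hdvd)
  calc K ≤ H0 ⊔ K := le_sup_right
    _ = H0 := heq.symm

theorem embed {M : Type u} [Group M] [Finite M] {p : ℕ} [Fact p.Prime] (Q : Subgroup M)
    [Q.Normal] (hQ : IsPGroup p Q) (hidx : ¬ p ∣ Q.index)
    (K : Subgroup M) [K.Normal] (hK : (Nat.card K).Coprime p)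
    (hKmax : ∀ L : Subgroup M, L.Normal → (Nat.card L).Coprime p → L ≤ K) :
    ∃ f : M ⧸ K →* Equiv.Perm ↥Q, Function.Injective f ∧
      ∀ y : M ⧸ K, ∃ (x : M) (b : ↥Q), ∀ v : ↥Q, f y v = b * MulAut.conjNormal x v := by
  have hp : p.Prime := Fact.out
  obtain ⟨k, hk⟩ := IsPGroup.iff_card.mp hQ
  have hidxcop : Q.index.Coprime p :=
    Nat.Coprime.symm ((Nat.Prime.coprime_iff_not_dvd hp).mpr hidx)
  have hcop : Nat.Coprime (Nat.card Q) Q.index := by
    rw [hk]; exact Nat.Coprime.pow_left k hidxcop.symm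
  obtain ⟨H0, hH0⟩ := Subgroup.exists_right_complement'_of_coprime hcop
  have hcard : Nat.card Q * Nat.card H0 = Nat.card M := hH0.card_mul_card
  have hH0card : Nat.card H0 = Q.index := by
    have h1 : Nat.card Q * Q.index = Nat.card M := Subgroup.card_mul_index Q
    have hpos : 0 < Nat.card Q := Nat.card_pos
    exact Nat.eq_of_mul_eq_mul_left hpos (hcard.trans h1.symm)
  have hH0p : (Nat.card H0).Coprime p := by rw [hH0card]; exact hidxcop
  have hKH0 : K ≤ H0 := le_complement Q hQ H0 hH0 hH0p K hK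
  have hKcore : K ≤ H0.normalCore := Subgroup.normal_le_normalCore.mpr hKH0
  have hcoreK : H0.normalCore ≤ K := by
    apply hKmax _ inferInstance
    exact Nat.Coprime.coprime_dvd_left (Subgroup.card_dvd_of_le (Subgroup.normalCore_le H0)) hH0p
  -- the bijection `Q ≃ M ⧸ H0`
  have hbij : Function.Bijective (fun q : Q => (QuotientGroup.mk (q : M) : M ⧸ H0)) :=
    Subgroup.isComplement_subgroup_right_iff_bijective.mp hH0
  let e : Q ≃ M ⧸ H0 := Equiv.ofBijective _ hbij
  have he : ∀ q : Q, e q = (QuotientGroup.mk (q : M) : M ⧸ H0) := fun q => rfl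
  let φ : M →* Equiv.Perm (M ⧸ H0) := MulAction.toPermHom M (M ⧸ H0)
  let g : M →* Equiv.Perm Q := (e.symm.permCongrHom).toMonoidHom.comp φ
  have hgapp : ∀ (m : M) (v : Q), e (g m v) = (QuotientGroup.mk (m * (v : M)) : M ⧸ H0) := by
    intro m v
    have h1 : g m v = e.symm (m • e v) := rfl
    rw [h1, Equiv.apply_symm_apply, he]
    rfl
  have hgone : ∀ m : M, g m = 1 ↔ m ∈ H0.normalCore := by
    intro m
    rw [Subgroup.normalCore_eq_ker, MonoidHom.mem_ker]
    constructor
    · intro h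
      have h1 : (e.symm.permCongrHom) (φ m) = (e.symm.permCongrHom) 1 := by
        rw [map_one]; exact h
      exact (e.symm.permCongrHom).injective h1
    · intro h
      show (e.symm.permCongrHom) (φ m) = 1
      have h1 : φ m = 1 := h
      rw [h1, map_one]
  let f : M ⧸ K →* Equiv.Perm Q :=
    QuotientGroup.lift K g (fun m hm => MonoidHom.mem_ker.mpr ((hgone m).mpr (hKcore hm)))
  have hf : ∀ m : M, f (QuotientGroup.mk m) = g m := fun m => rfl
  refine ⟨f, ?_, ?_⟩
  · rw [injective_iff_map_eq_one]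
    intro y hy
    induction y using QuotientGroup.induction_on with
    | H m =>
      rw [hf] at hy
      exact (QuotientGroup.eq_one_iff m).mpr (hcoreK ((hgone m).mp hy))
  · intro y
    induction y using QuotientGroup.induction_on with
    | H m =>
      obtain ⟨⟨⟨u, hu⟩, ⟨h, hh⟩⟩, hx, -⟩ := Subgroup.isComplement_iff_existsUnique.mp hH0 m
      have hm : u * h = m := hx
      refine ⟨h, ⟨u, hu⟩, fun v => ?_⟩
      rw [hf]
      apply e.injective
      rw [hgapp, he]
      symm
      rw [QuotientGroup.eq]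
      have h1 : (((⟨u, hu⟩ : Q) * MulAut.conjNormal h v : Q) : M) = u * (h * (v : M) * h⁻¹) := by
        rw [Subgroup.coe_mul, MulAut.conjNormal_apply]
      rw [h1, ← hm]
      have h2 : (u * (h * (v : M) * h⁻¹))⁻¹ * (u * h * (v : M)) = h := by group
      rw [h2]
      exact hh

end Cfsg.Agent.Lib.Helper33.EqEMB
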