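import Mathlib

/-!
# Piece FUS for S4025: Burnside fusion in an abelian Sylow subgroup
-/

set_option autoImplicit false
set_option linter.style.haveILetI false

namespace Cfsg.Agent.Lib.Helper33.EqFUS

universe u

theorem fusion_aux {G : Type u} [Group G] [Finite G] {p : ℕ} [Fact p.Prime]
    (hC : ∀ H K : Subgroup G, IsPGroup p H → IsPGroup p K → Nat.card H = Nat.card K →
      ∃ g : G, K = H.map (MulAut.conj g).toMonoidHom) (P : Sylow p G)
    (hcomm : ∀ a ∈ (P : Subgroup G), ∀ b ∈ (P : Subgroup G), a * b = b * a)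
    (N : Subgroup G) (hN : N = Subgroup.normalizer ((P : Subgroup G) : Set G))
    (A B : Subgroup ↥N)
    (hA : A ≤ (P : Subgroup G).subgroupOf N)
    (hB : B ≤ (P : Subgroup G).subgroupOf N)
    (hAB : Nat.card A = Nat.card B) :
    ∃ g : ↥N, B = A.map (MulAut.conj g).toMonoidHom := by
  set A' : Subgroup G := A.map N.subtype with hA'
  set B' : Subgroup G := B.map N.subtype with hB'
  have hinj : Function.Injective N.subtype := Subgroup.subtype_injective N
  have hA'P : A' ≤ (P : Subgroup G) := by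
    rintro _ ⟨a, ha, rfl⟩
    exact Subgroup.mem_subgroupOf.mp (hA ha)
  have hB'P : B' ≤ (P : Subgroup G) := by
    rintro _ ⟨b, hb, rfl⟩
    exact Subgroup.mem_subgroupOf.mp (hB hb)
  have hA'p : IsPGroup p A' := P.isPGroup'.to_le hA'P
  have hB'p : IsPGroup p B' := P.isPGroup'.to_le hB'P
  have hcardA : Nat.card A' = Nat.card A :=
    Nat.card_congr (A.equivMapOfInjective N.subtype hinj).symm.toEquiv
  have hcardB : Nat.card B' = Nat.card B :=
    Nat.card_congr (B.equivMapOfInjective N.subtype hinj).symm.toEquiv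
  obtain ⟨g, hg⟩ := hC A' B' hA'p hB'p (by rw [hcardA, hcardB, hAB])
  -- `P` and `g • P` lie in the centralizer of `B'`
  have h1 : (P : Subgroup G) ≤ Subgroup.centralizer (B' : Set G) := by
    intro x hx
    rw [Subgroup.mem_centralizer_iff]
    intro b hb
    exact hcomm b (hB'P hb) x hx
  have h2 : ((g • P : Sylow p G) : Subgroup G) ≤ Subgroup.centralizer (B' : Set G) := by
    intro x hx
    rw [Sylow.coe_subgroup_smul, Subgroup.mem_smul_pointwise_iff_exists] at hx
    obtain ⟨y, hy, rfl⟩ := hx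
    rw [Subgroup.mem_centralizer_iff]
    intro b hb
    have hb' : b ∈ A'.map (MulAut.conj g).toMonoidHom := by rw [← hg]; exact hb
    obtain ⟨a, ha, rfl⟩ := hb'
    have hc := hcomm a (hA'P ha) y hy
    simp only [MulEquiv.toMonoidHom_eq_coe, MonoidHom.coe_coe, MulAut.conj_apply,
      MulAut.smul_def]
    calc g * a * g⁻¹ * (g * y * g⁻¹) = g * (a * y) * g⁻¹ := by group
      _ = g * (y * a) * g⁻¹ := by rw [hc]
      _ = g * y * g⁻¹ * (g * a * g⁻¹) := by group
  obtain ⟨c, hc⟩ := MulAction.exists_smul_eq (Subgroup.centralizer (B' : Set G))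
    ((g • P).subtype h2) (P.subtype h1)
  simp_rw [Sylow.smul_subtype, Subgroup.smul_def, smul_smul] at hc
  have hn : (c : G) * g ∈ N := by
    rw [hN]
    exact Sylow.smul_eq_iff_mem_normalizer.mp (Sylow.subtype_injective hc)
  refine ⟨⟨(c : G) * g, hn⟩, ?_⟩
  apply Subgroup.map_injective hinj
  show B' = _
  rw [Subgroup.map_map]
  have hcomp : N.subtype.comp (MulAut.conj (⟨(c : G) * g, hn⟩ : N)).toMonoidHom
      = ((MulAut.conj (c : G)).toMonoidHom.comp (MulAut.conj g).toMonoidHom).comp N.subtype := by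
    ext x
    simp only [MulEquiv.toMonoidHom_eq_coe, MonoidHom.coe_comp, MonoidHom.coe_coe,
      Function.comp_apply, MulAut.conj_apply, Subgroup.coe_subtype, Subgroup.coe_mul,
      Subgroup.coe_inv]
    group
  rw [hcomp, ← Subgroup.map_map, ← Subgroup.map_map, ← hA', ← hg]
  -- `c` centralizes `B'`
  ext x
  constructor
  · intro hx
    refine ⟨x, hx, ?_⟩
    have := c.2
    rw [Subgroup.mem_centralizer_iff] at this
    have h3 := this x hx
    simp only [MulEquiv.toMonoidHom_eq_coe, MonoidHom.coe_coe, MulAut.conj_apply]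
    calc (c : G) * x * (c : G)⁻¹ = (x * c) * (c : G)⁻¹ := by rw [h3]
      _ = x := by group
  · rintro ⟨y, hy, rfl⟩
    have := c.2
    rw [Subgroup.mem_centralizer_iff] at this
    have h3 := this y hy
    simp only [MulEquiv.toMonoidHom_eq_coe, MonoidHom.coe_coe, MulAut.conj_apply]
    have : (c : G) * y * (c : G)⁻¹ = y := by
      calc (c : G) * y * (c : G)⁻¹ = (y * c) * (c : G)⁻¹ := by rw [h3]
        _ = y := by group
    rw [this]
    exact hy

theorem fusion {G : Type u} [Group G] [Finite G] {p : ℕ} [Fact p.Prime]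
    (hC : ∀ H K : Subgroup G, IsPGroup p H → IsPGroup p K → Nat.card H = Nat.card K →
      ∃ g : G, K = H.map (MulAut.conj g).toMonoidHom) (P : Sylow p G)
    (hcomm : ∀ a ∈ (P : Subgroup G), ∀ b ∈ (P : Subgroup G), a * b = b * a)
    (A B : Subgroup ↥(Subgroup.normalizer ((P : Subgroup G) : Set G)))
    (hA : A ≤ (P : Subgroup G).subgroupOf (Subgroup.normalizer ((P : Subgroup G) : Set G)))
    (hB : B ≤ (P : Subgroup G).subgroupOf (Subgroup.normalizer ((P : Subgroup G) : Set G)))
    (hAB : Nat.card A = Nat.card B) :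
    ∃ g : ↥(Subgroup.normalizer ((P : Subgroup G) : Set G)),
      B = A.map (MulAut.conj g).toMonoidHom :=
  fusion_aux hC P hcomm _ rfl A B hA hB hAB

theorem setup_facts {G : Type u} [Group G] [Finite G] {p : ℕ} [Fact p.Prime] (P : Sylow p G) :
    ((P : Subgroup G).subgroupOf (Subgroup.normalizer ((P : Subgroup G) : Set G))).Normal ∧
    Nat.card ((P : Subgroup G).subgroupOf (Subgroup.normalizer ((P : Subgroup G) : Set G))) =
      Nat.card P ∧
    ¬ p ∣ ((P : Subgroup G).subgroupOf (Subgroup.normalizer ((P : Subgroup G) : Set G))).index := by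
  refine ⟨Subgroup.normal_in_normalizer, ?_, ?_⟩
  · exact Nat.card_congr (Subgroup.subgroupOfEquivOfLe Subgroup.le_normalizer).toEquiv
  · intro h
    have h1 : ((P : Subgroup G).subgroupOf (Subgroup.normalizer ((P : Subgroup G) : Set G))).index
        ∣ (P : Subgroup G).index := Subgroup.relIndex_dvd_index_of_le Subgroup.le_normalizer
    exact P.not_dvd_index (dvd_trans h h1)

end Cfsg.Agent.Lib.Helper33.EqFUS
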