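import Mathlib

set_option autoImplicit false

namespace Cfsg.Agent.Lib.Helper33.Gl2

open Finset

theorem choose_two_succ (i : ℕ) : (i + 1).choose 2 = i + i.choose 2 := by
  rw [show (2 : ℕ) = 1 + 1 from rfl, Nat.choose_succ_succ', Nat.choose_one_right]

theorem choose_three_succ (i : ℕ) : (i + 1).choose 3 = i.choose 2 + i.choose 3 := by
  rw [show (3 : ℕ) = 2 + 1 from rfl, Nat.choose_succ_succ']

theorem choose_four_succ (i : ℕ) : (i + 1).choose 4 = i.choose 3 + i.choose 4 := by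
  rw [show (4 : ℕ) = 3 + 1 from rfl, Nat.choose_succ_succ']

theorem lang_aux {G : Type*} [Group G] (A q q' : G)
    (h : q * (A * q⁻¹ * A⁻¹) = q' * (A * q'⁻¹ * A⁻¹)) :
    A * (q'⁻¹ * q) = (q'⁻¹ * q) * A := by
  have h1 : q'⁻¹ * q * (A * q⁻¹ * A⁻¹) = A * q'⁻¹ * A⁻¹ := by
    rw [mul_assoc, h, inv_mul_cancel_left]
  calc A * (q'⁻¹ * q) = (A * q'⁻¹ * A⁻¹) * (A * q) := by group
    _ = (q'⁻¹ * q * (A * q⁻¹ * A⁻¹)) * (A * q) := by rw [h1]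
    _ = (q'⁻¹ * q) * A := by group

section abstract

variable {G₁ W : Type*} [Group G₁] [CommGroup W]

/-- Binomial expansion of `ρ (a ^ i)` when the fourth difference vanishes. -/
theorem rho_pow_apply (ρ : G₁ →* MulAut W) (a : G₁) (D : W → W)
    (hDdef : ∀ w, D w = w⁻¹ * ρ a w)
    (hD : ∀ w : W, D (D (D (D w))) = 1) (i : ℕ) (w : W) :
    ρ (a ^ i) w = w * (D w) ^ i * (D (D w)) ^ (i.choose 2) * (D (D (D w))) ^ (i.choose 3) := by
  induction i generalizing w with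
  | zero => simp
  | succ i ih =>
    have h0 : ρ a w = w * D w := by rw [hDdef, mul_inv_cancel_left]
    have h1 : ρ (a ^ (i + 1)) w = ρ (a ^ i) w * ρ (a ^ i) (D w) := by
      rw [pow_succ, map_mul, MulAut.mul_apply, h0, map_mul]
    rw [h1, ih w, ih (D w), hD, one_pow, mul_one, choose_two_succ, choose_three_succ,
      pow_succ, pow_add, pow_add]
    ac_rfl

theorem prod_rho_pow (ρ : G₁ →* MulAut W) (a : G₁) (D : W → W)
    (hDdef : ∀ w, D w = w⁻¹ * ρ a w)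
    (hD : ∀ w : W, D (D (D (D w))) = 1) (n : ℕ) (w : W) :
    ∏ i ∈ range n, ρ (a ^ i) w
      = w ^ n * (D w) ^ (n.choose 2) * (D (D w)) ^ (n.choose 3)
        * (D (D (D w))) ^ (n.choose 4) := by
  induction n with
  | zero => simp
  | succ n ih =>
    rw [Finset.prod_range_succ, ih, rho_pow_apply ρ a D hDdef hD, choose_two_succ,
      choose_three_succ, choose_four_succ, pow_succ, pow_add, pow_add, pow_add]
    ac_rfl

theorem norm_eq_one (p : ℕ) [Fact p.Prime] (hp : 5 ≤ p)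
    (hexp : ∀ w : W, w ^ p = 1) (ρ : G₁ →* MulAut W) (a : G₁) (D : W → W)
    (hDdef : ∀ w, D w = w⁻¹ * ρ a w)
    (hD : ∀ w : W, D (D (D (D w))) = 1) (w : W) :
    ∏ i ∈ range p, ρ (a ^ i) w = 1 := by
  have hpr : p.Prime := Fact.out
  have hpow : ∀ (x : W) (m : ℕ), p ∣ m → x ^ m = 1 := by
    intro x m hm
    obtain ⟨c, rfl⟩ := hm
    rw [pow_mul, hexp, one_pow]
  rw [prod_rho_pow ρ a D hDdef hD, hexp,
    hpow _ _ (hpr.dvd_choose_self (by norm_num) (by omega)),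
    hpow _ _ (hpr.dvd_choose_self (by norm_num) (by omega)),
    hpow _ _ (hpr.dvd_choose_self (by norm_num) (by omega))]
  simp

/-- A `p'`-group `Q` on which the `p`-element `a` acts without fixed points acts trivially
on a commutative group `W` of exponent `p` as soon as the fourth difference of `a`
vanishes on `W` (`p ≥ 5`). -/
theorem act_trivial_comm (p : ℕ) [Fact p.Prime] (hp : 5 ≤ p)
    (hexp : ∀ w : W, w ^ p = 1) (ρ : G₁ →* MulAut W) (Q : Subgroup G₁) [Finite Q]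
    (hcop : (Nat.card Q).Coprime p) (a : G₁) (haQ : ∀ q ∈ Q, a * q * a⁻¹ ∈ Q)
    (n : ℕ) (ha : a ^ p ^ n = 1) (hfpf : ∀ q ∈ Q, a * q = q * a → q = 1)
    (hD : ∀ w : W, (fun x => x⁻¹ * ρ a x)^[4] w = 1) :
    ∀ q ∈ Q, ∀ w, ρ q w = w := by
  classical
  letI : Fintype Q := Fintype.ofFinite Q
  have hpr : p.Prime := Fact.out
  have hN : ∀ w : W, ∏ i ∈ range p, ρ (a ^ i) w = 1 :=
    norm_eq_one p hp hexp ρ a (fun x => x⁻¹ * ρ a x) (fun _ => rfl) hD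
  have hconj : ∀ i : ℕ, ∀ q ∈ Q, a ^ i * q * (a ^ i)⁻¹ ∈ Q := by
    intro i
    induction i with
    | zero => intro q hq; simpa using hq
    | succ i ih =>
      intro q hq
      have h1 := haQ _ (ih q hq)
      have e : a ^ (i + 1) * q * (a ^ (i + 1))⁻¹ = a * (a ^ i * q * (a ^ i)⁻¹) * a⁻¹ := by
        rw [pow_succ']; group
      rw [e]; exact h1
  have hfpf' : ∀ i : ℕ, 0 < i → i < p → ∀ q ∈ Q, a ^ i * q = q * a ^ i → q = 1 := by
    intro i hi0 hip q hq hc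
    have hord : orderOf a ∣ p ^ n := orderOf_dvd_of_pow_eq_one ha
    obtain ⟨k, -, hk⟩ := (Nat.dvd_prime_pow hpr).1 hord
    have hcop' : i.Coprime (orderOf a) := by
      rw [hk]
      exact Nat.Coprime.pow_right _
        (Nat.coprime_comm.1 ((Nat.Prime.coprime_iff_not_dvd hpr).2
          (Nat.not_dvd_of_pos_of_lt hi0 hip)))
    obtain ⟨m, hm⟩ := exists_pow_eq_self_of_coprime hcop'
    apply hfpf q hq
    have h1 : Commute (a ^ i) q := hc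
    have h2 : Commute ((a ^ i) ^ m) q := h1.pow_left m
    rw [hm] at h2
    exact h2
  have hT : ∀ q' ∈ Q, ∀ x : W, ∏ q : Q, ρ (q : G₁) (ρ q' x) = ∏ q : Q, ρ (q : G₁) x := by
    intro q' hq' x
    refine Fintype.prod_bijective (fun q : Q => q * ⟨q', hq'⟩) (Group.mulRight_bijective _) _ _ ?_
    intro q
    simp [map_mul]
  have hL : ∀ i : ℕ, 0 < i → i < p → ∀ x : W,
      ∏ q : Q, ρ ((q : G₁) * a ^ i * (q : G₁)⁻¹) x = ∏ q : Q, ρ (q : G₁) (ρ (a ^ i) x) := by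
    intro i hi0 hip x
    let L : Q → Q := fun q =>
      ⟨(q : G₁) * (a ^ i * (q : G₁)⁻¹ * (a ^ i)⁻¹), Q.mul_mem q.2 (hconj i _ (Q.inv_mem q.2))⟩
    have hLinj : Function.Injective L := by
      intro q q' h
      have h' : (q : G₁) * (a ^ i * (q : G₁)⁻¹ * (a ^ i)⁻¹)
          = (q' : G₁) * (a ^ i * (q' : G₁)⁻¹ * (a ^ i)⁻¹) := congrArg Subtype.val h
      have hr : ((q' : G₁)⁻¹ * q) = 1 :=
        hfpf' i hi0 hip _ (Q.mul_mem (Q.inv_mem q'.2) q.2) (lang_aux _ _ _ h')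
      rw [inv_mul_eq_one] at hr
      exact Subtype.ext hr.symm
    refine Fintype.prod_bijective L (Finite.injective_iff_bijective.1 hLinj) _ _ ?_
    intro q
    show ρ ((q : G₁) * a ^ i * (q : G₁)⁻¹) x
      = ρ ((q : G₁) * (a ^ i * (q : G₁)⁻¹ * (a ^ i)⁻¹)) (ρ (a ^ i) x)
    rw [← MulAut.mul_apply, ← map_mul]
    have e : (q : G₁) * (a ^ i * (q : G₁)⁻¹ * (a ^ i)⁻¹) * a ^ i
        = (q : G₁) * a ^ i * (q : G₁)⁻¹ := by group
    rw [e]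
  intro q₀ hq₀ w
  have key : ∀ x : W,
      x ^ (Fintype.card Q) * ∏ i ∈ Ico 1 p, ∏ q : Q, ρ (q : G₁) (ρ (a ^ i) x) = 1 := by
    intro x
    have h1 : ∏ q : Q, ρ (q : G₁) (∏ i ∈ range p, ρ (a ^ i) (ρ ((q : G₁)⁻¹) x)) = 1 := by
      apply Finset.prod_eq_one
      intro q _
      rw [hN, map_one]
    have h2 : ∀ q : Q, ρ (q : G₁) (∏ i ∈ range p, ρ (a ^ i) (ρ ((q : G₁)⁻¹) x))
        = ∏ i ∈ range p, ρ ((q : G₁) * a ^ i * (q : G₁)⁻¹) x := by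
      intro q
      rw [map_prod]
      apply Finset.prod_congr rfl
      intro i _
      simp [map_mul]
    rw [Finset.prod_congr rfl (fun q _ => h2 q), Finset.prod_comm, Finset.range_eq_Ico,
      Finset.prod_eq_prod_Ico_succ_bot hpr.pos] at h1
    have h0 : ∏ q : Q, ρ ((q : G₁) * a ^ 0 * (q : G₁)⁻¹) x = x ^ (Fintype.card Q) := by
      simp
    rw [h0] at h1
    rw [← h1]
    congr 1
    apply Finset.prod_congr rfl
    intro i hi
    rw [Finset.mem_Ico] at hi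
    exact (hL i hi.1 hi.2 x).symm
  have hΦ : ∏ i ∈ Ico 1 p, ∏ q : Q, ρ (q : G₁) (ρ (a ^ i) (ρ q₀ w))
      = ∏ i ∈ Ico 1 p, ∏ q : Q, ρ (q : G₁) (ρ (a ^ i) w) := by
    apply Finset.prod_congr rfl
    intro i _
    have h1 : ρ (a ^ i) (ρ q₀ w) = ρ (a ^ i * q₀ * (a ^ i)⁻¹) (ρ (a ^ i) w) := by
      rw [← MulAut.mul_apply, ← MulAut.mul_apply, ← map_mul, ← map_mul]
      have e : a ^ i * q₀ * (a ^ i)⁻¹ * a ^ i = a ^ i * q₀ := by group
      rw [e]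
    rw [h1]
    exact hT _ (hconj i q₀ hq₀) _
  have e1 := key w
  have e2 := key (ρ q₀ w)
  rw [hΦ] at e2
  have e3 : (ρ q₀ w) ^ (Fintype.card Q) = w ^ (Fintype.card Q) :=
    mul_right_cancel (e2.trans e1.symm)
  have e4 : (w⁻¹ * ρ q₀ w) ^ (Fintype.card Q) = 1 := by
    rw [mul_pow, inv_pow, e3, inv_mul_cancel]
  have hd1 : orderOf (w⁻¹ * ρ q₀ w) ∣ Nat.card Q := by
    rw [Nat.card_eq_fintype_card]
    exact orderOf_dvd_of_pow_eq_one e4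
  have hd2 : orderOf (w⁻¹ * ρ q₀ w) ∣ p := orderOf_dvd_of_pow_eq_one (hexp _)
  have hd3 : orderOf (w⁻¹ * ρ q₀ w) = 1 := Nat.eq_one_of_dvd_coprimes hcop hd1 hd2
  have e5 : w⁻¹ * ρ q₀ w = 1 := orderOf_eq_one_iff.1 hd3
  rw [inv_mul_eq_one] at e5
  exact e5.symm

end abstract

/-- The same statement for a group `W` which is commutative by hypothesis. -/
theorem act_trivial {G₁ W : Type*} [Group G₁] [Group W] (hW : ∀ x y : W, x * y = y * x)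
    (p : ℕ) [Fact p.Prime] (hp : 5 ≤ p)
    (hexp : ∀ w : W, w ^ p = 1) (ρ : G₁ →* MulAut W) (Q : Subgroup G₁) [Finite Q]
    (hcop : (Nat.card Q).Coprime p) (a : G₁) (haQ : ∀ q ∈ Q, a * q * a⁻¹ ∈ Q)
    (n : ℕ) (ha : a ^ p ^ n = 1) (hfpf : ∀ q ∈ Q, a * q = q * a → q = 1)
    (hD : ∀ w : W, (fun x => x⁻¹ * ρ a x)^[4] w = 1) :
    ∀ q ∈ Q, ∀ w, ρ q w = w := by
  letI : CommGroup W := { (inferInstance : Group W) with mul_comm := hW }
  exact act_trivial_comm p hp hexp ρ Q hcop a haQ n ha hfpf hD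

/-- **D2** (norm trick). -/
theorem exists_not_mem {Γ : Type*} [Group Γ] [Finite Γ] (p : ℕ) [Fact p.Prime] (hp : 5 ≤ p)
    (H K B Y : Subgroup Γ) [H.Normal] [K.Normal] [B.Normal] [Y.Normal] (hHK : H ≤ K)
    (hKK : ∀ x ∈ K, ∀ y ∈ K, x⁻¹ * y⁻¹ * x * y ∈ H) (hcop : (H.relIndex K).Coprime p)
    (hYB : Y ≤ B) (hBB : ∀ b ∈ B, ∀ c ∈ B, b⁻¹ * c⁻¹ * b * c ∈ Y)
    (hBH : ∀ b ∈ B, ∀ h ∈ H, b⁻¹ * h⁻¹ * b * h ∈ Y) (hBp : ∀ b ∈ B, b ^ p ∈ Y)
    (hnt : ∃ k ∈ K, ∃ b ∈ B, b⁻¹ * k⁻¹ * b * k ∉ Y) (a : Γ) (hap : ∃ n : ℕ, a ^ p ^ n = 1)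
    (hfpf : ∀ k ∈ K, k⁻¹ * a⁻¹ * k * a ∈ H → k ∈ H) :
    ∃ w ∈ B, (fun x => x⁻¹ * a⁻¹ * x * a)^[4] w ∉ Y := by
  by_contra hcon
  push Not at hcon
  obtain ⟨n, hn⟩ := hap
  have hHn : H.Normal := inferInstance
  have hKn : K.Normal := inferInstance
  have hBn : B.Normal := inferInstance
  let πY : Γ →* Γ ⧸ Y := QuotientGroup.mk' Y
  let πH : Γ →* Γ ⧸ H := QuotientGroup.mk' H
  let Vs : Subgroup (Γ ⧸ Y) := B.map πY
  haveI hVsN : Vs.Normal := Subgroup.Normal.map hBn πY (QuotientGroup.mk'_surjective Y)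
  have hπY : ∀ x : Γ, πY x = 1 ↔ x ∈ Y := fun x => QuotientGroup.eq_one_iff x
  have hπH : ∀ x : Γ, πH x = 1 ↔ x ∈ H := fun x => QuotientGroup.eq_one_iff x
  let ρ₀ : Γ →* MulAut Vs := (MulAut.conjNormal (H := Vs)).comp πY
  have hρ₀ : ∀ (g : Γ) (v : Vs), ((ρ₀ g v : Vs) : Γ ⧸ Y) = πY g * v * (πY g)⁻¹ :=
    fun g v => by simp [ρ₀]
  have hker : H ≤ ρ₀.ker := by
    intro h hh
    rw [MonoidHom.mem_ker]
    ext v
    obtain ⟨b, hb, hbv⟩ := v.2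
    rw [hρ₀]
    simp only [MulAut.one_apply]
    rw [← hbv, ← map_inv, ← map_mul, ← map_mul, ← mul_inv_eq_one, ← map_inv, ← map_mul, hπY]
    have h1 := Y.inv_mem (hBH b⁻¹ (B.inv_mem hb) h⁻¹ (H.inv_mem hh))
    have e : h * b * h⁻¹ * b⁻¹ = (b⁻¹⁻¹ * h⁻¹⁻¹ * b⁻¹ * h⁻¹)⁻¹ := by group
    rw [e]; exact h1
  let ρ : Γ ⧸ H →* MulAut Vs := QuotientGroup.lift H ρ₀ hker
  have hρ : ∀ g : Γ, ρ (πH g) = ρ₀ g := fun g => QuotientGroup.lift_mk H hker g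
  let Q : Subgroup (Γ ⧸ H) := K.map πH
  have hQcard : Nat.card Q = H.relIndex K := by
    have h1 := Subgroup.relIndex_comap (⊥ : Subgroup (Γ ⧸ H)) πH K
    rw [Subgroup.relIndex_bot_left, MonoidHom.comap_bot, QuotientGroup.ker_mk'] at h1
    exact h1.symm
  have hW : ∀ x y : Vs, x * y = y * x := by
    rintro ⟨x, b, hb, rfl⟩ ⟨y, c, hc, rfl⟩
    apply Subtype.ext
    show πY b * πY c = πY c * πY b
    rw [← map_mul, ← map_mul, ← inv_mul_eq_one, ← map_inv, ← map_mul, hπY]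
    have e : (b * c)⁻¹ * (c * b) = c⁻¹ * b⁻¹ * c * b := by group
    rw [e]; exact hBB c hc b hb
  have hexp : ∀ w : Vs, w ^ p = 1 := by
    rintro ⟨x, b, hb, rfl⟩
    apply Subtype.ext
    show (πY b) ^ p = 1
    rw [← map_pow, hπY]
    exact hBp b hb
  have haQ : ∀ q ∈ Q, πH a⁻¹ * q * (πH a⁻¹)⁻¹ ∈ Q := by
    rintro q ⟨k, hk, rfl⟩
    exact ⟨a⁻¹ * k * a⁻¹⁻¹, hKn.conj_mem k hk a⁻¹, by simp [map_mul]⟩
  have ha' : (πH a⁻¹) ^ p ^ n = 1 := by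
    rw [← map_pow, inv_pow, hn, inv_one, map_one]
  have hfpf' : ∀ q ∈ Q, πH a⁻¹ * q = q * πH a⁻¹ → q = 1 := by
    rintro q ⟨k, hk, rfl⟩ hc
    rw [hπH]
    apply hfpf k hk
    have h1 : (k * a⁻¹)⁻¹ * (a⁻¹ * k) ∈ H := by
      rw [← hπH, map_mul, map_inv, inv_mul_eq_one, map_mul, map_mul]
      exact hc.symm
    have h2 := hHn.conj_mem _ h1 a⁻¹
    have e : k⁻¹ * a⁻¹ * k * a = a⁻¹ * ((k * a⁻¹)⁻¹ * (a⁻¹ * k)) * a⁻¹⁻¹ := by group
    rw [e]; exact h2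
  have hiter : ∀ j : ℕ, ∀ b ∈ B, ∀ v : Vs, (v : Γ ⧸ Y) = πY b →
      ((fun x => x⁻¹ * a⁻¹ * x * a)^[j] b ∈ B ∧
        (((fun x : Vs => x⁻¹ * ρ (πH a⁻¹) x)^[j] v : Vs) : Γ ⧸ Y)
          = πY ((fun x => x⁻¹ * a⁻¹ * x * a)^[j] b)) := by
    intro j
    induction j with
    | zero => intro b hb v hv; exact ⟨hb, hv⟩
    | succ j ih =>
      intro b hb v hv
      rw [Function.iterate_succ_apply, Function.iterate_succ_apply]
      apply ih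
      · have h1 := B.mul_mem (B.inv_mem hb) (hBn.conj_mem b hb a⁻¹)
        have e : b⁻¹ * a⁻¹ * b * a = b⁻¹ * (a⁻¹ * b * a⁻¹⁻¹) := by group
        rw [e]; exact h1
      · show (v : Γ ⧸ Y)⁻¹ * ((ρ (πH a⁻¹) v : Vs) : Γ ⧸ Y) = _
        rw [hρ, hρ₀, hv]
        simp only [map_mul, map_inv]
        group
  have hD : ∀ w : Vs, (fun x => x⁻¹ * ρ (πH a⁻¹) x)^[4] w = 1 := by
    rintro ⟨x, b, hb, rfl⟩
    apply Subtype.ext
    rw [(hiter 4 b hb _ rfl).2]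
    show πY _ = 1
    rw [hπY]
    exact hcon b hb
  have main := act_trivial (W := Vs) hW p hp hexp ρ Q (by rw [hQcard]; exact hcop) (πH a⁻¹)
    haQ n ha' hfpf' hD
  obtain ⟨k, hk, b, hb, hkb⟩ := hnt
  apply hkb
  have h1 := main (πH k⁻¹) ⟨k⁻¹, K.inv_mem hk, rfl⟩ ⟨πY b, b, hb, rfl⟩
  have h2 := congrArg Subtype.val h1
  rw [hρ, hρ₀] at h2
  have h3 : πY (b⁻¹ * k⁻¹ * b * k) = 1 := by
    have e : b⁻¹ * k⁻¹ * b * k = b⁻¹ * (k⁻¹ * b * k⁻¹⁻¹) := by group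
    rw [e, map_mul, map_inv, inv_mul_eq_one, map_mul, map_mul, map_inv]
    exact h2.symm
  exact (hπY _).1 h3

end Cfsg.Agent.Lib.Helper33.Gl2
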