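import Cfsg.Agent.Lib.Helper33.KTransfer

set_option autoImplicit false
set_option linter.unusedSectionVars false
set_option linter.style.haveILetI false

/-! The "bad element" produced when a `K_∞` subgroup is not normal: it acts quadratically on
`Z(O_p(Y))` and with `[U, g, g, g, g] ≤ V` on the chief factors below `O_p(Y)`. -/

namespace Cfsg.Agent.Lib.Helper33.KBad

open Cfsg
open Cfsg.Agent.Lib.Helper33.Sections
open Cfsg.Agent.Lib.Helper33.PCore
open Cfsg.Agent.Lib.Helper33.Critical
open scoped commutatorElement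

universe u

variable {p : ℕ} [Fact p.Prime]

/-- General form: `T` a normal `p`-subgroup of `Y` contained in `S`. If one of the `K_∞`
subgroups of `S` is not normal in `Y`, there is `g ∈ S \ T` acting quadratically on `Z(T)` and
with `[U, g; 4] ≤ V` on all chief factors `U/V` of `Y` with `U ≤ T`. -/
theorem exists_quadratic_of_normal {Y : Type u} [Group Y] [Finite Y] (S T : Subgroup Y)
    [hTn : T.Normal] (hT : IsPGroup p ↥T) (hTS : T ≤ S)
    (hn : ¬ ((inducedFunctor (G := Y) kInfLower S).Normal ∧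
      (inducedFunctor (G := Y) kInfUpper S).Normal)) :
    ∃ g ∈ S, g ∉ T ∧
      ⁅⁅T ⊓ Subgroup.centralizer (T : Set Y), Subgroup.zpowers g⁆, Subgroup.zpowers g⁆ = ⊥ ∧
      ∀ U V : Subgroup Y, IsChiefFactor U V → U ≤ T →
        iterCommutator U (Subgroup.zpowers g) 4 ≤ V := by
  obtain ⟨A, hAP, hAn, hA2, hA3, hA4⟩ := exists_critical T hT
  haveI := hAn
  by_contra hcon
  apply hn
  refine KNormal.normal_of_no_bad S T A hT hTS hAP hA2 hA3 ?_
  intro g hgS c1 c2
  by_contra hgP
  apply hcon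
  have hZZ : T ⊓ Subgroup.centralizer (T : Set Y) ≤ A ⊓ Subgroup.centralizer (A : Set Y) := by
    have h1 : T ⊓ Subgroup.centralizer (T : Set Y) ≤ T ⊓ Subgroup.centralizer (A : Set Y) :=
      inf_le_inf_left _ (Subgroup.centralizer_le hAP)
    exact le_inf (h1.trans hA4) (h1.trans inf_le_right)
  refine ⟨g, hgS, hgP, ?_, ?_⟩
  · rw [eq_bot_iff, ← c2]
    exact Subgroup.commutator_mono (Subgroup.commutator_mono hZZ le_rfl) le_rfl
  have hZj : ∀ U V : Subgroup Y, IsChiefFactor U V →
      U ≤ A ⊓ Subgroup.centralizer (A : Set Y) →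
      iterCommutator U (Subgroup.zpowers g) 2 ≤ V := by
    intro U V _ hU
    have h1 := iterCommutator_mono (Subgroup.zpowers g) hU 2
    have h2 : iterCommutator (A ⊓ Subgroup.centralizer (A : Set Y)) (Subgroup.zpowers g) 2 = ⊥ :=
      c2
    rw [h2] at h1
    exact h1.trans bot_le
  have hQi : ∀ U V : Subgroup Y, IsChiefFactor U V → U ≤ A →
      iterCommutator U (Subgroup.zpowers g) 3 ≤ V := by
    intro U V hUV hU
    obtain ⟨hlt, hUn, hVn, hmin⟩ := hUV
    haveI := hUn
    haveI := hVn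
    have hMn : ((U ⊓ (A ⊓ Subgroup.centralizer (A : Set Y))) ⊔ V).Normal := inferInstance
    have hVM : V ≤ (U ⊓ (A ⊓ Subgroup.centralizer (A : Set Y))) ⊔ V := le_sup_right
    have hMU : (U ⊓ (A ⊓ Subgroup.centralizer (A : Set Y))) ⊔ V ≤ U :=
      sup_le inf_le_left hlt.le
    rcases hmin _ hMn hVM hMU with h | h
    · have h1 : U ⊓ (A ⊓ Subgroup.centralizer (A : Set Y)) ≤ V := by
        rw [← h]; exact le_sup_left
      refine le_trans (le_inf ?_ ?_) h1
      · exact iterCommutator_antitone U (Subgroup.zpowers g) (Nat.zero_le 3)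
      · exact (iterCommutator_mono (Subgroup.zpowers g) hU 3).trans c1
    · have h1 : iterCommutator U (Subgroup.zpowers g) 2 ≤ V := by
        have h2 := iterCommutator_sup_le (U ⊓ (A ⊓ Subgroup.centralizer (A : Set Y))) V
          (Subgroup.zpowers g) 2
        rw [h] at h2
        refine h2.trans (sup_le ?_ le_rfl)
        have h3 := iterCommutator_mono (Subgroup.zpowers g)
          (inf_le_right : U ⊓ (A ⊓ Subgroup.centralizer (A : Set Y)) ≤ _) 2
        have h4 : iterCommutator (A ⊓ Subgroup.centralizer (A : Set Y)) (Subgroup.zpowers g) 2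
            = ⊥ := c2
        rw [h4] at h3
        exact h3.trans bot_le
      exact iter_le_of_le U V (Subgroup.zpowers g) (by norm_num : 2 ≤ 3) h1
  exact EngelHom.engel_hom T A hT hAP hA3 hA4 g 3 2 (by norm_num) hQi hZj

/-- If one of the `K_∞` subgroups of `S ≥ O_p(Y)` is not normal in `Y`, there is
`g ∈ S \ O_p(Y)` acting quadratically on `Z(O_p(Y))` and with `[U, g; 4] ≤ V` on all chief factors
`U/V` of `Y` with `U ≤ O_p(Y)`. -/
theorem exists_quadratic {Y : Type u} [Group Y] [Finite Y] (S : Subgroup Y)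
    (hPS : pCore p Y ≤ S)
    (hn : ¬ ((inducedFunctor (G := Y) kInfLower S).Normal ∧
      (inducedFunctor (G := Y) kInfUpper S).Normal)) :
    ∃ g ∈ S, g ∉ pCore p Y ∧
      ⁅⁅pCore p Y ⊓ Subgroup.centralizer (pCore p Y : Set Y), Subgroup.zpowers g⁆,
        Subgroup.zpowers g⁆ = ⊥ ∧
      ∀ U V : Subgroup Y, IsChiefFactor U V → U ≤ pCore p Y →
        iterCommutator U (Subgroup.zpowers g) 4 ≤ V := by
  haveI hPn : (pCore p Y).Normal := pCore_normal (G := Y) p
  exact exists_quadratic_of_normal S (pCore p Y) pCore_isPGroup hPS hn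

/-- Lower `K_∞` version. -/
theorem exists_quadratic_lower {Y : Type u} [Group Y] [Finite Y] (S : Subgroup Y)
    (hPS : pCore p Y ≤ S) (hn : ¬ (inducedFunctor (G := Y) kInfLower S).Normal) :
    ∃ g ∈ S, g ∉ pCore p Y ∧
      ⁅⁅pCore p Y ⊓ Subgroup.centralizer (pCore p Y : Set Y), Subgroup.zpowers g⁆,
        Subgroup.zpowers g⁆ = ⊥ ∧
      ∀ U V : Subgroup Y, IsChiefFactor U V → U ≤ pCore p Y →
        iterCommutator U (Subgroup.zpowers g) 4 ≤ V :=
  exists_quadratic S hPS (fun h => hn h.1)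

/-- Upper `K_∞` version. -/
theorem exists_quadratic_upper {Y : Type u} [Group Y] [Finite Y] (S : Subgroup Y)
    (hPS : pCore p Y ≤ S) (hn : ¬ (inducedFunctor (G := Y) kInfUpper S).Normal) :
    ∃ g ∈ S, g ∉ pCore p Y ∧
      ⁅⁅pCore p Y ⊓ Subgroup.centralizer (pCore p Y : Set Y), Subgroup.zpowers g⁆,
        Subgroup.zpowers g⁆ = ⊥ ∧
      ∀ U V : Subgroup Y, IsChiefFactor U V → U ≤ pCore p Y →
        iterCommutator U (Subgroup.zpowers g) 4 ≤ V :=
  exists_quadratic S hPS (fun h => hn h.2)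

end Cfsg.Agent.Lib.Helper33.KBad
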