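import Cfsg.Agent.Lib.Helper33.KSeq

set_option autoImplicit false

namespace Cfsg.Agent.Lib.Helper33.KSeq2

open Cfsg
open scoped commutatorElement

variable {P : Type*} [Group P]

/-- Elements of `H ⊔ K` when `K` normalizes `H`. -/
theorem mem_sup_of_le_normalizer {H K : Subgroup P}
    (h : K ≤ Subgroup.normalizer (H : Set P)) {g : P} :
    g ∈ H ⊔ K ↔ ∃ a ∈ H, ∃ b ∈ K, g = a * b := by
  constructor
  · intro hg
    rw [Subgroup.sup_eq_closure] at hg
    refine Subgroup.closure_induction ?_ ?_ ?_ ?_ hg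
    · rintro x (hx | hx)
      · exact ⟨x, hx, 1, K.one_mem, by simp⟩
      · exact ⟨1, H.one_mem, x, hx, by simp⟩
    · exact ⟨1, H.one_mem, 1, K.one_mem, by simp⟩
    · rintro _ _ _ _ ⟨a₁, ha₁, b₁, hb₁, rfl⟩ ⟨a₂, ha₂, b₂, hb₂, rfl⟩
      refine ⟨a₁ * (b₁ * a₂ * b₁⁻¹), H.mul_mem ha₁ ?_, b₁ * b₂, K.mul_mem hb₁ hb₂, by group⟩
      exact (Subgroup.le_normalizer_iff.mp h) b₁ hb₁ a₂ ha₂
    · rintro _ _ ⟨a, ha, b, hb, rfl⟩
      refine ⟨b⁻¹ * a⁻¹ * b⁻¹⁻¹, ?_, b⁻¹, K.inv_mem hb, by group⟩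
      exact (Subgroup.le_normalizer_iff.mp h) b⁻¹ (K.inv_mem hb) a⁻¹ (H.inv_mem ha)
  · rintro ⟨a, ha, b, hb, rfl⟩
    exact Subgroup.mul_mem_sup ha hb

theorem mem_centralizer_sup {H K : Subgroup P} {z : P} :
    z ∈ Subgroup.centralizer ((H ⊔ K : Subgroup P) : Set P) ↔
      z ∈ Subgroup.centralizer (H : Set P) ∧ z ∈ Subgroup.centralizer (K : Set P) := by
  rw [← Subgroup.zpowers_le, Subgroup.le_centralizer_iff, sup_le_iff,
    ← Subgroup.le_centralizer_iff, ← Subgroup.le_centralizer_iff (H := Subgroup.zpowers z),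
    Subgroup.zpowers_le, Subgroup.zpowers_le]

theorem commutator_mul_left_of_commute {a y g : P} (hy : Commute y g) : ⁅a * y, g⁆ = ⁅a, g⁆ := by
  have h1 : y * g * y⁻¹ = g := by rw [hy.eq, mul_inv_cancel_right]
  rw [commutatorElement_def, commutatorElement_def]
  calc a * y * g * (a * y)⁻¹ * g⁻¹ = a * (y * g * y⁻¹) * a⁻¹ * g⁻¹ := by group
    _ = a * g * a⁻¹ * g⁻¹ := by rw [h1]

theorem commutator_mul_right_of_commute {a y g : P} (hy : Commute y a) : ⁅a, g * y⁆ = ⁅a, g⁆ := by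
  have h1 : y * a⁻¹ * y⁻¹ = a⁻¹ := by
    rw [(hy.inv_right).eq, mul_inv_cancel_right]
  rw [commutatorElement_def, commutatorElement_def]
  calc a * (g * y) * a⁻¹ * (g * y)⁻¹ = a * g * (y * a⁻¹ * y⁻¹) * g⁻¹ := by group
    _ = a * g * a⁻¹ * g⁻¹ := by rw [h1]

/-- In a nilpotent group: if `C` is not contained in `B` and `N` normalizes `C` (in commutator form), some
element of `C` outside `B` has all commutators with `N` in `B ⊓ C`. -/
theorem exists_not_mem_comm_mem [hnil : Group.IsNilpotent P] (C N B : Subgroup P)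
    (hCN : ∀ c ∈ C, ∀ n ∈ N, ⁅c, n⁆ ∈ C) (hCB : ¬ C ≤ B) :
    ∃ x ∈ C, x ∉ B ∧ ∀ n ∈ N, ⁅x, n⁆ ∈ B ⊓ C := by
  obtain ⟨k, hk⟩ := Subgroup.nilpotent_iff_lowerCentralSeries.mp hnil
  let D : ℕ → Subgroup P := fun i => Nat.rec C (fun _ D => ⁅D, N⁆) i
  have hD0 : D 0 = C := rfl
  have hDs : ∀ i, D (i + 1) = ⁅D i, N⁆ := fun i => rfl
  have hDC : ∀ i, D i ≤ C := by
    intro i
    induction i with
    | zero => exact le_rfl
    | succ i ih =>
      rw [hDs, Subgroup.commutator_le]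
      intro c hc n hn
      exact hCN c (ih hc) n hn
  have hDl : ∀ i, D i ≤ (⊤ : Subgroup P).lowerCentralSeries i := by
    intro i
    induction i with
    | zero => exact le_top
    | succ i ih =>
      rw [hDs, Subgroup.lowerCentralSeries_succ]
      exact Subgroup.commutator_mono ih le_top
  have key : ∀ j i, i + j = k → ¬ D i ≤ B → ∃ x ∈ C, x ∉ B ∧ ∀ n ∈ N, ⁅x, n⁆ ∈ B ⊓ C := by
    intro j
    induction j with
    | zero =>
      intro i hi hnot
      exfalso
      apply hnot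
      have hik : i = k := by omega
      have h2 : D i ≤ ⊥ := by
        rw [← hk, ← hik]
        exact hDl i
      exact le_trans h2 bot_le
    | succ j ih =>
      intro i hi hnot
      by_cases h1 : D (i + 1) ≤ B
      · obtain ⟨x, hxD, hxB⟩ := SetLike.not_le_iff_exists.mp hnot
        have hmem : ∀ n ∈ N, ⁅x, n⁆ ∈ D (i + 1) := by
          intro n hn
          rw [hDs]
          exact Subgroup.commutator_mem_commutator hxD hn
        exact ⟨x, hDC i hxD, hxB, fun n hn => ⟨h1 (hmem n hn), hDC (i + 1) (hmem n hn)⟩⟩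
      · exact ih (i + 1) (by omega) h1
  exact key k 0 (by omega) (by rw [hD0]; exact hCB)

section Extend

variable {B : Subgroup P} {x : P}

theorem zpowers_le_centralizer (hx : x ∈ Subgroup.centralizer (B : Set P)) :
    Subgroup.zpowers x ≤ Subgroup.centralizer (B : Set P) :=
  Subgroup.zpowers_le.mpr hx

theorem le_centralizer_zpowers (hx : x ∈ Subgroup.centralizer (B : Set P)) :
    B ≤ Subgroup.centralizer (Subgroup.zpowers x : Set P) :=
  Subgroup.le_centralizer_iff.mp (zpowers_le_centralizer hx)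

theorem zpowers_le_normalizer (hx : x ∈ Subgroup.centralizer (B : Set P)) :
    Subgroup.zpowers x ≤ Subgroup.normalizer (B : Set P) :=
  le_trans (zpowers_le_centralizer hx) (Subgroup.centralizer_le_normalizer _)

theorem commute_of_mem_centralizer {S : Subgroup P} {z b : P}
    (hz : z ∈ Subgroup.centralizer (S : Set P)) (hb : b ∈ S) : Commute z b :=
  (Subgroup.mem_centralizer_iff.mp hz b hb).symm

/-- (a) `B ⊔ ⟨x⟩` has class at most two. -/
theorem sup_zpowers_mem_classTwo (hB : B ∈ classTwoSubgroups P)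
    (hx : x ∈ Subgroup.centralizer (B : Set P)) :
    B ⊔ Subgroup.zpowers x ∈ classTwoSubgroups P := by
  show ⁅B ⊔ Subgroup.zpowers x, B ⊔ Subgroup.zpowers x⁆ ≤
    Subgroup.centralizer ((B ⊔ Subgroup.zpowers x : Subgroup P) : Set P)
  rw [Subgroup.commutator_le]
  intro g₁ hg₁ g₂ hg₂
  obtain ⟨a, ha, y, hy, rfl⟩ := (mem_sup_of_le_normalizer (zpowers_le_normalizer hx)).mp hg₁
  obtain ⟨a', ha', y', hy', rfl⟩ := (mem_sup_of_le_normalizer (zpowers_le_normalizer hx)).mp hg₂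
  have hyc := zpowers_le_centralizer hx hy
  have hyc' := zpowers_le_centralizer hx hy'
  have hyy' : Commute y y' := by
    have := Subgroup.le_centralizer (H := Subgroup.zpowers x) hy
    exact commute_of_mem_centralizer this hy'
  have e1 : ⁅a * y, a' * y'⁆ = ⁅a, a' * y'⁆ :=
    commutator_mul_left_of_commute ((commute_of_mem_centralizer hyc ha').mul_right hyy')
  have e2 : ⁅a, a' * y'⁆ = ⁅a, a'⁆ :=
    commutator_mul_right_of_commute (commute_of_mem_centralizer hyc' ha)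
  rw [e1, e2, mem_centralizer_sup]
  have hmem : ⁅a, a'⁆ ∈ ⁅B, B⁆ := Subgroup.commutator_mem_commutator ha ha'
  exact ⟨hB hmem, le_centralizer_zpowers hx (Subgroup.commutator_le_self B hmem)⟩

/-- (b) the centre of `B` lies in the centre of `B ⊔ ⟨x⟩`. -/
theorem center_le_center_sup_zpowers (hx : x ∈ Subgroup.centralizer (B : Set P)) :
    B ⊓ Subgroup.centralizer (B : Set P) ≤
      (B ⊔ Subgroup.zpowers x) ⊓
        Subgroup.centralizer ((B ⊔ Subgroup.zpowers x : Subgroup P) : Set P) := by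
  intro z hz
  exact ⟨Subgroup.mem_sup_left hz.1, mem_centralizer_sup.mpr ⟨hz.2, le_centralizer_zpowers hx hz.1⟩⟩

/-- (c) commutators with `A` stay in the centre. -/
theorem commutator_sup_zpowers_le (hx : x ∈ Subgroup.centralizer (B : Set P)) (A : Subgroup P)
    (hBA : ⁅B, A⁆ ≤ B ⊓ Subgroup.centralizer (B : Set P))
    (hxA : ∀ a ∈ A, ⁅x, a⁆ ∈ B ⊓ Subgroup.centralizer (B : Set P)) :
    ⁅B ⊔ Subgroup.zpowers x, A⁆ ≤ (B ⊔ Subgroup.zpowers x) ⊓
        Subgroup.centralizer ((B ⊔ Subgroup.zpowers x : Subgroup P) : Set P) := by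
  -- step 1: all powers of x
  have step1 : ∀ y ∈ Subgroup.zpowers x, ∀ a ∈ A, ⁅y, a⁆ ∈ B ⊓ Subgroup.centralizer (B : Set P) := by
    let Y : Subgroup P :=
      { carrier := {y | y ∈ Subgroup.centralizer (B : Set P) ∧
          ∀ a ∈ A, ⁅y, a⁆ ∈ B ⊓ Subgroup.centralizer (B : Set P)}
        one_mem' := ⟨Subgroup.one_mem _, fun a _ => by
          rw [commutatorElement_one_left]; exact Subgroup.one_mem _⟩
        mul_mem' := by
          rintro y₁ y₂ ⟨h₁, h₁'⟩ ⟨h₂, h₂'⟩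
          refine ⟨Subgroup.mul_mem _ h₁ h₂, fun a ha => ?_⟩
          rw [commutatorElement_mul_left_eq_conj_mul]
          have hc : Commute y₁ ⁅y₂, a⁆ := commute_of_mem_centralizer h₁ (h₂' a ha).1
          have : y₁ * ⁅y₂, a⁆ * y₁⁻¹ = ⁅y₂, a⁆ := by rw [hc.eq, mul_inv_cancel_right]
          rw [this]
          exact Subgroup.mul_mem _ (h₂' a ha) (h₁' a ha)
        inv_mem' := by
          rintro y ⟨h₁, h₁'⟩
          refine ⟨Subgroup.inv_mem _ h₁, fun a ha => ?_⟩
          rw [commutatorElement_inv_left, ← commutatorElement_inv]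
          have hc : Commute y⁻¹ ⁅y, a⁆⁻¹ :=
            commute_of_mem_centralizer (Subgroup.inv_mem _ h₁) (Subgroup.inv_mem _ (h₁' a ha).1)
          have : y⁻¹ * ⁅y, a⁆⁻¹ * y = ⁅y, a⁆⁻¹ := by
            rw [hc.eq, inv_mul_cancel_right]
          rw [this]
          exact Subgroup.inv_mem _ (h₁' a ha) }
    have hxY : x ∈ Y := ⟨hx, hxA⟩
    intro y hy a ha
    exact ((Subgroup.zpowers_le.mpr hxY) hy).2 a ha
  rw [Subgroup.commutator_le]
  intro g hg a ha
  obtain ⟨b, hb, y, hy, rfl⟩ := (mem_sup_of_le_normalizer (zpowers_le_normalizer hx)).mp hg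
  rw [commutatorElement_mul_left_eq_conj_mul]
  have h1 := step1 y hy a ha
  have hc : Commute b ⁅y, a⁆ := (commute_of_mem_centralizer h1.2 hb).symm
  have : b * ⁅y, a⁆ * b⁻¹ = ⁅y, a⁆ := by rw [hc.eq, mul_inv_cancel_right]
  rw [this]
  exact center_le_center_sup_zpowers hx
    (Subgroup.mul_mem _ h1 (hBA (Subgroup.commutator_mem_commutator hb ha)))

/-- (d) `Q` still normalizes `B ⊔ ⟨x⟩`. -/
theorem le_normalizer_sup_zpowers (Q : Subgroup P)
    (hQB : Q ≤ Subgroup.normalizer (B : Set P)) (hxQ : ∀ q ∈ Q, ⁅x, q⁆ ∈ B) :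
    Q ≤ Subgroup.normalizer ((B ⊔ Subgroup.zpowers x : Subgroup P) : Set P) := by
  rw [Subgroup.le_normalizer_iff]
  intro q hq
  have hle : B ⊔ Subgroup.zpowers x ≤
      (B ⊔ Subgroup.zpowers x).comap (MulAut.conj q).toMonoidHom := by
    apply sup_le
    · intro b hb
      rw [Subgroup.mem_comap]
      exact Subgroup.mem_sup_left ((Subgroup.le_normalizer_iff.mp hQB) q hq b hb)
    · rw [Subgroup.zpowers_le, Subgroup.mem_comap]
      have : (MulAut.conj q).toMonoidHom x = ⁅x, q⁆⁻¹ * x := by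
        simp only [MulEquiv.toMonoidHom_eq_coe, MonoidHom.coe_coe, MulAut.conj_apply,
          commutatorElement_def]
        group
      rw [this]
      exact Subgroup.mul_mem _ (Subgroup.mem_sup_left (Subgroup.inv_mem _ (hxQ q hq)))
        (Subgroup.mem_sup_right (Subgroup.mem_zpowers x))
  intro g hg
  have := hle hg
  rw [Subgroup.mem_comap] at this
  simpa [MulAut.conj_apply] using this

end Extend

section Maximal

variable {B Q : Subgroup P}

theorem exists_extension [Group.IsNilpotent P]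
    (hQB : Q ≤ Subgroup.normalizer (B : Set P))
    (hCB : ¬ Subgroup.centralizer (B : Set P) ≤ B) :
    ∃ x ∈ Subgroup.centralizer (B : Set P), x ∉ B ∧
      ∀ q ∈ Q, ⁅x, q⁆ ∈ B ⊓ Subgroup.centralizer (B : Set P) := by
  apply exists_not_mem_comm_mem (Subgroup.centralizer (B : Set P)) Q B ?_ hCB
  intro c hc n hn
  have h1 : n * c⁻¹ * n⁻¹ ∈ Subgroup.centralizer (B : Set P) := by
    rw [Subgroup.mem_centralizer_iff]
    intro b hb
    have hb' : n⁻¹ * b * n ∈ B := by
      simpa using (Subgroup.le_normalizer_iff.mp hQB) n⁻¹ (Q.inv_mem hn) b hb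
    have hcomm : (n⁻¹ * b * n) * c⁻¹ = c⁻¹ * (n⁻¹ * b * n) :=
      Subgroup.mem_centralizer_iff.mp (Subgroup.inv_mem _ hc) _ hb'
    calc b * (n * c⁻¹ * n⁻¹) = n * ((n⁻¹ * b * n) * c⁻¹) * n⁻¹ := by group
      _ = n * (c⁻¹ * (n⁻¹ * b * n)) * n⁻¹ := by rw [hcomm]
      _ = n * c⁻¹ * n⁻¹ * b := by group
  have h2 : ⁅c, n⁆ = c * (n * c⁻¹ * n⁻¹) := by
    rw [commutatorElement_def]; group
  rw [h2]
  exact Subgroup.mul_mem _ hc h1

theorem classTwo_max (hB : B ∈ classTwoSubgroups P)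
    (hmax : ∀ C ∈ classTwoSubgroups P, B ≤ C → C = B) :
    Subgroup.centralizer (B : Set P) ≤ B := by
  intro x hx
  have h := hmax _ (sup_zpowers_mem_classTwo hB hx) le_sup_left
  have h3 : x ∈ B ⊔ Subgroup.zpowers x := Subgroup.mem_sup_right (Subgroup.mem_zpowers x)
  rwa [h] at h3

theorem upper_max [Group.IsNilpotent P] (hB : B ∈ kUpperStarFamily Q)
    (hmax : ∀ C ∈ kUpperStarFamily Q, B ≤ C → C = B) :
    Subgroup.centralizer (B : Set P) ≤ B := by
  by_contra hCB
  have hQB : Q ≤ Subgroup.normalizer (B : Set P) :=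
    Subgroup.le_normalizer_iff_commutator_le_left.mpr (le_trans hB.2 inf_le_left)
  obtain ⟨x, hx, hxB, hxQ⟩ := exists_extension hQB hCB
  have hmem : B ⊔ Subgroup.zpowers x ∈ kUpperStarFamily Q :=
    ⟨sup_zpowers_mem_classTwo hB.1 hx, commutator_sup_zpowers_le hx Q hB.2 hxQ⟩
  have h := hmax _ hmem le_sup_left
  have h3 : x ∈ B ⊔ Subgroup.zpowers x := Subgroup.mem_sup_right (Subgroup.mem_zpowers x)
  rw [h] at h3
  exact hxB h3

theorem lower_max [Group.IsNilpotent P] (hB : B ∈ kLowerStarFamily Q)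
    (hmax : ∀ C ∈ kLowerStarFamily Q, B ≤ C → C = B) :
    Subgroup.centralizer (B : Set P) ≤ B := by
  by_contra hCB
  obtain ⟨hc2, hQB, hcond⟩ := hB
  obtain ⟨x, hx, hxB, hxQ⟩ := exists_extension hQB hCB
  have hmem : B ⊔ Subgroup.zpowers x ∈ kLowerStarFamily Q := by
    refine ⟨sup_zpowers_mem_classTwo hc2 hx,
      le_normalizer_sup_zpowers Q hQB (fun q hq => (hxQ q hq).1), ?_⟩
    intro A hA hAQ hBA h1 h2
    have hBA' : ⁅B, A⁆ ≤ B ⊓ Subgroup.centralizer (B : Set P) := by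
      apply hcond A hA hAQ (le_trans le_sup_left hBA)
      · rw [eq_bot_iff, ← h1]
        exact Subgroup.commutator_mono le_sup_left le_rfl
      · rw [eq_bot_iff, ← h2]
        exact Subgroup.commutator_mono
          (Subgroup.commutator_mono (center_le_center_sup_zpowers hx) le_rfl) le_rfl
    exact commutator_sup_zpowers_le hx A hBA' (fun a ha => hxQ a (hAQ ha))
  have h := hmax _ hmem le_sup_left
  have h3 : x ∈ B ⊔ Subgroup.zpowers x := Subgroup.mem_sup_right (Subgroup.mem_zpowers x)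
  rw [h] at h3
  exact hxB h3

theorem centralizer_sSup_le [Finite P] (F : Set (Subgroup P)) (hne : F.Nonempty)
    (hF : ∀ B ∈ F, (∀ C ∈ F, B ≤ C → C = B) → Subgroup.centralizer (B : Set P) ≤ B) :
    Subgroup.centralizer ((sSup F : Subgroup P) : Set P) ≤ sSup F := by
  obtain ⟨B₀, hB₀⟩ := hne
  obtain ⟨B, -, hB⟩ := (Set.toFinite F).exists_le_maximal hB₀
  have h1 : Subgroup.centralizer (B : Set P) ≤ B :=
    hF B hB.1 (fun C hC hBC => le_antisymm (hB.2 hC hBC) hBC)
  have h2 : B ≤ sSup F := le_sSup hB.1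
  exact le_trans (Subgroup.centralizer_le (by exact_mod_cast h2)) (le_trans h1 h2)

theorem bot_isMulCommutative : IsMulCommutative ↥(⊥ : Subgroup P) :=
  Subgroup.le_centralizer_iff_isMulCommutative.mp bot_le

theorem centralizer_kInf_le [Finite P] [Group.IsNilpotent P] :
    Subgroup.centralizer (kInfLower P : Set P) ≤ kInfLower P ∧
      Subgroup.centralizer (kInfUpper P : Set P) ≤ kInfUpper P := by
  obtain ⟨n, hn⟩ := KSeq.exists_stable (P := P)
  have hbot := (KSeq.normal_abelian_mem (A := (⊥ : Subgroup P)) bot_isMulCommutative).2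
  constructor
  · rw [← (hn n le_rfl).1, KSeq.kSeqEven_eq]
    exact centralizer_sSup_le _ ⟨⊥, (hbot _).1⟩ (fun B hB hmax => lower_max hB hmax)
  · rw [← (hn (n + 1) (Nat.le_succ n)).2, KSeq.kSeqOdd_succ_eq]
    exact centralizer_sSup_le _ ⟨⊥, (hbot _).2⟩ (fun B hB hmax => upper_max hB hmax)

end Maximal

end Cfsg.Agent.Lib.Helper33.KSeq2
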