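import Mathlib

/-!
# Restriction of a group of linear automorphisms to an invariant subspace
-/

set_option autoImplicit false

namespace Cfsg.Agent.Lib.Helper33.MclRes

variable {F : Type*} [Field F] {V : Type*} [AddCommGroup V] [Module F V]

/-- Restriction of a linear automorphism `g` to a subspace `W` preserved by `g` and `g⁻¹`. -/
def restrictEquiv (W : Submodule F V) (g : V ≃ₗ[F] V) (h : ∀ x ∈ W, g x ∈ W)
    (h' : ∀ x ∈ W, g⁻¹ x ∈ W) : ↥W ≃ₗ[F] ↥W :=
  LinearEquiv.ofLinearMap ((g : V →ₗ[F] V).restrict h) (((g⁻¹ : V ≃ₗ[F] V) : V →ₗ[F] V).restrict h')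
    (by
      ext x
      simp [LinearMap.restrict_apply])
    (by
      ext x
      simp [LinearMap.restrict_apply])

@[simp] theorem restrictEquiv_apply (W : Submodule F V) (g : V ≃ₗ[F] V) (h : ∀ x ∈ W, g x ∈ W)
    (h' : ∀ x ∈ W, g⁻¹ x ∈ W) (v : ↥W) : ((restrictEquiv W g h h' v : ↥W) : V) = g (v : V) := rfl

/-- The restriction homomorphism of a subgroup `K` of `GL(V)` preserving the subspace `W`. -/
def restrictHom (W : Submodule F V) (K : Subgroup (V ≃ₗ[F] V))
    (hK : ∀ k ∈ K, ∀ x ∈ W, k x ∈ W) : ↥K →* (↥W ≃ₗ[F] ↥W) where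
  toFun k := restrictEquiv W (k : V ≃ₗ[F] V) (hK _ k.2) (hK _ (inv_mem k.2))
  map_one' := by
    ext x
    simp
  map_mul' a b := by
    ext x
    simp

@[simp] theorem restrictHom_apply (W : Submodule F V) (K : Subgroup (V ≃ₗ[F] V))
    (hK : ∀ k ∈ K, ∀ x ∈ W, k x ∈ W) (k : ↥K) (v : ↥W) :
    ((restrictHom W K hK k v : ↥W) : V) = (k : V ≃ₗ[F] V) (v : V) := rfl

/-- A subgroup generated by maps preserving `W`, whose inverses also preserve `W`... in fact it
is enough that the generating set is closed under inverses, or (as here) that each generator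
and its inverse preserve `W`. -/
theorem closure_preserves (W : Submodule F V) (S : Set (V ≃ₗ[F] V))
    (hS : ∀ g ∈ S, (∀ x ∈ W, g x ∈ W) ∧ (∀ x ∈ W, g⁻¹ x ∈ W)) :
    ∀ k ∈ Subgroup.closure S, ∀ x ∈ W, k x ∈ W := by
  intro k hk
  have key : (∀ x ∈ W, k x ∈ W) ∧ (∀ x ∈ W, k⁻¹ x ∈ W) := by
    induction hk using Subgroup.closure_induction with
    | mem g hg => exact hS g hg
    | one => exact ⟨fun x hx => by simpa using hx, fun x hx => by simpa using hx⟩
    | mul a b _ _ iha ihb =>
      refine ⟨fun x hx => ?_, fun x hx => ?_⟩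
      · rw [LinearEquiv.mul_apply]; exact iha.1 _ (ihb.1 x hx)
      · rw [mul_inv_rev, LinearEquiv.mul_apply]; exact ihb.2 _ (iha.2 x hx)
    | inv a _ iha =>
      refine ⟨iha.2, ?_⟩
      rw [inv_inv]; exact iha.1
  exact key.1

/-- A transvection with centre in `W` preserves `W`, and so does its inverse. -/
theorem transvection_preserves (W : Submodule F V) {φ : Module.Dual F V} {v : V} (h : φ v = 0)
    (hv : v ∈ W) :
    (∀ x ∈ W, LinearEquiv.transvection h x ∈ W) ∧
      (∀ x ∈ W, (LinearEquiv.transvection h)⁻¹ x ∈ W) := by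
  refine ⟨fun x hx => ?_, fun x hx => ?_⟩
  · show x + φ x • v ∈ W
    exact W.add_mem hx (W.smul_mem _ hv)
  · show x + φ x • (-v) ∈ W
    exact W.add_mem hx (W.smul_mem _ (W.neg_mem hv))

/-- The restriction to `W` of a transvection of `V` with centre in `W` is the transvection of
`W` given by the restricted functional. -/
theorem restrictEquiv_transvection (W : Submodule F V) {φ : Module.Dual F V} {v : V}
    (h : φ v = 0) (hv : v ∈ W) (h1 h2) :
    restrictEquiv W (LinearEquiv.transvection h) h1 h2 =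
      LinearEquiv.transvection (f := φ ∘ₗ W.subtype) (v := (⟨v, hv⟩ : ↥W)) (by simpa using h) := by
  ext x
  simp [LinearEquiv.transvection, LinearMap.transvection.apply]

end Cfsg.Agent.Lib.Helper33.MclRes
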