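import Mathlib
import Cfsg.Agent.Lib.Helper83.MclStmt
import Cfsg.Agent.Lib.Helper33.MclRes

/-!
# McLaughlin, piece SLC: the transvections with centre in `W` and axis containing `C` induce
exactly `SL(W)` on `W` (`V = W ⊕ C`)
-/

set_option autoImplicit false

namespace Cfsg.Agent.Lib.Helper33.MclSLC

open Cfsg.Agent.Lib.Helper33.MclRes

universe u v

theorem main : Cfsg.Agent.Lib.Helper83.MclStmt.SLC.{u, v} := by
  intro hSLG F _ V _ _ _ W C hWC K hK
  subst hK
  have hS : ∀ g ∈ {t : V ≃ₗ[F] V | ∃ (φ : Module.Dual F V) (v : V) (h : φ v = 0),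
      v ∈ W ∧ (∀ x ∈ C, φ x = 0) ∧ t = LinearEquiv.transvection h},
      (∀ x ∈ W, g x ∈ W) ∧ (∀ x ∈ W, g⁻¹ x ∈ W) := by
    rintro g ⟨φ, v, h, hv, -, rfl⟩
    exact transvection_preserves W h hv
  have hpres := closure_preserves W _ hS
  refine ⟨restrictHom W _ hpres, fun h v => rfl, ?_⟩
  ext f
  simp only [SetLike.mem_coe, MonoidHom.mem_range, Set.mem_ofPred_eq]
  constructor
  · rintro ⟨⟨k, hk⟩, rfl⟩
    have key : ∀ (k : V ≃ₗ[F] V) (hk : k ∈ Subgroup.closure {t : V ≃ₗ[F] V |
        ∃ (φ : Module.Dual F V) (v : V) (h : φ v = 0),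
          v ∈ W ∧ (∀ x ∈ C, φ x = 0) ∧ t = LinearEquiv.transvection h}),
        LinearEquiv.det (restrictHom W _ hpres ⟨k, hk⟩) = 1 := by
      intro k hk
      induction hk using Subgroup.closure_induction with
      | mem g hg =>
        obtain ⟨φ, v, h, hv, -, rfl⟩ := hg
        have h1 : restrictHom W _ hpres ⟨LinearEquiv.transvection h, Subgroup.subset_closure
            ⟨φ, v, h, hv, ‹_›, rfl⟩⟩ = LinearEquiv.transvection (f := φ ∘ₗ W.subtype)
              (v := (⟨v, hv⟩ : ↥W)) (by simpa using h) :=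
          restrictEquiv_transvection W h hv _ _
        rw [h1]
        exact LinearEquiv.transvection.det_eq_one _
      | one =>
        have h1 : (⟨1, Subgroup.one_mem _⟩ : ↥(Subgroup.closure {t : V ≃ₗ[F] V |
          ∃ (φ : Module.Dual F V) (v : V) (h : φ v = 0),
            v ∈ W ∧ (∀ x ∈ C, φ x = 0) ∧ t = LinearEquiv.transvection h})) = 1 := rfl
        rw [h1, map_one, map_one]
      | mul a b ha hb iha ihb =>
        have h1 : (⟨a * b, Subgroup.mul_mem _ ha hb⟩ : ↥(Subgroup.closure {t : V ≃ₗ[F] V |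
          ∃ (φ : Module.Dual F V) (v : V) (h : φ v = 0),
            v ∈ W ∧ (∀ x ∈ C, φ x = 0) ∧ t = LinearEquiv.transvection h})) = ⟨a, ha⟩ * ⟨b, hb⟩ := rfl
        rw [h1, map_mul, map_mul, iha, ihb, one_mul]
      | inv a ha iha =>
        have h1 : (⟨a⁻¹, Subgroup.inv_mem _ ha⟩ : ↥(Subgroup.closure {t : V ≃ₗ[F] V |
          ∃ (φ : Module.Dual F V) (v : V) (h : φ v = 0),
            v ∈ W ∧ (∀ x ∈ C, φ x = 0) ∧ t = LinearEquiv.transvection h})) = ⟨a, ha⟩⁻¹ := rfl
        rw [h1, map_inv, map_inv, iha, inv_one]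
    have h2 := key k hk
    have h3 := congrArg Units.val h2
    rw [LinearEquiv.coe_det] at h3
    simpa using h3
  · intro hf
    have h1 := hSLG F ↥W f hf
    have hle : Subgroup.closure (LinearEquiv.transvections F ↥W) ≤ (restrictHom W _ hpres).range := by
      rw [Subgroup.closure_le]
      rintro t ⟨fb, vb, hfv, rfl⟩
      have hφ : (LinearMap.ofIsCompl hWC fb 0 : Module.Dual F V) (vb : V) = 0 := by
        rw [LinearMap.ofIsCompl_apply_left]; exact hfv
      have hC : ∀ x ∈ C, (LinearMap.ofIsCompl hWC fb 0 : Module.Dual F V) x = 0 := by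
        intro x hx
        have := LinearMap.ofIsCompl_apply_right hWC (φ := fb) (ψ := 0) ⟨x, hx⟩
        simpa using this
      refine ⟨⟨LinearEquiv.transvection hφ, Subgroup.subset_closure ⟨_, _, hφ, vb.2, hC, rfl⟩⟩, ?_⟩
      have h2 := restrictEquiv_transvection W hφ vb.2
        (transvection_preserves W hφ vb.2).1 (transvection_preserves W hφ vb.2).2
      show restrictEquiv W (LinearEquiv.transvection hφ) _ _ = _
      rw [h2]
      ext x
      simp [LinearEquiv.transvection, LinearMap.transvection.apply]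
    exact MonoidHom.mem_range.mp (hle h1)

end Cfsg.Agent.Lib.Helper33.MclSLC
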