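import Mathlib
import Cfsg.Agent.Lib.Helper83.MclStmt
import Cfsg.Agent.Lib.Helper94.Tv

/-!
# McLaughlin, piece SLG: `SL(W)` is generated by transvections
-/

set_option autoImplicit false

namespace Cfsg.Agent.Lib.Helper33.MclSLG

universe u v

variable {F : Type u} [Field F] {W : Type v} [AddCommGroup W] [Module F W]

/-- The linear automorphism of `W` whose matrix in the basis `b` is `A ∈ SL`. -/
noncomputable def ofSL {n : ℕ} (b : Module.Basis (Fin n) F W)
    (A : Matrix.SpecialLinearGroup (Fin n) F) : W ≃ₗ[F] W :=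
  Matrix.toLinearEquiv b A.1 (by rw [A.2]; exact isUnit_one)

theorem ofSL_apply {n : ℕ} (b : Module.Basis (Fin n) F W)
    (A : Matrix.SpecialLinearGroup (Fin n) F) (x : W) :
    ofSL b A x = Matrix.toLin b b A.1 x := rfl

theorem ofSL_mul {n : ℕ} (b : Module.Basis (Fin n) F W)
    (A B : Matrix.SpecialLinearGroup (Fin n) F) : ofSL b (A * B) = ofSL b A * ofSL b B := by
  ext x
  rw [LinearEquiv.mul_apply, ofSL_apply, ofSL_apply, ofSL_apply,
    Matrix.SpecialLinearGroup.coe_mul, Matrix.toLin_mul b b b, LinearMap.comp_apply]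

theorem ofSL_one {n : ℕ} (b : Module.Basis (Fin n) F W) :
    ofSL b (1 : Matrix.SpecialLinearGroup (Fin n) F) = 1 := by
  ext x
  rw [ofSL_apply, Matrix.SpecialLinearGroup.coe_one, Matrix.toLin_one]
  rfl

theorem ofSL_transvection {n : ℕ} (b : Module.Basis (Fin n) F W) {i j : Fin n} (hij : i ≠ j)
    (a : F) :
    ofSL b (Matrix.SpecialLinearGroup.transvection hij a) ∈ LinearEquiv.transvections F W := by
  have h0 : (a • b.coord j) (b i) = 0 := by
    simp [Module.Basis.coord_apply, hij]
  refine ⟨a • b.coord j, b i, h0, ?_⟩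
  apply LinearEquiv.toLinearMap_injective
  apply b.ext
  intro k
  show Matrix.toLin b b (Matrix.SpecialLinearGroup.transvection hij a).1 (b k) =
    b k + (a • b.coord j) (b k) • b i
  rw [Matrix.toLin_self, Matrix.SpecialLinearGroup.transvection_coe]
  simp only [Matrix.add_apply, Matrix.one_apply, Matrix.single_apply, add_smul, Finset.sum_add_distrib]
  congr 1
  · simp
  · by_cases hk : j = k
    · subst hk
      simp [Module.Basis.coord_apply]
    · simp [Module.Basis.coord_apply, hk]

/-- A square matrix of size `< 2` and determinant `1` is the identity. -/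
theorem eq_one_of_det {n : ℕ} (hn : n < 2) (M : Matrix (Fin n) (Fin n) F) (h : M.det = 1) :
    M = 1 := by
  interval_cases n
  · exact Subsingleton.elim _ _
  · ext i j
    have hi : i = 0 := Subsingleton.elim _ _
    have hj : j = 0 := Subsingleton.elim _ _
    subst hi hj
    rw [Matrix.det_fin_one] at h
    simp [h]

theorem main : Cfsg.Agent.Lib.Helper83.MclStmt.SLG.{u, v} := by
  intro F _ W _ _ _ f hf
  classical
  let b : Module.Basis (Fin (Module.finrank F W)) F W := Module.finBasis F W
  have hdet : (LinearMap.toMatrix b b (f : W →ₗ[F] W)).det = 1 := by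
    rw [LinearMap.det_toMatrix]; exact hf
  obtain ⟨A, hA⟩ : ∃ A : Matrix.SpecialLinearGroup (Fin (Module.finrank F W)) F,
      A.1 = LinearMap.toMatrix b b (f : W →ₗ[F] W) := ⟨⟨_, hdet⟩, rfl⟩
  have hfA : f = ofSL b A := by
    ext x
    rw [ofSL_apply, hA, Matrix.toLin_toMatrix]
    rfl
  rw [hfA]
  rcases Nat.lt_or_ge (Module.finrank F W) 2 with hn2 | hn2
  · have hA1 : A = 1 := Subtype.ext (eq_one_of_det hn2 A.1 A.2)
    rw [hA1, ofSL_one]
    exact Subgroup.one_mem _
  · have : Nontrivial (Fin (Module.finrank F W)) := Fin.nontrivial_iff_two_le.mpr hn2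
    refine Matrix.SpecialLinearGroup.diagonal_transvection_induction'
      (fun A => ofSL b A ∈ Subgroup.closure (LinearEquiv.transvections F W)) A ?_ ?_ ?_
    · intro i j hij c hc
      show ofSL b (Matrix.SpecialLinearGroup.diag2n hij c hc) ∈ _
      rw [Cfsg.Agent.Lib.Helper94.Tv.diag2n_eq hij c hc]
      simp only [ofSL_mul]
      have ht : ∀ {i j : Fin (Module.finrank F W)} (hij : i ≠ j) (a : F),
          ofSL b (Matrix.SpecialLinearGroup.transvection hij a) ∈
            Subgroup.closure (LinearEquiv.transvections F W) :=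
        fun hij a => Subgroup.subset_closure (ofSL_transvection b hij a)
      exact Subgroup.mul_mem _ (Subgroup.mul_mem _ (Subgroup.mul_mem _ (Subgroup.mul_mem _
        (Subgroup.mul_mem _ (ht _ _) (ht _ _)) (ht _ _)) (ht _ _)) (ht _ _)) (ht _ _)
    · intro i j hij a
      exact Subgroup.subset_closure (ofSL_transvection b hij a)
    · intro A B hA hB
      show ofSL b (A * B) ∈ _
      rw [ofSL_mul]
      exact Subgroup.mul_mem _ hA hB

end Cfsg.Agent.Lib.Helper33.MclSLG
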