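import Mathlib

set_option autoImplicit false

namespace Cfsg.Agent.Lib.Helper33.Norm

variable {G : Type*} [Group G]

open scoped IsMulCommutative in
/-- Relative norm map: for an abelian `p`-subgroup `A` normalized by `N` and a subgroup `S ≤ N` of
index prime to `p`, the fixed points of `N` on `A` are a direct factor of the fixed points of `S`. -/
theorem norm_complement [Finite G] {p : ℕ} [Fact p.Prime] (N S A : Subgroup G) (hSN : S ≤ N)
    (hidx : ¬ p ∣ S.relIndex N) (hA : ∀ a ∈ A, ∀ b ∈ A, a * b = b * a) (hAp : IsPGroup p ↥A)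
    (hNA : N ≤ Subgroup.normalizer (A : Set G)) :
    ∃ K : Subgroup G, K ≤ A ⊓ Subgroup.centralizer (S : Set G) ∧
      (A ⊓ Subgroup.centralizer (N : Set G)) ⊓ K = ⊥ ∧
      (A ⊓ Subgroup.centralizer (N : Set G)) ⊔ K = A ⊓ Subgroup.centralizer (S : Set G) := by
  classical
  have : IsMulCommutative ↥A := ⟨⟨fun a b => Subtype.ext (hA a a.2 b b.2)⟩⟩
  have hmem : ∀ (n : ↥N) (x : ↥(A ⊓ Subgroup.centralizer (S : Set G))),
      (n : G) * x * (n : G)⁻¹ ∈ A := fun n x =>
    (Subgroup.mem_normalizer_iff.mp (hNA n.2) _).mp x.2.1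
  let c : ↥N → ↥(A ⊓ Subgroup.centralizer (S : Set G)) → ↥A :=
    fun n x => ⟨(n : G) * x * (n : G)⁻¹, hmem n x⟩
  have c_mul : ∀ n x y, c n (x * y) = c n x * c n y := by
    intro n x y
    apply Subtype.ext
    show (n : G) * ((x : G) * (y : G)) * (n : G)⁻¹ =
      ((n : G) * x * (n : G)⁻¹) * ((n : G) * y * (n : G)⁻¹)
    group
  have c_right : ∀ (n : ↥N) (h : ↥(S.subgroupOf N)) x, c (n * h) x = c n x := by
    intro n h x
    apply Subtype.ext
    have hs : ((h : ↥N) : G) ∈ S := Subgroup.mem_subgroupOf.mp h.2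
    have hcomm : ((h : ↥N) : G) * (x : G) = (x : G) * ((h : ↥N) : G) :=
      Subgroup.mem_centralizer_iff.mp x.2.2 _ hs
    show ((n : G) * ((h : ↥N) : G)) * x * ((n : G) * ((h : ↥N) : G))⁻¹ = (n : G) * x * (n : G)⁻¹
    calc ((n : G) * ((h : ↥N) : G)) * x * ((n : G) * ((h : ↥N) : G))⁻¹
        = (n : G) * (((h : ↥N) : G) * x) * ((h : ↥N) : G)⁻¹ * (n : G)⁻¹ := by group
      _ = (n : G) * ((x : G) * ((h : ↥N) : G)) * ((h : ↥N) : G)⁻¹ * (n : G)⁻¹ := by rw [hcomm]
      _ = (n : G) * x * (n : G)⁻¹ := by group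
  haveI : Fintype (↥N ⧸ S.subgroupOf N) := Fintype.ofFinite _
  let τ : ↥(A ⊓ Subgroup.centralizer (S : Set G)) →* ↥A :=
    MonoidHom.mk' (fun x => ∏ q : ↥N ⧸ S.subgroupOf N, c (Quotient.out q) x) (by
      intro x y
      simp only [c_mul]
      exact Finset.prod_mul_distrib)
  have τ_apply : ∀ x, τ x = ∏ q : ↥N ⧸ S.subgroupOf N, c (Quotient.out q) x := fun x => rfl
  -- invariance
  have τ_inv : ∀ (m : ↥N) x, (m : G) * (τ x : G) * (m : G)⁻¹ = (τ x : G) := by
    intro m x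
    have hκ : ∀ a : ↥A, (m : G) * a * (m : G)⁻¹ ∈ A := fun a =>
      (Subgroup.mem_normalizer_iff.mp (hNA m.2) _).mp a.2
    let κ : ↥A →* ↥A := MonoidHom.mk' (fun a => ⟨(m : G) * a * (m : G)⁻¹, hκ a⟩) (by
      intro a b
      apply Subtype.ext
      show (m : G) * ((a : G) * (b : G)) * (m : G)⁻¹ =
        ((m : G) * a * (m : G)⁻¹) * ((m : G) * b * (m : G)⁻¹)
      group)
    have h1 : κ (τ x) = τ x := by
      rw [τ_apply, map_prod]
      have h2 : ∀ q : ↥N ⧸ S.subgroupOf N,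
          κ (c (Quotient.out q) x) = c (Quotient.out (m • q)) x := by
        intro q
        have h3 : m • q = ((m * Quotient.out q : ↥N) : ↥N ⧸ S.subgroupOf N) := by
          conv_lhs => rw [← QuotientGroup.out_eq' q]
          rfl
        obtain ⟨h, hh⟩ := QuotientGroup.mk_out_eq_mul (S.subgroupOf N) (m * Quotient.out q)
        rw [h3, hh, c_right]
        apply Subtype.ext
        show (m : G) * ((Quotient.out q : ↥N) * (x : G) * ((Quotient.out q : ↥N) : G)⁻¹) * (m : G)⁻¹ =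
          ((m : G) * ((Quotient.out q : ↥N) : G)) * x * ((m : G) * ((Quotient.out q : ↥N) : G))⁻¹
        group
      simp only [h2]
      exact Fintype.prod_equiv (MulAction.toPerm m) _ _ (fun q => rfl)
    exact congrArg Subtype.val h1
  -- values on fixed points
  have τ_fix : ∀ x : ↥(A ⊓ Subgroup.centralizer (S : Set G)),
      (x : G) ∈ Subgroup.centralizer (N : Set G) → (τ x : G) = (x : G) ^ S.relIndex N := by
    intro x hx
    have h1 : ∀ n : ↥N, c n x = ⟨x, x.2.1⟩ := by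
      intro n
      apply Subtype.ext
      have hcomm : (n : G) * (x : G) = (x : G) * (n : G) :=
        Subgroup.mem_centralizer_iff.mp hx _ n.2
      show (n : G) * x * (n : G)⁻¹ = x
      rw [hcomm]
      group
    rw [τ_apply]
    simp only [h1, Finset.prod_const, Finset.card_univ]
    rw [Subgroup.coe_pow]
    congr 1
    rw [← Nat.card_eq_fintype_card]
    rfl
  have hτN : ∀ x, (τ x : G) ∈ A ⊓ Subgroup.centralizer (N : Set G) := by
    intro x
    refine Subgroup.mem_inf.mpr ⟨(τ x).2, ?_⟩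
    rw [Subgroup.mem_centralizer_iff]
    intro n hn
    have h1 := τ_inv ⟨n, hn⟩ x
    have h2 : n * (τ x : G) = (τ x : G) * n := by
      calc n * (τ x : G) = (n * (τ x : G) * n⁻¹) * n := by group
        _ = (τ x : G) * n := by rw [h1]
    exact h2
  have hWZ : A ⊓ Subgroup.centralizer (N : Set G) ≤ A ⊓ Subgroup.centralizer (S : Set G) :=
    inf_le_inf_left _ (Subgroup.centralizer_le hSN)
  have hcop : (Nat.card ↥A).Coprime (S.relIndex N) := by
    obtain ⟨k, hk⟩ := hAp.exists_card_eq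
    rw [hk]
    exact Nat.Coprime.pow_left k ((Nat.Prime.coprime_iff_not_dvd Fact.out).mpr hidx)
  refine ⟨τ.ker.map (Subgroup.subtype _), Subgroup.map_subtype_le _, ?_, ?_⟩
  · rw [eq_bot_iff]
    rintro w ⟨hwW, ⟨x, hx, rfl⟩⟩
    rw [Subgroup.mem_bot]
    have h1 : (τ x : G) = 1 := by
      rw [MonoidHom.mem_ker.mp hx]
      rfl
    have h2 := τ_fix x hwW.2
    rw [h1] at h2
    have h3 : (⟨(x : G), x.2.1⟩ : ↥A) ^ S.relIndex N = 1 := by
      apply Subtype.ext
      rw [Subgroup.coe_pow]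
      exact h2.symm
    have h4 : (⟨(x : G), x.2.1⟩ : ↥A) = 1 := by
      have h5 : orderOf (⟨(x : G), x.2.1⟩ : ↥A) ∣ S.relIndex N := orderOf_dvd_of_pow_eq_one h3
      have h6 : orderOf (⟨(x : G), x.2.1⟩ : ↥A) ∣ Nat.card ↥A := orderOf_dvd_natCard _
      have h7 : orderOf (⟨(x : G), x.2.1⟩ : ↥A) = 1 := Nat.eq_one_of_dvd_coprimes hcop h6 h5
      exact orderOf_eq_one_iff.mp h7
    exact congrArg Subtype.val h4
  · apply le_antisymm
    · exact sup_le hWZ (Subgroup.map_subtype_le _)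
    · intro z hz
      -- w₀ = τ z, a fixed point
      have hw₀ := hτN ⟨z, hz⟩
      -- a root of `τ z` among the fixed points
      have hy : ((τ ⟨z, hz⟩ : ↥A) ^ ((Nat.card ↥A).gcdB (S.relIndex N))) ^ S.relIndex N =
          τ ⟨z, hz⟩ := (powCoprime hcop).right_inv (τ ⟨z, hz⟩)
      have hyW : (((τ ⟨z, hz⟩ : ↥A) ^ ((Nat.card ↥A).gcdB (S.relIndex N)) : ↥A) : G) ∈
          A ⊓ Subgroup.centralizer (N : Set G) := by
        rw [Subgroup.coe_zpow]
        exact Subgroup.zpow_mem _ hw₀ _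
      have hτw : τ ⟨_, hWZ hyW⟩ = τ ⟨z, hz⟩ := by
        apply Subtype.ext
        rw [τ_fix ⟨_, hWZ hyW⟩ hyW.2]
        have := congrArg Subtype.val hy
        rw [Subgroup.coe_pow] at this
        exact this
      have hker : (⟨z, hz⟩ : ↥(A ⊓ Subgroup.centralizer (S : Set G))) * (⟨_, hWZ hyW⟩)⁻¹ ∈ τ.ker := by
        rw [MonoidHom.mem_ker, map_mul, map_inv, hτw, mul_inv_cancel]
      have e : z = (z * (((τ ⟨z, hz⟩ : ↥A) ^ ((Nat.card ↥A).gcdB (S.relIndex N)) : ↥A) : G)⁻¹) *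
          (((τ ⟨z, hz⟩ : ↥A) ^ ((Nat.card ↥A).gcdB (S.relIndex N)) : ↥A) : G) := by group
      rw [e, sup_comm]
      exact Subgroup.mul_mem_sup ⟨_, hker, rfl⟩ hyW

end Cfsg.Agent.Lib.Helper33.Norm
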