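import Mathlib
import Cfsg.Agent.Lib.Helper44.PGStmt
import Cfsg.Agent.Lib.Helper40.InvDims

/-!
# S2474 / SQFU (helper33): a matrix of order `p` commuting with a matrix with squarefree
characteristic polynomial is trivial (characteristic `p`)

Route: `T` is semisimple.  If `D = U - 1 ≠ 0`, let `ε` be the last non-zero power of `D`:
`ε² = 0`, `ε` commutes with `T`.  `K = ker ε` has a `T`-invariant complement `C`, `ε` maps `C`
isomorphically and `T`-equivariantly onto `R = range ε ≤ K`, so the characteristic polynomial of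
`T` on `R ⊕ C` is a square of positive degree dividing `T.charpoly`.
-/

set_option autoImplicit false

namespace Cfsg.Agent.Lib.Helper33.PGSQFU

open Matrix Polynomial
open Cfsg.Agent.Lib.Helper40.InvDims Cfsg.Agent.Lib.Helper40.SSConj

universe u

theorem sq_dvd_charpoly {F : Type*} [Field F] {V : Type*} [AddCommGroup V] [Module F V]
    [FiniteDimensional F V] (φ ε : Module.End F V) (hs : φ.IsSemisimple)
    (hc : ∀ v, ε (φ v) = φ (ε v)) (hε0 : ε ≠ 0) (hε2 : ∀ v, ε (ε v) = 0) :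
    ∃ g : F[X], 0 < g.natDegree ∧ g * g ∣ φ.charpoly := by
  obtain ⟨K, hKdef⟩ : ∃ K, K = LinearMap.ker ε := ⟨_, rfl⟩
  obtain ⟨R, hRdef⟩ : ∃ R, R = LinearMap.range ε := ⟨_, rfl⟩
  have hK : K ∈ φ.invtSubmodule := by
    rw [Module.End.mem_invtSubmodule]
    intro v hv
    rw [hKdef, LinearMap.mem_ker] at hv
    rw [Submodule.mem_comap, hKdef, LinearMap.mem_ker, hc, hv, map_zero]
  have hR : R ∈ φ.invtSubmodule := by
    rw [Module.End.mem_invtSubmodule]
    intro v hv
    rw [hRdef] at hv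
    obtain ⟨w, rfl⟩ := hv
    rw [Submodule.mem_comap, hRdef]
    exact ⟨φ w, hc w⟩
  obtain ⟨C, hC, hKC⟩ := (Module.End.isSemisimple_iff.mp hs) K hK
  have hRK : R ≤ K := by
    intro v hv
    rw [hRdef] at hv
    obtain ⟨w, rfl⟩ := hv
    rw [hKdef, LinearMap.mem_ker]
    exact hε2 w
  have hRC : R ⊓ C = ⊥ := by
    rw [eq_bot_iff]
    exact (inf_le_inf_right C hRK).trans hKC.inf_eq_bot.le
  have hS : R ⊔ C ∈ φ.invtSubmodule := Sublattice.sup_mem hR hC
  have hmemR : ∀ v, ε v ∈ R := fun v => by rw [hRdef]; exact LinearMap.mem_range_self ε v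
  obtain ⟨e0, he0⟩ : ∃ e0 : C →ₗ[F] R, ∀ c : C, (e0 c : V) = ε (c : V) :=
    ⟨(ε.codRestrict R hmemR).comp C.subtype, fun c => rfl⟩
  have hinj : Function.Injective e0 := by
    rw [injective_iff_map_eq_zero]
    intro c hc0
    have h1 : ε (c : V) = 0 := by rw [← he0, hc0]; rfl
    have h2 : (c : V) ∈ K ⊓ C := ⟨by rw [hKdef]; exact LinearMap.mem_ker.mpr h1, c.2⟩
    rw [hKC.inf_eq_bot, Submodule.mem_bot] at h2
    exact Subtype.ext h2
  have hsurj : Function.Surjective e0 := by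
    rintro ⟨r, hr⟩
    have hr' := hr
    rw [hRdef] at hr'
    obtain ⟨w, rfl⟩ := hr'
    have hw : w ∈ K ⊔ C := by rw [hKC.sup_eq_top]; trivial
    obtain ⟨k, hk, c, hc', rfl⟩ := Submodule.mem_sup.mp hw
    refine ⟨⟨c, hc'⟩, Subtype.ext ?_⟩
    rw [he0]
    show ε c = ε (k + c)
    rw [hKdef, LinearMap.mem_ker] at hk
    rw [map_add, hk, zero_add]
  obtain ⟨e, he⟩ : ∃ e : C ≃ₗ[F] R, ∀ c : C, (e c : V) = ε (c : V) :=
    ⟨LinearEquiv.ofBijective e0 ⟨hinj, hsurj⟩, he0⟩
  have hconj : e.conj (res φ C hC) = res φ R hR := by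
    apply LinearMap.ext
    intro y
    obtain ⟨x, rfl⟩ := e.surjective y
    apply Subtype.ext
    rw [LinearEquiv.conj_apply, LinearMap.comp_apply, LinearMap.comp_apply]
    simp only [LinearEquiv.coe_coe, LinearEquiv.symm_apply_apply]
    rw [he]
    show ε (φ (x : V)) = φ ((e x : R) : V)
    rw [he, hc]
  have hchar : (res φ R hR).charpoly = (res φ C hC).charpoly := by
    rw [← hconj, LinearEquiv.charpoly_conj]
  have h1 := charpoly_sup φ R C hR hC hRC hS
  have h2 := charpoly_restrict_dvd φ hs (R ⊔ C) hS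
  refine ⟨(res φ R hR).charpoly, ?_, ?_⟩
  · rw [LinearMap.charpoly_natDegree, Module.finrank_pos_iff_exists_ne_zero]
    obtain ⟨v, hv⟩ : ∃ v, ε v ≠ 0 := by
      by_contra hcon
      push Not at hcon
      exact hε0 (LinearMap.ext hcon)
    exact ⟨⟨ε v, hmemR v⟩, fun h => hv (congrArg Subtype.val h)⟩
  · rw [h1, ← hchar] at h2
    exact h2

theorem main : Cfsg.Agent.Lib.Helper44.PGStmt.SqfreeUnip.{u} := by
  intro F _ p _ _ κ _ _ T U hsq hUT hUp
  by_contra hU1
  rcases isEmpty_or_nonempty κ with hκ | hκ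
  · exact hU1 (Subsingleton.elim _ _)
  have hD0 : U - 1 ≠ 0 := sub_ne_zero.mpr hU1
  have hDp : (U - 1) ^ p = 0 := by
    rw [sub_pow_char_of_commute (p := p) (h := Commute.one_right U), hUp, one_pow, sub_self]
  have hDT : (U - 1) * T = T * (U - 1) := by
    rw [sub_mul, mul_sub, hUT, one_mul, mul_one]
  -- the last non-zero power
  have hex : ∃ n, (U - 1) ^ (n + 1) = 0 := ⟨p, by rw [pow_succ, hDp, zero_mul]⟩
  classical
  obtain ⟨j, hj⟩ : ∃ j, j = Nat.find hex := ⟨_, rfl⟩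
  have hj1 : (U - 1) ^ (j + 1) = 0 := by rw [hj]; exact Nat.find_spec hex
  have hj0 : j ≠ 0 := by
    rintro rfl
    rw [zero_add, pow_one] at hj1
    exact hD0 hj1
  have hjm : (U - 1) ^ j ≠ 0 := by
    have h := Nat.find_min hex (m := j - 1) (by rw [← hj]; omega)
    rwa [Nat.sub_add_cancel (Nat.one_le_iff_ne_zero.mpr hj0)] at h
  obtain ⟨E, hE⟩ : ∃ E, E = (U - 1) ^ j := ⟨_, rfl⟩
  have hE0 : E ≠ 0 := hE ▸ hjm
  have hE2 : E * E = 0 := by
    rw [hE, ← pow_add]
    obtain ⟨m, hm⟩ : ∃ m, j + j = (j + 1) + m := ⟨j - 1, by omega⟩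
    rw [hm, pow_add, hj1, zero_mul]
  have hET : E * T = T * E := by
    rw [hE]
    exact ((Commute.pow_left (show Commute (U - 1) T from hDT) j)).eq
  have hs : Module.End.IsSemisimple (Matrix.toLin' T) := by
    apply Module.End.isSemisimple_of_squarefree_aeval_eq_zero (p := T.charpoly) hsq
    rw [← Matrix.charpoly_toLin' T]
    exact LinearMap.aeval_self_charpoly _
  obtain ⟨g, hg0, hgg⟩ := sq_dvd_charpoly (Matrix.toLin' T) (Matrix.toLin' E) hs
    (fun v => by
      rw [Matrix.toLin'_apply, Matrix.toLin'_apply, Matrix.toLin'_apply, Matrix.toLin'_apply,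
        Matrix.mulVec_mulVec, Matrix.mulVec_mulVec, hET])
    (fun h => hE0 (Matrix.toLin'.injective (by rw [h, map_zero])))
    (fun v => by
      rw [Matrix.toLin'_apply, Matrix.toLin'_apply, Matrix.mulVec_mulVec, hE2,
        Matrix.zero_mulVec])
  rw [Matrix.charpoly_toLin'] at hgg
  have hu := hsq g hgg
  have := Polynomial.natDegree_eq_zero_of_isUnit hu
  omega

end Cfsg.Agent.Lib.Helper33.PGSQFU
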