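import Mathlib

set_option autoImplicit false

namespace Cfsg.Agent.Lib.Helper33.SmallFacts

/-- The cyclic permutation `i ↦ j ↦ k ↦ i` of the quaternion group of order `8`. -/
def q8f : QuaternionGroup 2 → QuaternionGroup 2
  | .a i => if i = 0 then .a 0 else if i = 1 then .xa 0 else if i = 2 then .a 2 else .xa 2
  | .xa i => if i = 0 then .xa 3 else if i = 1 then .a 3 else if i = 2 then .xa 1 else .a 1

theorem q8f_mul : ∀ x y : QuaternionGroup 2, q8f (x * y) = q8f x * q8f y := by decide

theorem q8f_cube : ∀ x : QuaternionGroup 2, q8f (q8f (q8f x)) = x := by decide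

/-- The automorphism of order three of the quaternion group of order `8`. -/
def q8α : MulAut (QuaternionGroup 2) where
  toFun := q8f
  invFun := fun x => q8f (q8f x)
  left_inv := q8f_cube
  right_inv := q8f_cube
  map_mul' := q8f_mul

theorem q8_aut : ∃ α : MulAut (QuaternionGroup 2), α ^ 3 = 1 ∧ α ≠ 1 := by
  refine ⟨q8α, ?_, ?_⟩
  · ext x
    show (q8α ^ 3) x = x
    rw [pow_succ, pow_succ, pow_one, MulAut.mul_apply, MulAut.mul_apply]
    exact q8f_cube x
  · intro h
    have h1 : q8α (QuaternionGroup.a 1) = QuaternionGroup.a 1 := by rw [h]; rfl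
    have h2 : q8α (QuaternionGroup.a 1) = QuaternionGroup.xa 0 := by decide
    rw [h2] at h1
    cases h1

/-- The dihedral group of order four as a product of two cyclic groups of order two. -/
def kleinF : DihedralGroup 2 → Multiplicative (ZMod (2 ^ 1)) × Multiplicative (ZMod (2 ^ 1))
  | .r i => (Multiplicative.ofAdd (show ZMod (2 ^ 1) from i), Multiplicative.ofAdd 0)
  | .sr i => (Multiplicative.ofAdd (show ZMod (2 ^ 1) from i), Multiplicative.ofAdd 1)

def kleinG : Multiplicative (ZMod (2 ^ 1)) × Multiplicative (ZMod (2 ^ 1)) → DihedralGroup 2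
  | (x, y) => if Multiplicative.toAdd y = 0 then .r (show ZMod 2 from Multiplicative.toAdd x)
      else .sr (show ZMod 2 from Multiplicative.toAdd x)

theorem kleinF_mul : ∀ x y : DihedralGroup 2, kleinF (x * y) = kleinF x * kleinF y := by decide

theorem klein_left : ∀ x : DihedralGroup 2, kleinG (kleinF x) = x := by decide

theorem klein_right : ∀ x : Multiplicative (ZMod (2 ^ 1)) × Multiplicative (ZMod (2 ^ 1)),
    kleinF (kleinG x) = x := by decide

theorem klein_iso :
    Nonempty (DihedralGroup 2 ≃* Multiplicative (ZMod (2 ^ 1)) × Multiplicative (ZMod (2 ^ 1))) :=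
  ⟨{ toFun := kleinF
     invFun := kleinG
     left_inv := klein_left
     right_inv := klein_right
     map_mul' := kleinF_mul }⟩

end Cfsg.Agent.Lib.Helper33.SmallFacts
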