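import Mathlib
import Cfsg.Agent.Lib.Helper39.TLStmt

/-!
# S4404, piece CASE2 (glue): from `Hall`, `Frob`, `PW5`, `PW7`, `Fin2`.
-/

set_option autoImplicit false

namespace Cfsg.Agent.Lib.Helper33.TLCASE2

open Cfsg Cfsg.Agent.Lib.Helper39.TLStmt

universe u

theorem main (hH : Hall.{u}) (hF : Frob.{u}) (h5 : PW5.{u}) (h7 : PW7.{u}) (hFin : Cfsg.Agent.Lib.Helper39.TLStmt.Fin2.{u}) :
    Case2.{u} := by
  intro S _ _ _ M _ hM p hp hp2 hp3 E Q hE hE3 hQ3 hrank x W hxQ hrefl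
  have hEp : IsPGroup p ↥E := by
    intro a
    exact ⟨1, by rw [pow_one]; exact Subtype.ext (hE.2 a.1 a.2)⟩
  obtain ⟨T, hT, hQT, g, hgT⟩ := hH S p hp Q E hQ3 hEp
  obtain ⟨Y, hYT, hYp, hYn, hYmax⟩ := hF S p hp hp2 hp3 hrank T hT
  have hinj : Function.Injective (MulAut.conj g).toMonoidHom := (MulAut.conj g).injective
  have hE'p : IsPGroup p ↥(E.map (MulAut.conj g).toMonoidHom) := hEp.map _
  have hE'Y : E.map (MulAut.conj g).toMonoidHom ≤ Y := hYmax _ hgT hE'p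
  have hE'card : Nat.card ↥(E.map (MulAut.conj g).toMonoidHom) = p ^ 3 := by
    rw [Subgroup.card_map_of_injective hinj, hE3]
  have hE'elem : IsElementaryAbelian p (E.map (MulAut.conj g).toMonoidHom) := by
    constructor
    · refine ⟨⟨?_⟩⟩
      rintro ⟨_, a, ha, rfl⟩ ⟨_, b, hb, rfl⟩
      apply Subtype.ext
      have hab : a * b = b * a :=
        congrArg Subtype.val (hE.1.is_comm.comm ⟨a, ha⟩ ⟨b, hb⟩)
      show (MulAut.conj g).toMonoidHom a * (MulAut.conj g).toMonoidHom b =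
        (MulAut.conj g).toMonoidHom b * (MulAut.conj g).toMonoidHom a
      rw [← map_mul, ← map_mul, hab]
    · rintro _ ⟨a, ha, rfl⟩
      rw [← map_pow, hE.2 a ha, map_one]
  have hxn : ∀ y ∈ Y, x * y * x⁻¹ ∈ Y := fun y hy => hYn x (hQT hxQ) y hy
  have hle : Nat.card ↥Y ≤ 7 * Nat.card ↥(Y ⊓ Subgroup.centralizer (W : Set S)) := by
    by_cases hp7 : p = 7
    · subst hp7
      exact h7 S M hM Y Q hYp hQ3 x W hxQ hrefl hxn
    · have hc := h5 S M hM p hp hp2 hp3 hp7 Y Q hYp hQ3 x W hxQ hrefl hxn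
      rw [inf_eq_left.mpr hc]
      have : 0 < Nat.card ↥Y := Nat.card_pos
      omega
  exact ⟨_, hE'elem, hE'card, hFin S p hp hp2 hp3 Y _ _ hYp hE'Y hE'elem hE'card hle⟩

end Cfsg.Agent.Lib.Helper33.TLCASE2
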